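import Mathlib
import Cfsg.Agent.Lib.Helper32.Uniq8
import Cfsg.Agent.Lib.Helper42.Fusion5
import Cfsg.Agent.Lib.Helper42.Sec2
import Cfsg.Agent.S1451
import Cfsg.Agent.S1450
import Cfsg.Agent.S1452
import Cfsg.Agent.Lib.Helper87.U95J1
import Cfsg.Agent.Lib.Helper42.U95J2
import Cfsg.Agent.Lib.Helper87.U95J3
import Cfsg.Agent.Lib.Helper30.U95J4
import Cfsg.Agent.Lib.Helper30.U95J5
import Cfsg.Agent.Lib.Helper18.U95J6
import Cfsg.Agent.Lib.Helper88.U95J7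
import Cfsg.Agent.Lib.Helper88.U95J8

/-!
# B&G Lemma 9.5: the job pieces J1–J8 (helper3)

The eight self-contained pieces of the proof of B&G Lemma 9.5, proved by helper87 (J1, J3),
helper42 (J2), helper30 (J4, J5), helper18 (J6) and helper88 (J7, J8), restated here under one
namespace.
-/

set_option autoImplicit false

namespace Cfsg.Agent.Lib.Helper3.U95

open Cfsg Cfsg.Agent.Lib.Helper34 Cfsg.Agent.Lib.Helper32
open scoped commutatorElement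

universe u

section pure

variable {G : Type u} [Group G] [Finite G]

/-- J1 -/
theorem comm_factor {p : ℕ} [Fact p.Prime] {H X Y P : Subgroup G}
    (hX : (Nat.card X).Coprime p) (hXn : H ≤ Subgroup.normalizer (X : Set G))
    (hYH : Y ≤ H) (hH : H ≤ X ⊔ Y) (hP : IsPGroup p P) (hPY : P ≤ Y)
    (hPH : P ≤ ⁅H, H⁆) : P ≤ ⁅Y, Y⁆ :=
  Cfsg.Agent.Lib.Helper87.U95.comm_factor hX hXn hYH hH hP hPY hPH

/-- J2 -/
theorem conj_eq_of_core_factor {p : ℕ} [Fact p.Prime] {O N R B : Subgroup G} {k n : G}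
    (hO : (Nat.card O).Coprime p) (hNO : N ≤ Subgroup.normalizer (O : Set G)) (hRN : R ≤ N)
    (hR : IsPGroup p R) (hB : B ≤ R) (hk : k ∈ O) (hn : n ∈ N)
    (hBh : ∀ b ∈ B, (n * k) * b * (n * k)⁻¹ ∈ R) :
    ∃ x ∈ N, ∀ b ∈ B, x * b * x⁻¹ = (n * k) * b * (n * k)⁻¹ :=
  Cfsg.Agent.Lib.Helper42.U95.conj_eq_of_core_factor hO hNO hRN hR hB hk hn hBh

/-- J3 -/
theorem comm_le_centralizer_of_cyclic {L Z : Subgroup G} (hZ : IsCyclic ↥Z)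
    (hLZ : L ≤ Subgroup.normalizer (Z : Set G)) : ⁅L, L⁆ ≤ Subgroup.centralizer (Z : Set G) :=
  Cfsg.Agent.Lib.Helper87.U95.comm_le_centralizer_of_cyclic hZ hLZ

/-- J4 -/
theorem gen3 {p : ℕ} [Fact p.Prime] {E X : Subgroup G}
    (hEc : ∀ a ∈ E, ∀ b ∈ E, a * b = b * a) (hEe : ∀ a ∈ E, a ^ p = 1)
    (hEcard : Nat.card E = p ^ 3) (hEX : E ≤ Subgroup.normalizer (X : Set G))
    (hcop : (Nat.card X).Coprime p) :
    X ≤ ⨆ D ∈ {D : Subgroup G | D ≤ E ∧ Nat.card D = p ^ 2},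
      X ⊓ Subgroup.centralizer (D : Set G) :=
  Cfsg.Agent.Lib.Helper30.U95.gen3 hEc hEe hEcard hEX hcop

/-- J5 -/
theorem omega_lemma {s p : ℕ} [Fact s.Prime] [Fact p.Prime] (hs2 : s ≠ 2) (hps : p ≠ s)
    {T Z₁ W₀ E : Subgroup G} (hT : IsPGroup s T)
    (hZ₁ : ∀ z : G, z ∈ Z₁ ↔ z ∈ T ∧ z ∈ Subgroup.centralizer (T : Set G) ∧ z ^ s = 1)
    (hZ₁c : IsCyclic ↥Z₁)
    (hW₀T : W₀ ≤ T) (hW₀n : T ≤ Subgroup.normalizer (W₀ : Set G))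
    (hW₀c : ∀ a ∈ W₀, ∀ b ∈ W₀, a * b = b * a) (hW₀e : ∀ a ∈ W₀, a ^ s = 1)
    (hW₀card : Nat.card W₀ = s ^ 2)
    (hET : E ≤ Subgroup.normalizer (T : Set G))
    (hEc : ∀ a ∈ E, ∀ b ∈ E, a * b = b * a) (hEe : ∀ a ∈ E, a ^ p = 1)
    (hEcard : Nat.card E = p ^ 3) (hEZ : E ≤ Subgroup.centralizer (Z₁ : Set G)) :
    ∃ D W : Subgroup G, D ≤ E ∧ Nat.card D = p ^ 2 ∧ W ≤ T ∧
      T ≤ Subgroup.normalizer (W : Set G) ∧ (∀ a ∈ W, ∀ b ∈ W, a * b = b * a) ∧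
      (∀ a ∈ W, a ^ s = 1) ∧ Nat.card W = s ^ 2 ∧ D ≤ Subgroup.centralizer (W : Set G) :=
  Cfsg.Agent.Lib.Helper30.U95.omega_lemma hs2 hps hT hZ₁ hZ₁c hW₀T hW₀n hW₀c hW₀e hW₀card hET
    hEc hEe hEcard hEZ

/-- J6 -/
theorem not_prankLE_fittingOf_cj {s : ℕ} (g : G) {L : Subgroup G}
    (h : ¬ PRankLE s 2 ↥(fittingOf (cj g L))) : ¬ PRankLE s 2 ↥(fittingOf L) :=
  Cfsg.Agent.Lib.Helper18.U95.not_prankLE_fittingOf_cj g h

end pure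

section minsimple

variable {G : Type u} [Group G] [Finite G]

/-- J7 -/
theorem comm_nilpotent_of_rankLE (hG : IsMinSimpleOddOrder G) {H : Subgroup G} (hH : H ≠ ⊤)
    (hr : ∀ r : ℕ, r.Prime → PRankLE r 2 ↥(fittingOf H)) :
    Group.IsNilpotent ↥⁅H, H⁆ ∧ ⁅H, H⁆ ≤ fittingOf H :=
  Cfsg.Agent.Lib.Helper88.U95.comm_nilpotent_of_rankLE hG hH hr

/-- J8 -/
theorem le_centralizer_of_prankLE (hG : IsMinSimpleOddOrder G) {p s : ℕ} [Fact p.Prime]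
    [Fact s.Prime] (hsp : s ≠ p) {A H Y : Subgroup G} (hH : H ≠ ⊤) (hAp : IsPGroup p A)
    (hAH : A ≤ ⁅H, H⁆) (hr : PRankLE s 2 ↥H) (hYH : Y ≤ H) (hYs : IsPGroup s Y)
    (hAY : A ≤ Subgroup.normalizer (Y : Set G)) : A ≤ Subgroup.centralizer (Y : Set G) :=
  Cfsg.Agent.Lib.Helper88.U95.le_centralizer_of_prankLE hG hsp hH hAp hAH hr hYH hYs hAY

end minsimple

end Cfsg.Agent.Lib.Helper3.U95
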