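import Mathlib
import Cfsg.Agent.Lib.Helper3.U95P

/-!
# B&G Lemma 9.5, part 1: transfer (helper3)

* `sylow_le_comm_normalizer_relZ`: in a minimal simple group of odd order a Sylow `p`-subgroup
  `P` lies in the derived subgroup of `N_G(Z(L(P)))`.
* `step1`: `P ≤ N_G(Q)'` for every nontrivial maximal `P`-invariant `q`-subgroup `Q`, when
  `SCN_3(P)` is nonempty.
-/

set_option autoImplicit false

namespace Cfsg.Agent.Lib.Helper3.U95

open Cfsg Cfsg.Agent.Lib.Helper34 Cfsg.Agent.Lib.Helper32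
open scoped commutatorElement

universe u

section fusion

variable {G : Type u} [Group G] [Finite G]

theorem relZ_isConjugacyFunctor (p : ℕ) [Fact p.Prime] :
    IsConjugacyFunctor p (relZ : Subgroup G → Subgroup G) := by
  intro P hP
  refine ⟨relZ_le P, fun h => relZ_ne_bot hP h, fun g => ?_⟩
  exact (map_relZ (MulAut.conj g).toMonoidHom
    (fun a _ b _ h => (MulAut.conj g).injective h)).symm

theorem mem_sylSet_of_isSylIn {p : ℕ} [Fact p.Prime] {R H : Subgroup G}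
    (h : Cfsg.Agent.Lib.Helper42.IsSylIn p R H) : R ∈ sylSet p H := by
  obtain ⟨hRH, hRp, hidx⟩ := h
  refine ⟨hRH, ?_⟩
  have hp := (Fact.out : p.Prime)
  obtain ⟨m, hm⟩ := IsPGroup.iff_card.mp hRp
  have h1 : Nat.card R * R.relIndex H = Nat.card H := by
    have := Subgroup.relIndex_mul_relIndex (H := (⊥ : Subgroup G)) (K := R) (L := H) bot_le hRH
    rwa [Subgroup.relIndex_bot_left, Subgroup.relIndex_bot_left] at this
  have h2 : (p ^ m * R.relIndex H).factorization p = m := by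
    have hr0 : R.relIndex H ≠ 0 := fun h0 => hidx (h0 ▸ dvd_zero p)
    rw [Nat.factorization_mul (pow_ne_zero m hp.pos.ne') hr0, Finsupp.add_apply,
      Nat.Prime.factorization_pow hp, Finsupp.single_eq_same,
      Nat.factorization_eq_zero_of_not_dvd hidx, add_zero]
  rw [← h1, hm, h2]

theorem sylow_mem_sylSet {p : ℕ} [Fact p.Prime] (P : Sylow p G) :
    (P : Subgroup G) ∈ sylSet p ⊤ :=
  ⟨le_top, by rw [Subgroup.card_top]; exact P.card_eq_multiplicity⟩

theorem relZ_local_ctl (hG : IsMinSimpleOddOrder G) {p : ℕ} [Fact p.Prime] (hp2 : p ≠ 2)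
    (P : Sylow p G) (T : Subgroup G) (hT1 : T ≠ ⊥)
    (hT : IsWellPlaced p relZ (P : Subgroup G) T) :
    ControlsStrongFusionIn p relZ (Subgroup.normalizer (T : Set G)) := by
  have hsyl : Cfsg.Agent.Lib.Helper42.IsSylIn p
      ((P : Subgroup G) ⊓ Subgroup.normalizer (T : Set G))
      (Subgroup.normalizer (T : Set G)) :=
    Cfsg.Agent.Lib.Helper42.IsWellPlaced.isSylIn P.isPGroup' hT 0
  have hTp : IsPGroup p T := P.isPGroup'.to_le hT.1
  have hne : Subgroup.normalizer (T : Set G) ≠ ⊤ :=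
    minSimple_normalizer_ne_top hG hT1 (minSimple_pgroup_ne_top hG hTp)
  obtain ⟨H, hH⟩ : ∃ H : Subgroup G, H = Subgroup.normalizer (T : Set G) := ⟨_, rfl⟩
  rw [← hH] at hsyl hne ⊢
  obtain ⟨R, hR⟩ : ∃ R : Subgroup G, R = (P : Subgroup G) ⊓ H := ⟨_, rfl⟩
  rw [← hR] at hsyl
  have hRs : R ∈ sylSet p H := mem_sylSet_of_isSylIn hsyl
  have hfac := puig_fact_rel hp2 (minSimple_solvable hG hne) (minSimple_odd_sub hG H) hRs
  refine ⟨R, hsyl.1, hsyl.2.1, hsyl.2.2, ?_⟩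
  intro A h hh hA hAh
  have hB : Subgroup.closure A ≤ R := (Subgroup.closure_le _).mpr hA
  have hBh : Cfsg.Agent.Lib.Helper42.cj h (Subgroup.closure A) ≤ R :=
    Cfsg.Agent.Lib.Helper42.image_conj_subset_iff.mp hAh
  have hNO : H ⊓ Subgroup.normalizer (relZ R : Set G) ≤
      Subgroup.normalizer (pPrimeCoreOf p H : Set G) :=
    inf_le_left.trans (le_normalizer_pPrimeCoreOf H)
  have hh' : h ∈ (H ⊓ Subgroup.normalizer (relZ R : Set G)) ⊔ pPrimeCoreOf p H := by
    rw [sup_comm]; exact hfac hh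
  obtain ⟨n, hn, k, hk, rfl⟩ := Cfsg.Agent.Lib.Helper42.mem_sup_of_le_normalizer hNO hh'
  have hRN : R ≤ H ⊓ Subgroup.normalizer (relZ R : Set G) :=
    le_inf hsyl.1 (Subgroup.le_normalizer.trans (normalizer_le_normalizer_relZ R))
  obtain ⟨x, hx, hxb⟩ := conj_eq_of_core_factor (pPrimeCoreOf_coprime H) hNO hRN hsyl.2.1 hB hk
    hn (fun b hb => hBh (Cfsg.Agent.Lib.Helper42.conj_mem_cj hb))
  exact ⟨x, hx, fun a ha => hxb a (Subgroup.subset_closure ha)⟩

omit [Finite G] in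
theorem commutator_top_eq_top (hG : IsMinSimpleOddOrder G) :
    ⁅(⊤ : Subgroup G), (⊤ : Subgroup G)⁆ = (⊤ : Subgroup G) := by
  have hs : IsSimpleGroup G := hG.2.1
  have hn : Subgroup.Normal ⁅(⊤ : Subgroup G), (⊤ : Subgroup G)⁆ := inferInstance
  rcases hn.eq_bot_or_eq_top with h | h
  · exfalso
    apply hG.2.2.1
    refine ⟨⟨fun a b => ?_⟩⟩
    have h1 : ⁅a, b⁆ ∈ ⁅(⊤ : Subgroup G), (⊤ : Subgroup G)⁆ :=
      Subgroup.commutator_mem_commutator (Subgroup.mem_top a) (Subgroup.mem_top b)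
    rw [h, Subgroup.mem_bot, commutatorElement_eq_one_iff_mul_comm] at h1
    exact h1
  · exact h

theorem sylow_le_comm_normalizer_relZ (hG : IsMinSimpleOddOrder G) {p : ℕ} [Fact p.Prime]
    (hp2 : p ≠ 2) (P : Sylow p G) :
    (P : Subgroup G) ≤ ⁅Subgroup.normalizer (relZ (P : Subgroup G) : Set G),
      Subgroup.normalizer (relZ (P : Subgroup G) : Set G)⁆ := by
  have hfac := Cfsg.Agent.Lib.Helper42.wellPlaced_global_fac P (relZ_isConjugacyFunctor p)
    (fun T hT1 hT => relZ_local_ctl hG hp2 P T hT1 hT)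
  have hPN : (P : Subgroup G) ≤ Subgroup.normalizer (relZ (P : Subgroup G) : Set G) :=
    Subgroup.le_normalizer.trans (normalizer_le_normalizer_relZ _)
  have h1 := Cfsg.Agent.Lib.Helper42.focal_le (Cfsg.Agent.Lib.Helper42.sylow_isSylIn P)
    (F := ⁅Subgroup.normalizer (relZ (P : Subgroup G) : Set G),
      Subgroup.normalizer (relZ (P : Subgroup G) : Set G)⁆) ?_
  · rw [commutator_top_eq_top hG, inf_top_eq] at h1
    exact h1
  · intro x hx u _ hux
    have hsub : (fun a => u * a * u⁻¹) '' ({x} : Set G) ⊆ (P : Subgroup G) := by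
      rintro _ ⟨a, ha, rfl⟩
      rw [Set.mem_singleton_iff] at ha
      rw [ha]; exact hux
    have h2 := hfac (Subgroup.closure {x}) u
      ((Subgroup.closure_le _).mpr (Set.singleton_subset_iff.mpr hx))
      (Cfsg.Agent.Lib.Helper42.image_conj_subset_iff.mp hsub)
    obtain ⟨n, hn, hna⟩ := h2.conj_eq
    have h3 := hna x (Subgroup.subset_closure rfl)
    have h4 : ⁅u, x⁆ = ⁅n, x⁆ := by
      rw [commutatorElement_def, commutatorElement_def, h3]
    rw [h4]
    exact Subgroup.commutator_mem_commutator hn (hPN hx)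

/-- a nontrivial maximal `R`-invariant `q`-subgroup is maximal `A`-invariant, for `A ≤ R` a
`p`-group and `A` satisfying the Thompson transitivity hypotheses. -/
theorem maxInv_of_maxInv_ge (hG : IsMinSimpleOddOrder G) {p : ℕ} [Fact p.Prime] (hp2 : p ≠ 2)
    {A R : Subgroup G} (hTT : TTHyp p A) (hAR : A ≤ R) (hR : IsPGroup p R) {q : ℕ}
    [Fact q.Prime] (hqp : q ≠ p) {Q₀ : Subgroup G} (hQ₀ : Q₀ ∈ maxInvSubgroups ⊤ R {q})
    (hQ₀1 : Q₀ ≠ ⊥) : Q₀ ∈ maxInvSubgroups ⊤ A {q} := by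
  have hQ₀A : Q₀ ∈ invSubgroups ⊤ A {q} := ⟨le_top, hQ₀.1.2.1, hAR.trans hQ₀.1.2.2⟩
  obtain ⟨Q₁, hQ₁, hle⟩ := exists_maxInv_ge hQ₀A
  by_cases heq : Q₀ = Q₁
  · exact heq ▸ hQ₁
  exfalso
  have hQ₀q : IsPGroup q Q₀ := isPGroup_of_primes hQ₀.1.2.1
  have hQ₁q : IsPGroup q Q₁ := isPGroup_of_primes hQ₁.1.2.1
  obtain ⟨x, hxQ₁, hxQ₀, hxN⟩ := exists_normalizing_not_mem hQ₁q hle heq
  have hQ₀top : Q₀ ≠ ⊤ := minSimple_pgroup_ne_top hG hQ₀q
  have hHne : Subgroup.normalizer (Q₀ : Set G) ≠ ⊤ := minSimple_normalizer_ne_top hG hQ₀1 hQ₀top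
  have hRH : R ≤ Subgroup.normalizer (Q₀ : Set G) := hQ₀.1.2.2
  obtain ⟨H, hH⟩ : ∃ H : Subgroup G, H = Subgroup.normalizer (Q₀ : Set G) := ⟨_, rfl⟩
  rw [← hH] at hHne hRH hxN
  have hQ₀H : Q₀ ≤ H := by rw [hH]; exact Subgroup.le_normalizer
  have hc : IsPConstrained p ↥H := isPConstrained_of_isSolvable (minSimple_solvable hG hHne) p
  have hAN : A ≤ Subgroup.normalizer ((Q₁ ⊓ H : Subgroup G) : Set G) := by
    refine le_trans (le_inf hQ₁.1.2.2 ?_) Subgroup.inf_normalizer_le_normalizer_inf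
    exact (hAR.trans hRH).trans Subgroup.le_normalizer
  have hNcop : (Nat.card (Q₁ ⊓ H : Subgroup G)).Coprime p :=
    coprime_of_isPGroup_ne hqp (hQ₁q.to_le inf_le_left)
  have hNY : Q₁ ⊓ H ≤ pPrimeCoreOf p H :=
    inv_le_pPrimeCoreOf_loc hp2 hc (hAR.trans hRH) inf_le_right hTT.hEp
      (fun x _ hxc hxp => hTT.hEfull x hxc ⟨1, by rwa [pow_one]⟩) hNcop hAN
  have hQ₀Y : Q₀ ≤ pPrimeCoreOf p H := (le_inf hle hQ₀H).trans hNY
  have hRY : R ≤ Subgroup.normalizer (pPrimeCoreOf p H : Set G) :=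
    hRH.trans (le_normalizer_pPrimeCoreOf H)
  have hcop : (Nat.card R).Coprime (Nat.card (pPrimeCoreOf p H)) := by
    obtain ⟨m, hm⟩ := IsPGroup.iff_card.mp hR
    rw [hm]; exact Nat.Coprime.pow_left m (pPrimeCoreOf_coprime H).symm
  have hRsol : Group.IsSolvable ↥R := by
    have := hR.isNilpotent
    infer_instance
  obtain ⟨S, hS, hRS, hQ₀S⟩ := exists_invariant_sylow_ge R (pPrimeCoreOf p H) hRY hcop hRsol
    hQ₀q hQ₀Y hQ₀.1.2.2
  have hSinv : S ∈ invSubgroups ⊤ R {q} :=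
    ⟨le_top, primes_of_isPGroup (isPGroup_of_mem_sylSet hS), hRS⟩
  have hSQ₀ : S = Q₀ := hQ₀.2 S hSinv hQ₀S
  rw [hSQ₀] at hS
  have h5 := sylSet_eq_of_le hS (hQ₁q.to_le inf_le_left) hNY (le_inf hle hQ₀H)
  apply hxQ₀
  rw [← h5]
  exact ⟨hxQ₁, hxN⟩

omit [Finite G] in
theorem le_normalizer_pPrimePCoreOf (p : ℕ) (X : Subgroup G) :
    X ≤ Subgroup.normalizer (pPrimePCoreOf p X : Set G) := by
  have hn : (pPrimePCore p ↥X).Normal := pPrimePCore_normal32 p
  exact le_normalizer_map_subtype X (pPrimePCore p ↥X)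

/-- **Step 1.** `P ≤ N_G(Q)'` for every nontrivial maximal `P`-invariant `q`-subgroup `Q`. -/
theorem step1 (hG : IsMinSimpleOddOrder G) {p : ℕ} [Fact p.Prime] (hp2 : p ≠ 2) (P : Sylow p G)
    {A : Subgroup G} (hA : IsSCN (P : Subgroup G) A) (hA3 : ¬ PRankLE p 2 ↥A)
    {q : ℕ} [Fact q.Prime] (hqp : q ≠ p) {Q : Subgroup G}
    (hQ : Q ∈ maxInvSubgroups ⊤ (P : Subgroup G) {q}) (hQ1 : Q ≠ ⊥) :
    (P : Subgroup G) ≤ ⁅Subgroup.normalizer (Q : Set G), Subgroup.normalizer (Q : Set G)⁆ := by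
  classical
  have hp := (Fact.out : p.Prime)
  have hPp : IsPGroup p (P : Subgroup G) := P.isPGroup'
  have hPs : (P : Subgroup G) ∈ sylSet p ⊤ := sylow_mem_sylSet P
  have hTT : TTHyp p A := ttHyp_of_scn hG hp2 hPs hA
  have hAc := scn_comm hA
  obtain ⟨hAP, hPA, hAcent⟩ := hA
  have hAp : IsPGroup p A := hPp.to_le hAP
  obtain ⟨A₀, hA₀A, hA₀, hA₀3⟩ := exists_elemAb_cube hAp hA3
  have hA1 : A ≠ ⊥ := by
    rintro rfl
    exact not_isCyclic_of_not_prankLE hA3 inferInstance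
  have hP1 : (P : Subgroup G) ≠ ⊥ := by
    intro h
    rw [h] at hAP
    exact hA1 (le_bot_iff.mp hAP)
  -- the first normalizer
  obtain ⟨N₁, hN₁⟩ : ∃ N₁ : Subgroup G,
      N₁ = Subgroup.normalizer (relZ (P : Subgroup G) : Set G) := ⟨_, rfl⟩
  have h1 : (P : Subgroup G) ≤ ⁅N₁, N₁⁆ := by
    rw [hN₁]; exact sylow_le_comm_normalizer_relZ hG hp2 P
  have hPN₁ : (P : Subgroup G) ≤ N₁ := by
    rw [hN₁]; exact Subgroup.le_normalizer.trans (normalizer_le_normalizer_relZ _)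
  have hN₁ne : N₁ ≠ ⊤ := by
    rw [hN₁]
    exact minSimple_normalizer_ne_top hG (relZ_ne_bot hPp hP1)
      (minSimple_pgroup_ne_top hG (hPp.to_le (relZ_le _)))
  have hPsN₁ : (P : Subgroup G) ∈ sylSet p N₁ := mem_sylSet_of_normalizer_le hPs le_top hPN₁
  have hsolN₁ := minSimple_solvable hG hN₁ne
  have hoddN₁ := minSimple_odd_sub hG N₁
  obtain ⟨R, hR⟩ : ∃ R : Subgroup G, R = (P : Subgroup G) ⊓ pPrimePCoreOf p N₁ := ⟨_, rfl⟩
  have hAR : A ≤ R := by
    rw [hR]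
    exact le_inf hAP (normal_abelian_le_pPrimePCoreOf hp2 hsolN₁ hoddN₁ hPsN₁ hAP hAc hPA)
  have hRP : R ≤ (P : Subgroup G) := by rw [hR]; exact inf_le_left
  have hRp : IsPGroup p R := hPp.to_le hRP
  have hfac1 := core_sup_normalizer_inf_rel hPsN₁
  rw [← hR] at hfac1
  have hPNR : (P : Subgroup G) ≤ Subgroup.normalizer (R : Set G) := by
    rw [hR]
    refine le_trans (le_inf Subgroup.le_normalizer ?_) Subgroup.inf_normalizer_le_normalizer_inf
    exact hPN₁.trans (le_normalizer_pPrimePCoreOf p N₁)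
  have h2 : (P : Subgroup G) ≤ ⁅N₁ ⊓ Subgroup.normalizer (R : Set G),
      N₁ ⊓ Subgroup.normalizer (R : Set G)⁆ :=
    comm_factor (pPrimeCoreOf_coprime N₁) (le_normalizer_pPrimeCoreOf N₁) inf_le_left
      (by rw [sup_comm] at hfac1; rw [sup_comm]; exact hfac1) hPp (le_inf hPN₁ hPNR) h1
  have h3 : (P : Subgroup G) ≤ ⁅Subgroup.normalizer (R : Set G),
      Subgroup.normalizer (R : Set G)⁆ :=
    h2.trans (Subgroup.commutator_mono inf_le_right inf_le_right)
  -- the core of the centralizer of `A`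
  obtain ⟨K, hK⟩ : ∃ K : Subgroup G,
      K = piCoreOf (primesNotDvd p) (Subgroup.centralizer (A : Set G)) := ⟨_, rfl⟩
  have hKcop : (Nat.card K).Coprime p := by
    rw [Nat.coprime_comm, Nat.Prime.coprime_iff_not_dvd hp]
    intro hd
    rw [hK] at hd
    exact (piCoreOf_primes _ _ p hp hd).2 (dvd_refl p)
  have hKcent : ∀ y ∈ K, ∀ a ∈ A, a * y = y * a := by
    intro y hy a ha
    rw [hK] at hy
    exact Subgroup.mem_centralizer_iff.mp (piCoreOf_le _ _ hy) a ha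
  have hRK : R ≤ Subgroup.normalizer (K : Set G) := by
    rw [hK]
    exact (hRP.trans hPA).trans ((normalizer_le_normalizer_centralizer A).trans
      (normalizer_le_normalizer_piCoreOf _ _))
  have hcopRK : (Nat.card R).Coprime (Nat.card K) := by
    obtain ⟨m, hm⟩ := IsPGroup.iff_card.mp hRp
    rw [hm]; exact Nat.Coprime.pow_left m hKcop.symm
  have hRsol : Group.IsSolvable ↥R := by
    have := hRp.isNilpotent
    infer_instance
  -- the normal `p'`-subgroup `X = C_K(R)` of `N_G(R)`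
  have key : ∀ g ∈ Subgroup.normalizer (R : Set G),
      ∀ x ∈ K ⊓ Subgroup.centralizer (R : Set G),
      g * x * g⁻¹ ∈ K ⊓ Subgroup.centralizer (R : Set G) := by
    intro g hg x hx
    have hxc : g * x * g⁻¹ ∈ Subgroup.centralizer (R : Set G) :=
      (Subgroup.mem_normalizer_iff.mp (normalizer_le_normalizer_centralizer R hg) x).mp hx.2
    refine ⟨?_, hxc⟩
    have hz : Subgroup.zpowers (g * x * g⁻¹) ≤ K := by
      rw [hK]
      apply hTT.centralizer_le hA1
      · rw [Nat.card_zpowers]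
        have ho : orderOf (g * x * g⁻¹) = orderOf x :=
          orderOf_injective (MulAut.conj g).toMonoidHom (MulAut.conj g).injective x
        rw [ho]
        exact Nat.Coprime.coprime_dvd_left (Subgroup.orderOf_dvd_natCard K hx.1) hKcop
      · rw [Subgroup.zpowers_le]
        exact Subgroup.centralizer_le (SetLike.coe_subset_coe.mpr hAR) hxc
    exact hz (Subgroup.mem_zpowers _)
  have hXn : Subgroup.normalizer (R : Set G) ≤
      Subgroup.normalizer ((K ⊓ Subgroup.centralizer (R : Set G) : Subgroup G) : Set G) := by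
    intro g hg
    rw [Subgroup.mem_normalizer_iff]
    intro h
    constructor
    · exact key g hg h
    · intro hh
      have := key g⁻¹ (Subgroup.inv_mem _ hg) _ hh
      simpa [mul_assoc] using this
  have hXcop : (Nat.card (K ⊓ Subgroup.centralizer (R : Set G) : Subgroup G)).Coprime p :=
    Nat.Coprime.coprime_dvd_left (Subgroup.card_dvd_of_le inf_le_left) hKcop
  -- `Q` is maximal `A`-invariant and maximal `R`-invariant
  have hQA : Q ∈ maxInvSubgroups ⊤ A {q} := maxInv_of_maxInv_ge hG hp2 hTT hAP hPp hqp hQ hQ1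
  have hQR : Q ∈ maxInvSubgroups ⊤ R {q} := by
    refine ⟨⟨le_top, hQ.1.2.1, hRP.trans hQ.1.2.2⟩, ?_⟩
    intro S hS hQS
    exact hQA.2 S ⟨le_top, hS.2.1, hAR.trans hS.2.2⟩ hQS
  have hglau := (glauberman_aux (Ω := Subgroup G) cj cj_one cj_mul
    (Nat.card R) R K (maxInvSubgroups ⊤ A {q}) le_rfl hRK hcopRK hRsol
    (fun a ha t ht => cj_mem_maxInv_of_normalizer (hPA (hRP ha)) ht)
    (fun y hy t ht => cj_mem_maxInv (hKcent y hy) ht)
    (fun s hs t ht => by
      obtain ⟨k, hk, hkt⟩ := thompson_trans hTT hA₀A hA₀ hA₀3 hqp hs ht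
      exact ⟨k, hK ▸ hk, hkt.symm⟩)
    ⟨Q, hQA⟩).2
  have hfac2 : Subgroup.normalizer (R : Set G) ≤
      (K ⊓ Subgroup.centralizer (R : Set G)) ⊔
        (Subgroup.normalizer (R : Set G) ⊓ Subgroup.normalizer (Q : Set G)) := by
    intro g hg
    have hgQR : cj g Q ∈ maxInvSubgroups ⊤ R {q} := cj_mem_maxInv_of_normalizer hg hQR
    have hgQ1 : cj g Q ≠ ⊥ := by
      intro h
      apply hQ1
      have h2 := card_cj g Q
      rw [h, Subgroup.card_bot] at h2
      exact Subgroup.card_eq_one.mp h2.symm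
    have hgQA : cj g Q ∈ maxInvSubgroups ⊤ A {q} :=
      maxInv_of_maxInv_ge hG hp2 hTT hAR hRp hqp hgQR hgQ1
    obtain ⟨c, hcK, hcR, hcQ⟩ := hglau Q hQA (cj g Q) hgQA
      (fun a ha => cj_eq_self_of_le_normalizer hQR.1.2.2 ha)
      (fun a ha => cj_eq_self_of_le_normalizer hgQR.1.2.2 ha)
    have hcX : c ∈ K ⊓ Subgroup.centralizer (R : Set G) :=
      ⟨hcK, Subgroup.mem_centralizer_iff.mpr (fun r hr => hcR r hr)⟩
    have hcNR : c ∈ Subgroup.normalizer (R : Set G) :=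
      Subgroup.centralizer_le_normalizer (R : Set G) hcX.2
    have h4 : c⁻¹ * g ∈ Subgroup.normalizer (Q : Set G) := by
      rw [← cj_eq_self_iff, cj_mul, ← hcQ, cj_inv_cj]
    have h5 : g = c * (c⁻¹ * g) := by group
    rw [h5]
    exact Subgroup.mul_mem_sup hcX
      ⟨Subgroup.mul_mem _ (Subgroup.inv_mem _ hcNR) hg, h4⟩
  have h6 := comm_factor hXcop hXn inf_le_left hfac2 hPp (le_inf hPNR hQ.1.2.2) h3
  exact h6.trans (Subgroup.commutator_mono inf_le_right inf_le_right)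

end fusion

end Cfsg.Agent.Lib.Helper3.U95
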