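import Mathlib
import Cfsg.Agent.Lib.Helper3.U95F
import Cfsg.Agent.Lib.Helper14.Basic

/-!
# B&G Lemma 9.5, part 2: the uniqueness argument (helper3)

`bg95`: in a minimal simple group of odd order every `A ∈ SCN_3(P)` lies in a unique maximal
subgroup.
-/

set_option autoImplicit false

namespace Cfsg.Agent.Lib.Helper3.U95

open Cfsg Cfsg.Agent.Lib.Helper34 Cfsg.Agent.Lib.Helper32
open scoped commutatorElement

universe u

section aux

variable {G : Type u} [Group G] [Finite G]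

omit [Finite G] in
theorem comm_le_self (L : Subgroup G) : ⁅L, L⁆ ≤ L := by
  rw [Subgroup.commutator_le]
  intro a ha b hb
  rw [commutatorElement_def]
  exact L.mul_mem (L.mul_mem (L.mul_mem ha hb) (L.inv_mem ha)) (L.inv_mem hb)

theorem exists_subgroup_card {p n : ℕ} [Fact p.Prime] {B : Subgroup G}
    (h : p ^ n ∣ Nat.card B) : ∃ D : Subgroup G, D ≤ B ∧ Nat.card D = p ^ n := by
  obtain ⟨K, hK⟩ := Sylow.exists_subgroup_card_pow_prime (G := B) p h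
  refine ⟨K.map B.subtype, Subgroup.map_subtype_le K, ?_⟩
  rw [Cfsg.Agent.Lib.Helper30.card_map_subtype]
  exact hK

theorem exists_ne_one_mem_inf {p : ℕ} [Fact p.Prime] {E D D' : Subgroup G}
    (hEc : ∀ a ∈ E, ∀ b ∈ E, a * b = b * a) (hEcard : Nat.card E = p ^ 3) (hD : D ≤ E)
    (hD' : D' ≤ E) (hDc : Nat.card D = p ^ 2) (hD'c : Nat.card D' = p ^ 2) :
    ∃ a ∈ D ⊓ D', a ≠ 1 := by
  have hp := (Fact.out : p.Prime)
  by_contra hno
  push Not at hno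
  have hbot : D ⊓ D' = ⊥ := (Subgroup.eq_bot_iff_forall _).mpr hno
  have hnorm : D ≤ Subgroup.normalizer (D' : Set G) := by
    intro d hd
    rw [Subgroup.mem_normalizer_iff]
    intro h
    have e : ∀ x ∈ D', d * x * d⁻¹ = x := by
      intro x hx
      rw [hEc d (hD hd) x (hD' hx), mul_assoc, mul_inv_cancel, mul_one]
    constructor
    · intro hh; rw [e h hh]; exact hh
    · intro hh
      have h2 : h = d⁻¹ * (d * h * d⁻¹) * d := by group
      have h3 : d⁻¹ * (d * h * d⁻¹) * d = d * h * d⁻¹ := by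
        have := hEc d⁻¹ (E.inv_mem (hD hd)) _ (hD' hh)
        rw [this, mul_assoc, inv_mul_cancel, mul_one]
      rw [h2, h3]; exact hh
  have h1 := Cfsg.Agent.Lib.Helper14.card_sup_mul_card_inf hnorm
  rw [hbot, Subgroup.card_bot, mul_one, hDc, hD'c] at h1
  have h2 : Nat.card (D ⊔ D' : Subgroup G) ≤ Nat.card E :=
    Subgroup.card_le_of_le (sup_le hD hD')
  rw [h1, hEcard, ← pow_add] at h2
  exact absurd h2 (not_le.mpr (Nat.pow_lt_pow_right hp.one_lt (by norm_num)))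

theorem card_eq_of_cyclic_exp {s : ℕ} [Fact s.Prime] {V : Subgroup G} (hc : IsCyclic ↥V)
    (he : ∀ v ∈ V, v ^ s = 1) (h1 : V ≠ ⊥) : Nat.card V = s := by
  have hs := (Fact.out : s.Prime)
  obtain ⟨g, hg⟩ := hc.exists_generator
  have h2 : orderOf g = Nat.card V := orderOf_eq_card_of_forall_mem_zpowers hg
  have h3 : orderOf g ∣ s := orderOf_dvd_of_pow_eq_one (Subtype.ext (he g g.2))
  rw [h2] at h3
  rcases (Nat.dvd_prime hs).mp h3 with h | h
  · exact absurd (Subgroup.card_eq_one.mp h) h1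
  · exact h

theorem le_zpowers_of_card_prime {s : ℕ} [Fact s.Prime] {V : Subgroup G}
    (hV : Nat.card V = s) {c : G} (hc : c ∈ V) (hc1 : c ≠ 1) : V ≤ Subgroup.zpowers c := by
  have hs := (Fact.out : s.Prime)
  have hle : Subgroup.zpowers c ≤ V := Subgroup.zpowers_le.mpr hc
  have hd : Nat.card (Subgroup.zpowers c) ∣ s := hV ▸ Subgroup.card_dvd_of_le hle
  have hcard : Nat.card (Subgroup.zpowers c) = s := by
    rcases (Nat.dvd_prime hs).mp hd with h | h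
    · exfalso
      apply hc1
      have := Subgroup.card_eq_one.mp h
      exact Subgroup.zpowers_eq_bot.mp this
    · exact h
  exact le_of_eq (Subgroup.eq_of_le_of_card_ge hle (by rw [hcard, hV])).symm

theorem prime_ne_two (hG : IsMinSimpleOddOrder G) {s : ℕ} [Fact s.Prime] {T : Subgroup G}
    (hT : IsPGroup s T) (hT1 : T ≠ ⊥) : s ≠ 2 := by
  obtain ⟨m, hm⟩ := IsPGroup.iff_card.mp hT
  have hm0 : m ≠ 0 := by
    rintro rfl
    rw [pow_zero] at hm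
    exact hT1 (Subgroup.card_eq_one.mp hm)
  rintro rfl
  have hodd := minSimple_odd_sub hG T
  rw [hm] at hodd
  exact (Nat.not_even_iff_odd.mpr hodd) ((Nat.even_pow).mpr ⟨even_two, hm0⟩)

theorem normalizer_le_of_uniqIn (hG : IsMinSimpleOddOrder G) {M X : Subgroup G}
    (hX : UniqIn M X) (h1 : X ≠ ⊥) (h2 : X ≠ ⊤) : Subgroup.normalizer (X : Set G) ≤ M := by
  obtain ⟨L, hL, hNL⟩ := exists_coatom_ge (minSimple_normalizer_ne_top hG h1 h2)
  have : L = M := hX L hL (Subgroup.le_normalizer.trans hNL)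
  rw [← this]; exact hNL

theorem le_of_uniqIn {M X : Subgroup G} (hX : UniqIn M X) (h2 : X ≠ ⊤) : X ≤ M := by
  obtain ⟨L, hL, hXL⟩ := exists_coatom_ge h2
  have : L = M := hX L hL hXL
  rw [← this]; exact hXL

theorem ne_bot_of_lt_card {n : ℕ} {U : Subgroup G} (h : n ^ 2 < Nat.card U) (hn : 0 < n) :
    U ≠ ⊥ := by
  rintro rfl
  rw [Subgroup.card_bot] at h
  have : 1 ≤ n ^ 2 := Nat.one_le_pow _ _ hn
  omega

theorem exists_uniq_in_pCoreOf (hG : IsMinSimpleOddOrder G) {L : Subgroup G} (hL : IsCoatom L)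
    {s : ℕ} [Fact s.Prime] (hs : ¬ PRankLE s 2 ↥(fittingOf L)) :
    ∃ U : Subgroup G, U ≤ pCoreOf s L ∧ (∀ a ∈ U, ∀ b ∈ U, a * b = b * a) ∧
      (∀ a ∈ U, a ^ s = 1) ∧ s ^ 2 < Nat.card U ∧ InUniqueMaximal U ∧ UniqIn L U := by
  have hsP := (Fact.out : s.Prime)
  obtain ⟨U, hUF, hUc, hUe, hUcard⟩ := exists_of_not_prankLE hs
  have hUp : IsPGroup s U := fun g => ⟨1, by rw [pow_one]; exact Subtype.ext (hUe g.1 g.2)⟩
  have hUT : U ≤ pCoreOf s L := by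
    intro x hx
    rcases (Nat.dvd_prime hsP).mp (orderOf_dvd_of_pow_eq_one (hUe x hx)) with h | h
    · exact mem_pCoreOf_of_mem_fittingOf s (hUF hx) (k := 0) (by rw [h, pow_zero])
    · exact mem_pCoreOf_of_mem_fittingOf s (hUF hx) (k := 1) (by rw [h, pow_one])
  have hUU : InUniqueMaximal U :=
    uniq_of_fitting_rank3 hG hL hs hUp hUc (not_prankLE_of_le le_rfl hUc hUe hUcard)
  refine ⟨U, hUT, hUc, hUe, hUcard, hUU, ?_⟩
  obtain ⟨M, hM, hUM, hUMu⟩ := uniqIn_of_inUniqueMaximal hUU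
  have hLM : L = M := hUMu L hL (hUF.trans (fittingOf_le L))
  rw [hLM]; exact hUMu

/-- `Ω₁(Z(T))` as a subgroup of `G`. -/
def omZ (s : ℕ) (T : Subgroup G) : Subgroup G where
  carrier := {z | z ∈ T ∧ z ∈ Subgroup.centralizer (T : Set G) ∧ z ^ s = 1}
  one_mem' := ⟨T.one_mem, Subgroup.one_mem _, one_pow s⟩
  mul_mem' := by
    rintro a b ⟨ha, hac, has⟩ ⟨hb, hbc, hbs⟩
    refine ⟨T.mul_mem ha hb, Subgroup.mul_mem _ hac hbc, ?_⟩
    have hcomm : Commute a b := Subgroup.mem_centralizer_iff.mp hbc a ha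
    rw [hcomm.mul_pow, has, hbs, one_mul]
  inv_mem' := by
    rintro a ⟨ha, hac, has⟩
    exact ⟨T.inv_mem ha, Subgroup.inv_mem _ hac, by rw [inv_pow, has, inv_one]⟩

omit [Finite G] in
theorem mem_omZ {s : ℕ} {T : Subgroup G} {z : G} :
    z ∈ omZ s T ↔ z ∈ T ∧ z ∈ Subgroup.centralizer (T : Set G) ∧ z ^ s = 1 := Iff.rfl

omit [Finite G] in
theorem normalizer_le_normalizer_omZ (s : ℕ) (T : Subgroup G) :
    Subgroup.normalizer (T : Set G) ≤ Subgroup.normalizer (omZ s T : Set G) := by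
  have key : ∀ g ∈ Subgroup.normalizer (T : Set G), ∀ z ∈ omZ s T, g * z * g⁻¹ ∈ omZ s T := by
    intro g hg z hz
    refine ⟨(Subgroup.mem_normalizer_iff.mp hg z).mp hz.1,
      (Subgroup.mem_normalizer_iff.mp (normalizer_le_normalizer_centralizer T hg) z).mp hz.2.1, ?_⟩
    rw [conj_pow, hz.2.2, mul_one, mul_inv_cancel]
  intro g hg
  rw [Subgroup.mem_normalizer_iff]
  intro h
  constructor
  · exact key g hg h
  · intro hh
    have := key g⁻¹ (Subgroup.inv_mem _ hg) _ hh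
    simpa [mul_assoc] using this

omit [Finite G] in
theorem le_comm_of_not_centralized {s : ℕ} [Fact s.Prime] [Finite G] {A V H : Subgroup G}
    (hV : Nat.card V = s) (hAN : A ≤ Subgroup.normalizer (V : Set G))
    (hAV : ¬ A ≤ Subgroup.centralizer (V : Set G)) (hAH : A ≤ H) (hVH : V ≤ H) :
    V ≤ ⁅H, H⁆ := by
  have hex : ∃ a ∈ A, ∃ v ∈ V, v * a ≠ a * v := by
    by_contra h
    push Not at h
    exact hAV (fun a ha => Subgroup.mem_centralizer_iff.mpr (fun v hv => h a ha v hv))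
  obtain ⟨a, ha, v, hv, hne⟩ := hex
  have hc : ⁅a, v⁆ ∈ V := by
    rw [commutatorElement_def]
    exact V.mul_mem ((Subgroup.mem_normalizer_iff.mp (hAN ha) v).mp hv) (V.inv_mem hv)
  have hc1 : ⁅a, v⁆ ≠ 1 := by
    intro h
    rw [commutatorElement_eq_one_iff_mul_comm] at h
    exact hne h.symm
  have hcH : ⁅a, v⁆ ∈ ⁅H, H⁆ := Subgroup.commutator_mem_commutator (hAH ha) (hVH hv)
  exact (le_zpowers_of_card_prime hV hc hc1).trans (Subgroup.zpowers_le.mpr hcH)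

end aux

section main

variable {G : Type u} [Group G] [Finite G]

/-- **Step 3.** -/
theorem step3 (hG : IsMinSimpleOddOrder G) {p : ℕ} [Fact p.Prime] {A : Subgroup G}
    (hAc : ∀ a ∈ A, ∀ b ∈ A, a * b = b * a) (hU : ¬ InUniqueMaximal A)
    {L : Subgroup G} (hL : IsCoatom L) (hAL : A ≤ ⁅L, L⁆)
    {s : ℕ} [Fact s.Prime] (hsp : s ≠ p) (hs : ¬ PRankLE s 2 ↥(fittingOf L))
    {E₃ : Subgroup G} (hE₃A : E₃ ≤ A) (hE₃e : ∀ a ∈ E₃, a ^ p = 1)
    (hE₃card : Nat.card E₃ = p ^ 3) :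
    Subgroup.centralizer (A : Set G) ≤ L ∧
    ∃ D V : Subgroup G, D ≤ E₃ ∧ Nat.card D = p ^ 2 ∧ Nat.card V = s ∧
      A ≤ Subgroup.normalizer (V : Set G) ∧ ¬ A ≤ Subgroup.centralizer (V : Set G) ∧
      D ≤ Subgroup.centralizer (V : Set G) ∧ Subgroup.centralizer (V : Set G) ≤ L := by
  classical
  have hp := (Fact.out : p.Prime)
  have hsP := (Fact.out : s.Prime)
  have hAL' : A ≤ L := hAL.trans (comm_le_self L)
  have hN2 : ∀ B D : Subgroup G, UniqIn L B → D ≤ A → D ≤ Subgroup.centralizer (B : Set G) →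
      (∀ a ∈ D, a ^ p = 1) → p ^ 2 ≤ Nat.card D → False := by
    intro B D hB hDA hDB hDe hDcard
    have h := uniq_of_centralizing_rank2 hG hL hB hDB
      (fun a ha b hb => hAc a (hDA ha) b (hDA hb)) hDe hDcard
    exact hU (inUniqueMaximal_of_uniqIn hL hAL' (h.2.mono hDA))
  obtain ⟨U₀, hU₀T, hU₀c, hU₀e, hU₀card, hU₀U, hU₀L⟩ := exists_uniq_in_pCoreOf hG hL hs
  obtain ⟨T, hT⟩ : ∃ T : Subgroup G, T = pCoreOf s L := ⟨_, rfl⟩
  rw [← hT] at hU₀T
  have hTs : IsPGroup s T := by rw [hT]; exact isPGroup_pCoreOf s L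
  have hTL : T ≤ L := by rw [hT]; exact pCoreOf_le s L
  have hLT : L ≤ Subgroup.normalizer (T : Set G) := by rw [hT]; exact le_normalizer_pCoreOf s L
  have hU₀p : IsPGroup s U₀ := hTs.to_le hU₀T
  have hU₀3 : ¬ PRankLE s 2 ↥U₀ := not_prankLE_of_le le_rfl hU₀c hU₀e hU₀card
  have hT3 : ¬ PRankLE s 2 ↥T := not_prankLE_of_le hU₀T hU₀c hU₀e hU₀card
  have hU₀1 : U₀ ≠ ⊥ := ne_bot_of_lt_card hU₀card hsP.pos
  have hT1 : T ≠ ⊥ := fun h => hU₀1 (le_bot_iff.mp (h ▸ hU₀T))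
  have hs2 : s ≠ 2 := prime_ne_two hG hTs hT1
  obtain ⟨Z₁, hZ₁⟩ : ∃ Z₁ : Subgroup G, Z₁ = omZ s T := ⟨_, rfl⟩
  have hZ₁T : Z₁ ≤ T := by rw [hZ₁]; exact fun z hz => hz.1
  have hZ₁C : Z₁ ≤ Subgroup.centralizer (T : Set G) := by rw [hZ₁]; exact fun z hz => hz.2.1
  have hZ₁e : ∀ z ∈ Z₁, z ^ s = 1 := by rw [hZ₁]; exact fun z hz => hz.2.2
  have hZ₁p : IsPGroup s Z₁ := hTs.to_le hZ₁T
  have hLZ₁ : L ≤ Subgroup.normalizer (Z₁ : Set G) := by
    rw [hZ₁]; exact hLT.trans (normalizer_le_normalizer_omZ s T)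
  have hTCZ : T ≤ Subgroup.centralizer (Z₁ : Set G) := Subgroup.le_centralizer_iff.mp hZ₁C
  have hb1 : ∀ z ∈ Z₁, z ≠ 1 → Subgroup.centralizer ({z} : Set G) ≤ L := by
    intro z hz hz1
    exact centralizer_le_of_uniqIn hG hU₀L
      (Subgroup.centralizer_le (SetLike.coe_subset_coe.mpr hU₀T) (hZ₁C hz)) hz1
  have hb2 : ∀ B : Subgroup G, B ≤ Z₁ → ¬ IsCyclic ↥B → UniqIn L B := by
    intro B hBZ hBnc
    have hTB : T ≤ Subgroup.centralizer (B : Set G) :=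
      hTCZ.trans (Subgroup.centralizer_le (SetLike.coe_subset_coe.mpr hBZ))
    have hBU : InUniqueMaximal B := uniq_of_rank3_abelian hG hU₀p hU₀c hU₀3 hU₀U
      (hZ₁p.to_le hBZ) hBnc (not_prankLE_of_le (hU₀T.trans hTB) hU₀c hU₀e hU₀card)
    obtain ⟨M, hM, hBM, hBMu⟩ := uniqIn_of_inUniqueMaximal hBU
    have hLM : L = M := hBMu L hL ((hBZ.trans hZ₁T).trans hTL)
    rw [hLM]; exact hBMu
  have hE₃L : E₃ ≤ L := hE₃A.trans hAL'
  have hE₃c : ∀ a ∈ E₃, ∀ b ∈ E₃, a * b = b * a :=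
    fun a ha b hb => hAc a (hE₃A ha) b (hE₃A hb)
  -- `Z₁` is not cyclic
  have hZnc : ¬ IsCyclic ↥Z₁ := by
    intro hcyc
    have hAZ : A ≤ Subgroup.centralizer (Z₁ : Set G) :=
      hAL.trans (comm_le_centralizer_of_cyclic hcyc hLZ₁)
    obtain ⟨W₀, hW₀T, hW₀n, hW₀c, hW₀e, hW₀card⟩ := exists_normal_rank2 hTs hT3
    obtain ⟨D, W, hDE, hDcard, hWT, hWn, hWc, hWe, hWcard, hDW⟩ :=
      omega_lemma hs2 hsp.symm hTs (fun z => by rw [hZ₁]; exact Iff.rfl) hcyc hW₀T hW₀n hW₀c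
        hW₀e hW₀card (hE₃L.trans hLT) hE₃c hE₃e hE₃card (hE₃A.trans hAZ)
    have hWnorm : (W.subgroupOf T).Normal := Subgroup.normal_subgroupOf_of_le_normalizer hWn
    have hWel : IsElementaryAbelian s (W.subgroupOf T) := by
      refine ⟨⟨⟨fun a b => ?_⟩⟩, fun a ha => ?_⟩
      · exact Subtype.ext (Subtype.ext (hWc _ (Subgroup.mem_subgroupOf.mp a.2) _
          (Subgroup.mem_subgroupOf.mp b.2)))
      · exact Subtype.ext (hWe _ (Subgroup.mem_subgroupOf.mp ha))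
    have hWcard' : Nat.card (W.subgroupOf T) = s ^ 2 := by
      rw [Nat.card_congr (Subgroup.subgroupOfEquivOfLe hWT).toEquiv]; exact hWcard
    obtain ⟨A', hWA', hA'n, hA'cent, hA'3⟩ :=
      Cfsg.Agent.S1452.result s hs2 hTs hT3 (W.subgroupOf T) hWel hWcard'
    have hA'c : ∀ a ∈ A', ∀ b ∈ A', a * b = b * a := by
      intro a ha b hb
      have ha' : a ∈ Subgroup.centralizer (A' : Set ↥T) := by rw [hA'cent]; exact ha
      exact (Subgroup.mem_centralizer_iff.mp ha' b hb).symm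
    obtain ⟨E', hE'A', hE'c, hE'e, hE'card⟩ := exists_of_not_prankLE hA'3
    obtain ⟨E'', hE''⟩ : ∃ E'' : Subgroup G, E'' = E'.map T.subtype := ⟨_, rfl⟩
    have hE''c : ∀ a ∈ E'', ∀ b ∈ E'', a * b = b * a := by
      rw [hE'']
      rintro _ ⟨a, ha, rfl⟩ _ ⟨b, hb, rfl⟩
      have := congrArg (fun z : ↥T => (z : G)) (hE'c a ha b hb)
      simpa using this
    have hE''e : ∀ a ∈ E'', a ^ s = 1 := by
      rw [hE'']
      rintro _ ⟨a, ha, rfl⟩
      have := congrArg (fun z : ↥T => (z : G)) (hE'e a ha)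
      simpa using this
    have hE''card : s ^ 2 < Nat.card E'' := by
      rw [hE'', Cfsg.Agent.Lib.Helper30.card_map_subtype]; exact hE'card
    obtain ⟨A'', hA''⟩ : ∃ A'' : Subgroup G, A'' = A'.map T.subtype := ⟨_, rfl⟩
    have hE''A'' : E'' ≤ A'' := by rw [hE'', hA'']; exact Subgroup.map_mono hE'A'
    have hA''T : A'' ≤ T := by rw [hA'']; exact Subgroup.map_subtype_le A'
    have hA''c : ∀ a ∈ A'', ∀ b ∈ A'', a * b = b * a := by
      rw [hA'']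
      rintro _ ⟨a, ha, rfl⟩ _ ⟨b, hb, rfl⟩
      have := congrArg (fun z : ↥T => (z : G)) (hA'c a ha b hb)
      simpa using this
    have hA''p : IsPGroup s A'' := hTs.to_le hA''T
    have hA''3 : ¬ PRankLE s 2 ↥A'' := not_prankLE_of_le hE''A'' hE''c hE''e hE''card
    have hWA'' : W ≤ A'' := by
      intro w hw
      rw [hA'']
      exact ⟨⟨w, hWT hw⟩, hWA' (Subgroup.mem_subgroupOf.mpr hw), rfl⟩
    have hA''U : InUniqueMaximal A'' := uniq_of_fitting_rank3 hG hL hs hA''p hA''c hA''3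
    have hWnc : ¬ IsCyclic ↥W := not_isCyclic_of_elemAb hWe (by rw [hWcard])
    have hA''CW : A'' ≤ Subgroup.centralizer (W : Set G) := by
      intro a ha
      rw [Subgroup.mem_centralizer_iff]
      intro w hw
      exact hA''c w (hWA'' hw) a ha
    have hWU : InUniqueMaximal W := uniq_of_rank3_abelian hG hA''p hA''c hA''3 hA''U
      (hTs.to_le hWT) hWnc (not_prankLE_of_le (hE''A''.trans hA''CW) hE''c hE''e hE''card)
    have hWL : UniqIn L W := by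
      obtain ⟨M, hM, hWM, hWMu⟩ := uniqIn_of_inUniqueMaximal hWU
      have hLM : L = M := hWMu L hL (hWT.trans hTL)
      rw [hLM]; exact hWMu
    exact hN2 W D hWL (hDE.trans hE₃A) hDW (fun a ha => hE₃e a (hDE ha)) (by rw [hDcard])
  -- generation
  have hZ₁cop : (Nat.card Z₁).Coprime p := coprime_of_isPGroup_ne hsp hZ₁p
  have hgen := gen3 hE₃c hE₃e hE₃card (hE₃L.trans hLZ₁) hZ₁cop
  have hcycD : ∀ D : Subgroup G, D ≤ E₃ → Nat.card D = p ^ 2 →
      IsCyclic ↥(Z₁ ⊓ Subgroup.centralizer (D : Set G) : Subgroup G) := by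
    intro D hDE hDcard
    by_contra hnc
    have hBU := hb2 _ inf_le_left hnc
    exact hN2 _ D hBU (hDE.trans hE₃A) (Subgroup.le_centralizer_iff.mp inf_le_right)
      (fun a ha => hE₃e a (hDE ha)) (by rw [hDcard])
  have hex : ∃ D : Subgroup G, D ≤ E₃ ∧ Nat.card D = p ^ 2 ∧
      (Z₁ ⊓ Subgroup.centralizer (D : Set G) : Subgroup G) ≠ ⊥ ∧
      ¬ A ≤ Subgroup.centralizer
        ((Z₁ ⊓ Subgroup.centralizer (D : Set G) : Subgroup G) : Set G) := by
    by_contra hno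
    push Not at hno
    have hAZ : Z₁ ≤ Subgroup.centralizer (A : Set G) := by
      refine hgen.trans (iSup₂_le ?_)
      rintro D ⟨hDE, hDcard⟩
      by_cases hbot : (Z₁ ⊓ Subgroup.centralizer (D : Set G) : Subgroup G) = ⊥
      · rw [hbot]; exact bot_le
      · exact Subgroup.le_centralizer_iff.mp (hno D hDE hDcard hbot)
    obtain ⟨D₀, hD₀E, hD₀card⟩ := exists_subgroup_card (p := p) (n := 2) (B := E₃)
      (by rw [hE₃card]; exact pow_dvd_pow p (by norm_num))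
    have h1 := hcycD D₀ hD₀E hD₀card
    have h2 : Z₁ ⊓ Subgroup.centralizer (D₀ : Set G) = Z₁ :=
      inf_eq_left.mpr (hAZ.trans
        (Subgroup.centralizer_le (SetLike.coe_subset_coe.mpr (hD₀E.trans hE₃A))))
    rw [h2] at h1
    exact hZnc h1
  obtain ⟨D, hDE, hDcard, hVbot, hAV⟩ := hex
  obtain ⟨V, hV⟩ : ∃ V : Subgroup G, V = Z₁ ⊓ Subgroup.centralizer (D : Set G) := ⟨_, rfl⟩
  rw [← hV] at hVbot hAV
  have hVZ : V ≤ Z₁ := by rw [hV]; exact inf_le_left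
  have hVcyc : IsCyclic ↥V := by rw [hV]; exact hcycD D hDE hDcard
  have hVcard : Nat.card V = s :=
    card_eq_of_cyclic_exp hVcyc (fun v hv => hZ₁e v (hVZ hv)) hVbot
  have hDV : D ≤ Subgroup.centralizer (V : Set G) := by
    rw [hV]; exact Subgroup.le_centralizer_iff.mp inf_le_right
  have hAD : A ≤ Subgroup.centralizer (D : Set G) := by
    intro a ha
    rw [Subgroup.mem_centralizer_iff]
    intro d hd
    exact hAc d (hE₃A (hDE hd)) a ha
  have hANV : A ≤ Subgroup.normalizer (V : Set G) := by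
    rw [hV]
    refine le_trans (le_inf (hAL'.trans hLZ₁) ?_) Subgroup.inf_normalizer_le_normalizer_inf
    exact hAD.trans Subgroup.le_normalizer
  obtain ⟨z, hzV, hz1⟩ : ∃ z ∈ V, z ≠ 1 := by
    by_contra h
    push Not at h
    exact hVbot ((Subgroup.eq_bot_iff_forall V).mpr h)
  have hCVL : Subgroup.centralizer (V : Set G) ≤ L :=
    (Subgroup.centralizer_le (Set.singleton_subset_iff.mpr hzV)).trans (hb1 z (hVZ hzV) hz1)
  have hCA : Subgroup.centralizer (A : Set G) ≤ L := by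
    have hex2 : ∃ D'' : Subgroup G, D'' ≤ E₃ ∧ Nat.card D'' = p ^ 2 ∧
        ¬ (Z₁ ⊓ Subgroup.centralizer (D'' : Set G) ≤ V) := by
      by_contra hno
      push Not at hno
      have h1 : Z₁ ≤ V := hgen.trans (iSup₂_le (fun D'' hD'' => hno D'' hD''.1 hD''.2))
      have hZV : Z₁ = V := le_antisymm h1 hVZ
      exact hZnc (hZV ▸ hVcyc)
    obtain ⟨D'', hD''E, hD''card, hnotle⟩ := hex2
    obtain ⟨B, hB⟩ : ∃ B : Subgroup G,
        B = V ⊔ (Z₁ ⊓ Subgroup.centralizer (D'' : Set G)) := ⟨_, rfl⟩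
    have hBZ : B ≤ Z₁ := by rw [hB]; exact sup_le hVZ inf_le_left
    have hVB : V ≤ B := by rw [hB]; exact le_sup_left
    have hBnc : ¬ IsCyclic ↥B := by
      intro hc
      have hB1 : B ≠ ⊥ := fun h => hVbot (le_bot_iff.mp (h ▸ hVB))
      have hBcard : Nat.card B = s :=
        card_eq_of_cyclic_exp hc (fun v hv => hZ₁e v (hBZ hv)) hB1
      have hVB' : V = B := Subgroup.eq_of_le_of_card_ge hVB (by rw [hBcard, hVcard])
      apply hnotle
      rw [hVB', hB]; exact le_sup_right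
    have hBU := hb2 B hBZ hBnc
    obtain ⟨a, ha, ha1⟩ := exists_ne_one_mem_inf hE₃c hE₃card hDE hD''E hDcard hD''card
    have haB : a ∈ Subgroup.centralizer (B : Set G) := by
      have h1 : V ≤ Subgroup.centralizer ({a} : Set G) := by
        intro v hv
        rw [Subgroup.mem_centralizer_iff]
        intro h hh
        rw [Set.mem_singleton_iff.mp hh]
        exact (Subgroup.mem_centralizer_iff.mp (hDV ha.1) v hv).symm
      have h2 : Z₁ ⊓ Subgroup.centralizer (D'' : Set G) ≤ Subgroup.centralizer ({a} : Set G) :=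
        inf_le_right.trans (Subgroup.centralizer_le (Set.singleton_subset_iff.mpr ha.2))
      have h3 : B ≤ Subgroup.centralizer ({a} : Set G) := by rw [hB]; exact sup_le h1 h2
      rw [Subgroup.mem_centralizer_iff]
      intro b hb
      exact (Subgroup.mem_centralizer_iff.mp (h3 hb) a (Set.mem_singleton a)).symm
    have h4 := centralizer_le_of_uniqIn hG hBU haB ha1
    exact (Subgroup.centralizer_le (Set.singleton_subset_iff.mpr (hE₃A (hDE ha.1)))).trans h4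
  exact ⟨hCA, D, V, hDE, hDcard, hVcard, hANV, hAV, hDV, hCVL⟩

/-- **Step 4.** -/
theorem step4 (hG : IsMinSimpleOddOrder G) {p : ℕ} [Fact p.Prime] {A : Subgroup G}
    (hTT : TTHyp p A) {A₀ : Subgroup G} (hA₀A : A₀ ≤ A) (hA₀ : IsElementaryAbelian p A₀)
    (hA₀3 : p ^ 3 ≤ Nat.card A₀) (hU : ¬ InUniqueMaximal A)
    {E₃ : Subgroup G} (hE₃A : E₃ ≤ A) (hE₃e : ∀ a ∈ E₃, a ^ p = 1)
    (hE₃card : Nat.card E₃ = p ^ 3)
    {L L' : Subgroup G} (hL : IsCoatom L) (hL' : IsCoatom L') (hAL : A ≤ ⁅L, L⁆)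
    (hAL' : A ≤ ⁅L', L'⁆) (hne : L ≠ L')
    {s : ℕ} [Fact s.Prime] (hsp : s ≠ p) (hs : ¬ PRankLE s 2 ↥(fittingOf L')) :
    PRankLE s 2 ↥L := by
  classical
  have hsP := (Fact.out : s.Prime)
  by_contra h3
  obtain ⟨U, hUL, hUc, hUe, hUcard⟩ := exists_of_not_prankLE h3
  have hUp : IsPGroup s U := fun g => ⟨1, by rw [pow_one]; exact Subtype.ext (hUe g.1 g.2)⟩
  have hUU : InUniqueMaximal U :=
    uniq_of_fitting_rank3 hG hL' hs hUp hUc (not_prankLE_of_le le_rfl hUc hUe hUcard)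
  have hUuL : UniqIn L U := by
    obtain ⟨M, hM, hUM, hUMu⟩ := uniqIn_of_inUniqueMaximal hUU
    have hLM : L = M := hUMu L hL hUL
    rw [hLM]; exact hUMu
  obtain ⟨U', hU'T, hU'c, hU'e, hU'card, hU'U, hU'L⟩ := exists_uniq_in_pCoreOf hG hL' hs
  obtain ⟨S₁, hS₁⟩ := sylSet_nonempty s L'
  have hT'S₁ : pCoreOf s L' ≤ S₁ :=
    normal_pgroup_le_sylSet hS₁ (pCoreOf_le s L') (isPGroup_pCoreOf s L')
      (le_normalizer_pCoreOf s L')
  have hS₁u : UniqIn L' S₁ := hU'L.mono (hU'T.trans hT'S₁)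
  have hS₁p := isPGroup_of_mem_sylSet hS₁
  have hU'1 : U' ≠ ⊥ := ne_bot_of_lt_card hU'card hsP.pos
  have hS₁1 : S₁ ≠ ⊥ := fun h => hU'1 (le_bot_iff.mp (h ▸ hU'T.trans hT'S₁))
  have hNS₁ : Subgroup.normalizer (S₁ : Set G) ≤ L' :=
    normalizer_le_of_uniqIn hG hS₁u hS₁1 (minSimple_pgroup_ne_top hG hS₁p)
  have hS₁top : S₁ ∈ sylSet s ⊤ := mem_sylSet_of_normalizer_le hS₁ hNS₁ le_top
  obtain ⟨R, hR, hUR⟩ := exists_sylSet_ge hUp (le_top : U ≤ ⊤)
  obtain ⟨n, -, hn⟩ := sylSet_conj hR hS₁top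
  have hcU : cj n U ≤ L' := ((cj_mono n hUR).trans (le_of_eq hn)).trans hS₁.1
  have hL'eq : L' = cj n L := (hUuL.conj n) L' hL' hcU
  have hsL : ¬ PRankLE s 2 ↥(fittingOf L) := by
    apply not_prankLE_fittingOf_cj n
    rw [← hL'eq]; exact hs
  have hAc := hTT.hEc
  obtain ⟨hCAL, -⟩ := step3 hG hAc hU hL hAL hsp hsL hE₃A hE₃e hE₃card
  obtain ⟨U₁, hU₁T, -, -, hU₁card, -, hU₁L⟩ := exists_uniq_in_pCoreOf hG hL hsL
  have hAL0 : A ≤ L := hAL.trans (comm_le_self L)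
  have hAL0' : A ≤ L' := hAL'.trans (comm_le_self L')
  have hTinv : pCoreOf s L ∈ invSubgroups ⊤ A {s} :=
    ⟨le_top, primes_of_isPGroup (isPGroup_pCoreOf s L), hAL0.trans (le_normalizer_pCoreOf s L)⟩
  have hT'inv : pCoreOf s L' ∈ invSubgroups ⊤ A {s} :=
    ⟨le_top, primes_of_isPGroup (isPGroup_pCoreOf s L'),
      hAL0'.trans (le_normalizer_pCoreOf s L')⟩
  obtain ⟨S, hS, hTS⟩ := exists_maxInv_ge hTinv
  obtain ⟨S', hS', hT'S'⟩ := exists_maxInv_ge hT'inv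
  obtain ⟨k, hk, hkS⟩ := thompson_trans hTT hA₀A hA₀ hA₀3 hsp hS hS'
  have hSp : IsPGroup s S := isPGroup_of_primes hS.1.2.1
  have hSL : S ≤ L :=
    le_of_uniqIn (hU₁L.mono (hU₁T.trans hTS)) (minSimple_pgroup_ne_top hG hSp)
  have hkL : k ∈ L := hCAL (piCoreOf_le _ _ hk)
  have hS'L : S' ≤ L := by rw [hkS]; exact cj_le_of_mem hkL hSL
  exact hne ((hU'L.mono (hU'T.trans hT'S')) L hL hS'L)

/-- a maximal subgroup containing `A` whose Fitting subgroup has `r`-rank at least three for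
some prime `r ≠ p` has `A` in its derived subgroup. -/
theorem good_of_typeII (hG : IsMinSimpleOddOrder G) {p : ℕ} [Fact p.Prime] (hp2 : p ≠ 2)
    (P : Sylow p G) {A : Subgroup G} (hA : IsSCN (P : Subgroup G) A) (hA3 : ¬ PRankLE p 2 ↥A)
    {H : Subgroup G} (hH : IsCoatom H) (hAH : A ≤ H) {r : ℕ} [Fact r.Prime] (hrp : r ≠ p)
    (hr : ¬ PRankLE r 2 ↥(fittingOf H)) : A ≤ ⁅H, H⁆ := by
  classical
  have hp := (Fact.out : p.Prime)
  have hrP := (Fact.out : r.Prime)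
  have hPp : IsPGroup p (P : Subgroup G) := P.isPGroup'
  have hPs : (P : Subgroup G) ∈ sylSet p ⊤ := sylow_mem_sylSet P
  have hTT : TTHyp p A := ttHyp_of_scn hG hp2 hPs hA
  have hAp : IsPGroup p A := hPp.to_le hA.1
  obtain ⟨A₀, hA₀A, hA₀, hA₀3⟩ := exists_elemAb_cube hAp hA3
  obtain ⟨U₁, hU₁T, -, -, hU₁card, -, hU₁H⟩ := exists_uniq_in_pCoreOf hG hH hr
  have hTinv : pCoreOf r H ∈ invSubgroups ⊤ A {r} :=
    ⟨le_top, primes_of_isPGroup (isPGroup_pCoreOf r H), hAH.trans (le_normalizer_pCoreOf r H)⟩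
  obtain ⟨S, hS, hTS⟩ := exists_maxInv_ge hTinv
  have hSp : IsPGroup r S := isPGroup_of_primes hS.1.2.1
  have hSu : UniqIn H S := hU₁H.mono (hU₁T.trans hTS)
  have hU₁1 : U₁ ≠ ⊥ := ne_bot_of_lt_card hU₁card hrP.pos
  have hS1 : S ≠ ⊥ := fun h => hU₁1 (le_bot_iff.mp (h ▸ hU₁T.trans hTS))
  have hNS : Subgroup.normalizer (S : Set G) ≤ H :=
    normalizer_le_of_uniqIn hG hSu hS1 (minSimple_pgroup_ne_top hG hSp)
  obtain ⟨C, hC⟩ : ∃ C : Subgroup G,
      C = piCoreOf (primesNotDvd p) (Subgroup.centralizer (A : Set G)) := ⟨_, rfl⟩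
  have hPC : (P : Subgroup G) ≤ Subgroup.normalizer (C : Set G) := by
    rw [hC]
    exact hA.2.1.trans ((normalizer_le_normalizer_centralizer A).trans
      (normalizer_le_normalizer_piCoreOf _ _))
  have hCcop : (Nat.card C).Coprime p := by
    rw [Nat.coprime_comm, Nat.Prime.coprime_iff_not_dvd hp]
    intro hd
    rw [hC] at hd
    exact (piCoreOf_primes _ _ p hp hd).2 (dvd_refl p)
  have hCcent : ∀ y ∈ C, ∀ a ∈ A, a * y = y * a := by
    intro y hy a ha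
    rw [hC] at hy
    exact Subgroup.mem_centralizer_iff.mp (piCoreOf_le _ _ hy) a ha
  have hPsol : Group.IsSolvable ↥(P : Subgroup G) := by
    have := hPp.isNilpotent
    infer_instance
  have hcop : (Nat.card (P : Subgroup G)).Coprime (Nat.card C) := by
    obtain ⟨m, hm⟩ := IsPGroup.iff_card.mp hPp
    rw [hm]; exact Nat.Coprime.pow_left m hCcop.symm
  obtain ⟨⟨Q₀, hQ₀, hfix⟩, -⟩ := glauberman_aux (Ω := Subgroup G) cj cj_one cj_mul
    (Nat.card (P : Subgroup G)) (P : Subgroup G) C (maxInvSubgroups ⊤ A {r}) le_rfl hPC hcop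
    hPsol
    (fun a ha t ht => cj_mem_maxInv_of_normalizer (hA.2.1 ha) ht)
    (fun y hy t ht => cj_mem_maxInv (hCcent y hy) ht)
    (fun s hs t ht => by
      obtain ⟨k, hk, hkt⟩ := thompson_trans hTT hA₀A hA₀ hA₀3 hrp hs ht
      exact ⟨k, hC ▸ hk, hkt.symm⟩)
    ⟨S, hS⟩
  obtain ⟨k, hk, hkQ⟩ := thompson_trans hTT hA₀A hA₀ hA₀3 hrp hS hQ₀
  have hQ₀P : Q₀ ∈ maxInvSubgroups ⊤ (P : Subgroup G) {r} := by
    refine ⟨⟨le_top, hQ₀.1.2.1, le_normalizer_of_cj_eq hfix⟩, ?_⟩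
    intro R hR hQR
    exact hQ₀.2 R ⟨le_top, hR.2.1, hA.1.trans hR.2.2⟩ hQR
  have hQ₀1 : Q₀ ≠ ⊥ := by
    intro h
    apply hS1
    have h2 := card_cj k S
    rw [← hkQ, h, Subgroup.card_bot] at h2
    exact Subgroup.card_eq_one.mp h2.symm
  have h1 := step1 hG hp2 P hA hA3 hrp hQ₀P hQ₀1
  have hNQ : Subgroup.normalizer (Q₀ : Set G) ≤ cj k H := by
    rw [hkQ]
    intro x hx
    rw [mem_cj]
    apply hNS
    rw [← cj_eq_self_iff] at hx ⊢
    rw [cj_mul, cj_mul, hx, cj_inv_cj]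
  intro a ha
  have h2 : a ∈ ⁅cj k H, cj k H⁆ := Subgroup.commutator_mono hNQ hNQ (h1 (hA.1 ha))
  have h3 : ⁅cj k H, cj k H⁆ = cj k ⁅H, H⁆ :=
    (Cfsg.Agent.Lib.Helper42.cj_commutator k H H).symm
  rw [h3, mem_cj] at h2
  have hka : k⁻¹ * a * k = a := by
    have := hCcent k (hC ▸ hk) a ha
    rw [mul_assoc, this, ← mul_assoc, inv_mul_cancel, one_mul]
  rwa [hka] at h2

/-- **Step 5.** Two maximal subgroups with `A` in their derived subgroups coincide. -/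
theorem good_unique (hG : IsMinSimpleOddOrder G) {p : ℕ} [Fact p.Prime] (hp2 : p ≠ 2)
    (P : Sylow p G) {A : Subgroup G} (hA : IsSCN (P : Subgroup G) A) (hA3 : ¬ PRankLE p 2 ↥A)
    (hU : ¬ InUniqueMaximal A) {L₁ L₂ : Subgroup G} (hL₁ : IsCoatom L₁) (hL₂ : IsCoatom L₂)
    (hAL₁ : A ≤ ⁅L₁, L₁⁆) (hAL₂ : A ≤ ⁅L₂, L₂⁆) : L₁ = L₂ := by
  classical
  by_contra hne
  have hp := (Fact.out : p.Prime)
  have hPp : IsPGroup p (P : Subgroup G) := P.isPGroup'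
  have hPs : (P : Subgroup G) ∈ sylSet p ⊤ := sylow_mem_sylSet P
  have hTT : TTHyp p A := ttHyp_of_scn hG hp2 hPs hA
  have hAc := hTT.hEc
  have hAp : IsPGroup p A := hPp.to_le hA.1
  obtain ⟨A₀, hA₀A, hA₀, hA₀3⟩ := exists_elemAb_cube hAp hA3
  obtain ⟨E₃, hE₃A₀, hE₃card⟩ := exists_subgroup_card (p := p) (n := 3) (B := A₀) (by
    obtain ⟨m, hm⟩ := IsPGroup.iff_card.mp (hAp.to_le hA₀A)
    rw [hm] at hA₀3 ⊢
    exact pow_dvd_pow p ((Nat.pow_le_pow_iff_right hp.one_lt).mp hA₀3))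
  have hE₃A : E₃ ≤ A := hE₃A₀.trans hA₀A
  have hE₃e : ∀ a ∈ E₃, a ^ p = 1 := fun a ha => hA₀.2 a (hE₃A₀ ha)
  have hE₃c : ∀ a ∈ E₃, ∀ b ∈ E₃, a * b = b * a :=
    fun a ha b hb => hAc a (hE₃A ha) b (hE₃A hb)
  have hN1 : ∀ M : Subgroup G, IsCoatom M → PRankLE p 2 ↥(fittingOf M) := by
    intro M hM
    by_contra h
    exact hU (uniq_of_fitting_rank3 hG hM h hAp hAc hA3)
  have htype : ∀ L : Subgroup G, IsCoatom L → A ≤ ⁅L, L⁆ →
      ∃ s : ℕ, s.Prime ∧ s ≠ p ∧ ¬ PRankLE s 2 ↥(fittingOf L) := by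
    intro L hL hAL
    by_contra hno
    push Not at hno
    have hr : ∀ r : ℕ, r.Prime → PRankLE r 2 ↥(fittingOf L) := by
      intro r hr
      by_cases hrp : r = p
      · rw [hrp]; exact hN1 L hL
      · exact hno r hr hrp
    have h1 := (comm_nilpotent_of_rankLE hG hL.1 hr).2
    obtain ⟨E, hEA, hEc, hEe, hEcard⟩ := exists_of_not_prankLE hA3
    exact not_prankLE_of_le (hEA.trans (hAL.trans h1)) hEc hEe hEcard (hN1 L hL)
  obtain ⟨s₁, hs₁, hs₁p, hs₁r⟩ := htype L₁ hL₁ hAL₁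
  obtain ⟨s₂, hs₂, hs₂p, hs₂r⟩ := htype L₂ hL₂ hAL₂
  have : Fact s₁.Prime := ⟨hs₁⟩
  have : Fact s₂.Prime := ⟨hs₂⟩
  have h41 : PRankLE s₂ 2 ↥L₁ := step4 hG hTT hA₀A hA₀ hA₀3 hU hE₃A hE₃e hE₃card hL₁ hL₂
    hAL₁ hAL₂ hne hs₂p hs₂r
  have hs12 : s₁ ≠ s₂ := by
    intro h12
    obtain ⟨E, hEF, hEc, hEe, hEcard⟩ := exists_of_not_prankLE hs₁r
    rw [h12] at hEe hEcard
    exact not_prankLE_of_le (hEF.trans (fittingOf_le L₁)) hEc hEe hEcard h41
  obtain ⟨-, D₁, V₁, hD₁E, hD₁card, hV₁card, hAN₁, hAV₁, hDV₁, hCV₁⟩ :=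
    step3 hG hAc hU hL₁ hAL₁ hs₁p hs₁r hE₃A hE₃e hE₃card
  obtain ⟨-, D₂, V₂, hD₂E, hD₂card, hV₂card, hAN₂, hAV₂, hDV₂, hCV₂⟩ :=
    step3 hG hAc hU hL₂ hAL₂ hs₂p hs₂r hE₃A hE₃e hE₃card
  obtain ⟨d, hd, hd1⟩ := exists_ne_one_mem_inf hE₃c hE₃card hD₁E hD₂E hD₁card hD₂card
  have hCd := minSimple_centralizer_singleton_ne_top hG hd1
  obtain ⟨H, hH, hCH⟩ := exists_coatom_ge hCd
  have hdA : d ∈ A := hE₃A (hD₁E hd.1)
  have hAH : A ≤ H := fun a ha => hCH (Subgroup.mem_centralizer_iff.mpr (fun h hh => by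
    rw [Set.mem_singleton_iff.mp hh]; exact hAc d hdA a ha))
  have hV₁H : V₁ ≤ H := fun v hv => hCH (Subgroup.mem_centralizer_iff.mpr (fun h hh => by
    rw [Set.mem_singleton_iff.mp hh]
    exact (Subgroup.mem_centralizer_iff.mp (hDV₁ hd.1) v hv).symm))
  have hV₂H : V₂ ≤ H := fun v hv => hCH (Subgroup.mem_centralizer_iff.mpr (fun h hh => by
    rw [Set.mem_singleton_iff.mp hh]
    exact (Subgroup.mem_centralizer_iff.mp (hDV₂ hd.2) v hv).symm))
  have hV₁p : IsPGroup s₁ V₁ := IsPGroup.of_card (n := 1) (by rw [hV₁card, pow_one])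
  have hV₂p : IsPGroup s₂ V₂ := IsPGroup.of_card (n := 1) (by rw [hV₂card, pow_one])
  have hncomm : ¬ (V₂ ≤ Subgroup.centralizer (V₁ : Set G)) := by
    intro h
    have hV₂L₁ : V₂ ≤ L₁ := h.trans hCV₁
    exact hAV₂ (le_centralizer_of_prankLE hG hs₂p hL₁.1 hAp hAL₁ h41 hV₂L₁ hV₂p hAN₂)
  by_cases hcase : ∀ r : ℕ, r.Prime → PRankLE r 2 ↥(fittingOf H)
  · obtain ⟨hnil, -⟩ := comm_nilpotent_of_rankLE hG hH.1 hcase
    have hV₁' : V₁ ≤ ⁅H, H⁆ := le_comm_of_not_centralized hV₁card hAN₁ hAV₁ hAH hV₁H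
    have hV₂' : V₂ ≤ ⁅H, H⁆ := le_comm_of_not_centralized hV₂card hAN₂ hAV₂ hAH hV₂H
    apply hncomm
    intro y hy
    rw [Subgroup.mem_centralizer_iff]
    intro x hx
    haveI := hnil
    have hcomm := Cfsg.Agent.Lib.Helper34.commute_of_coprime_orderOf (N := ↥⁅H, H⁆)
      ⟨x, hV₁' hx⟩ ⟨y, hV₂' hy⟩ (by
        rw [Subgroup.orderOf_mk, Subgroup.orderOf_mk]
        have h1 : orderOf x ∣ s₁ := hV₁card ▸ Subgroup.orderOf_dvd_natCard V₁ hx
        have h2 : orderOf y ∣ s₂ := hV₂card ▸ Subgroup.orderOf_dvd_natCard V₂ hy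
        exact Nat.Coprime.coprime_dvd_left h1
          (Nat.Coprime.coprime_dvd_right h2 ((Nat.coprime_primes hs₁ hs₂).mpr hs12)))
    exact congrArg Subtype.val hcomm
  · push Not at hcase
    obtain ⟨r, hr, hrr⟩ := hcase
    haveI : Fact r.Prime := ⟨hr⟩
    have hrp : r ≠ p := by
      rintro rfl
      exact hrr (hN1 H hH)
    have hAHc : A ≤ ⁅H, H⁆ := good_of_typeII hG hp2 P hA hA3 hH hAH hrp hrr
    by_cases hHL₁ : H = L₁
    · have hHL₂ : H ≠ L₂ := fun h => hne (hHL₁.symm.trans h)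
      have h4 := step4 hG hTT hA₀A hA₀ hA₀3 hU hE₃A hE₃e hE₃card hH hL₂ hAHc hAL₂ hHL₂
        hs₂p hs₂r
      exact hAV₂ (le_centralizer_of_prankLE hG hs₂p hH.1 hAp hAHc h4 hV₂H hV₂p hAN₂)
    · have h4 := step4 hG hTT hA₀A hA₀ hA₀3 hU hE₃A hE₃e hE₃card hH hL₁ hAHc hAL₁ hHL₁
        hs₁p hs₁r
      exact hAV₁ (le_centralizer_of_prankLE hG hs₁p hH.1 hAp hAHc h4 hV₁H hV₁p hAN₁)

/-- **B&G Lemma 9.5.** -/
theorem bg95 (hG : IsMinSimpleOddOrder G) (p : ℕ) [Fact p.Prime] (P : Sylow p G)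
    (A : Subgroup G) (hA : IsSCN (P : Subgroup G) A) (hA3 : ¬ PRankLE p 2 ↥A) :
    InUniqueMaximal A := by
  classical
  by_contra hU
  have hp := (Fact.out : p.Prime)
  have hPp : IsPGroup p (P : Subgroup G) := P.isPGroup'
  have hAp : IsPGroup p A := hPp.to_le hA.1
  have hA1 : A ≠ ⊥ := by
    rintro rfl
    exact not_isCyclic_of_not_prankLE hA3 inferInstance
  have hp2 : p ≠ 2 := prime_ne_two hG hAp hA1
  have hPs : (P : Subgroup G) ∈ sylSet p ⊤ := sylow_mem_sylSet P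
  have hPtop : (P : Subgroup G) ≠ ⊤ := minSimple_pgroup_ne_top hG hPp
  have hPsol : Group.IsSolvable ↥(P : Subgroup G) := by
    have := hPp.isNilpotent
    infer_instance
  have hsyl : ∀ (Y : Subgroup G), (Nat.card Y).Coprime p →
      (P : Subgroup G) ≤ Subgroup.normalizer (Y : Set G) → ∀ (M : Subgroup G),
      (∀ (q : ℕ) [Fact q.Prime], q ≠ p → ∀ S ∈ invSubgroups ⊤ (P : Subgroup G) {q}, S ≤ M) →
      Y ≤ M := by
    intro Y hY hPY M hM
    apply le_of_sylSet_le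
    intro q hq
    haveI : Fact q.Prime := ⟨hq⟩
    have hcopPY : (Nat.card (P : Subgroup G)).Coprime (Nat.card Y) := by
      obtain ⟨m, hm⟩ := IsPGroup.iff_card.mp hPp
      rw [hm]; exact Nat.Coprime.pow_left m hY.symm
    obtain ⟨S, hS, hPS⟩ := exists_invariant_sylow (q := q) (P : Subgroup G) Y hPY hcopPY hPsol
    refine ⟨S, hS, ?_⟩
    by_cases hqp : q = p
    · subst hqp
      have h1 : Nat.card S = 1 := by
        rw [hS.2, Nat.factorization_eq_zero_of_not_dvd, pow_zero]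
        exact (Nat.Prime.coprime_iff_not_dvd hq).mp hY.symm
      rw [Subgroup.card_eq_one.mp h1]
      exact bot_le
    · exact hM q hqp S ⟨le_top, primes_of_isPGroup (isPGroup_of_mem_sylSet hS), hPS⟩
  have key : ∃ M : Subgroup G, IsCoatom M ∧ (P : Subgroup G) ≤ M ∧
      ∀ Y : Subgroup G, (Nat.card Y).Coprime p →
        (P : Subgroup G) ≤ Subgroup.normalizer (Y : Set G) → Y ≤ M := by
    by_cases hcase : ∀ (q : ℕ), q.Prime → q ≠ p →
        ∀ Q ∈ invSubgroups ⊤ (P : Subgroup G) {q}, Q = ⊥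
    · obtain ⟨M, hM, hPM⟩ := exists_coatom_ge hPtop
      refine ⟨M, hM, hPM, ?_⟩
      intro Y hY hPY
      apply hsyl Y hY hPY M
      intro q hq hqp S hS
      rw [hcase q hq.out hqp S hS]; exact bot_le
    · push Not at hcase
      obtain ⟨q₀, hq₀, hq₀p, Q', hQ', hQ'1⟩ := hcase
      haveI : Fact q₀.Prime := ⟨hq₀⟩
      obtain ⟨Q₀, hQ₀, hQ'Q₀⟩ := exists_maxInv_ge hQ'
      have hQ₀1 : Q₀ ≠ ⊥ := fun h => hQ'1 (le_bot_iff.mp (h ▸ hQ'Q₀))
      have hQ₀q : IsPGroup q₀ Q₀ := isPGroup_of_primes hQ₀.1.2.1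
      have hNne := minSimple_normalizer_ne_top hG hQ₀1 (minSimple_pgroup_ne_top hG hQ₀q)
      obtain ⟨Ls, hLs, hNLs⟩ := exists_coatom_ge hNne
      have hgoods : A ≤ ⁅Ls, Ls⁆ :=
        hA.1.trans ((step1 hG hp2 P hA hA3 hq₀p hQ₀ hQ₀1).trans
          (Subgroup.commutator_mono hNLs hNLs))
      refine ⟨Ls, hLs, hQ₀.1.2.2.trans hNLs, ?_⟩
      intro Y hY hPY
      apply hsyl Y hY hPY Ls
      intro q hq hqp S hS
      by_cases hS1 : S = ⊥
      · rw [hS1]; exact bot_le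
      · obtain ⟨Q, hQ, hSQ⟩ := exists_maxInv_ge hS
        have hQ1 : Q ≠ ⊥ := fun h => hS1 (le_bot_iff.mp (h ▸ hSQ))
        have hQq : IsPGroup q Q := isPGroup_of_primes hQ.1.2.1
        have hNne' := minSimple_normalizer_ne_top hG hQ1 (minSimple_pgroup_ne_top hG hQq)
        obtain ⟨LQ, hLQ, hNLQ⟩ := exists_coatom_ge hNne'
        have hgood : A ≤ ⁅LQ, LQ⁆ :=
          hA.1.trans ((step1 hG hp2 P hA hA3 hqp hQ hQ1).trans
            (Subgroup.commutator_mono hNLQ hNLQ))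
        have heq : LQ = Ls := good_unique hG hp2 P hA hA3 hU hLQ hLs hgood hgoods
        exact (hSQ.trans (Subgroup.le_normalizer.trans hNLQ)).trans (le_of_eq heq)
  obtain ⟨M, hM, hPM, hKM⟩ := key
  have hinv := inv_le_of_scn3 hG hp2 hPs hA hA3 hKM
  have huniq := uniq_of_inv hG hM (hA.1.trans hPM) hAp hA1 hinv
  exact hU (inUniqueMaximal_of_uniqIn hM (hA.1.trans hPM) huniq)

end main

end Cfsg.Agent.Lib.Helper3.U95
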