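import Mathlib
import Cfsg.Agent.Lib.Helper3.U95M

/-!
# B&G Theorem 10.1 (helper3)

`sylow_fusion_in`: a maximal subgroup `M` containing `N_G(P)`, `P` a Sylow `p`-subgroup of the
minimal simple group `G` of odd order, controls strong fusion in `P`.
`sigma_fusion`: the statement for `p ∈ σ(M)`.
-/

set_option autoImplicit false

namespace Cfsg.Agent.Lib.Helper3.BG10

open Cfsg Cfsg.Agent.Lib.Helper34 Cfsg.Agent.Lib.Helper32 Cfsg.Agent.Lib.Helper3.U95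
open scoped commutatorElement

universe u

section

variable {G : Type u} [Group G] [Finite G]

/-- the normalizer of `P` controls strong fusion in the Sylow `p`-subgroup `P`. -/
theorem sylow_conj_eq (hG : IsMinSimpleOddOrder G) {p : ℕ} [Fact p.Prime] (hp2 : p ≠ 2)
    (P : Sylow p G) {M : Subgroup G} (hM : IsCoatom M)
    (hNM : Subgroup.normalizer ((P : Subgroup G) : Set G) ≤ M) (T : Subgroup G) (g : G)
    (hT : T ≤ (P : Subgroup G)) (hgT : cj g T ≤ (P : Subgroup G)) :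
    ∃ y ∈ M, ∀ b ∈ T, y * b * y⁻¹ = g * b * g⁻¹ := by
  have hPp : IsPGroup p (P : Subgroup G) := P.isPGroup'
  have hPs : (P : Subgroup G) ∈ sylSet p ⊤ := sylow_mem_sylSet P
  have hPM : (P : Subgroup G) ≤ M := Subgroup.le_normalizer.trans hNM
  have hfac := Cfsg.Agent.Lib.Helper42.wellPlaced_global_fac P (relZ_isConjugacyFunctor p)
    (fun T hT1 hT => relZ_local_ctl hG hp2 P T hT1 hT) T g hT hgT
  obtain ⟨x, hx, hxa⟩ := hfac.conj_eq
  by_cases hP1 : (P : Subgroup G) = ⊥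
  · refine ⟨1, M.one_mem, ?_⟩
    intro b hb
    have hb1 : b = 1 := by
      have := hT hb
      rw [hP1] at this
      exact Subgroup.mem_bot.mp this
    rw [hb1]; group
  obtain ⟨N₁, hN₁⟩ : ∃ N₁ : Subgroup G,
      N₁ = Subgroup.normalizer (relZ (P : Subgroup G) : Set G) := ⟨_, rfl⟩
  rw [← hN₁] at hx
  have hPN₁ : (P : Subgroup G) ≤ N₁ := by
    rw [hN₁]; exact Subgroup.le_normalizer.trans (normalizer_le_normalizer_relZ _)
  have hN₁ne : N₁ ≠ ⊤ := by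
    rw [hN₁]
    exact minSimple_normalizer_ne_top hG (relZ_ne_bot hPp hP1)
      (minSimple_pgroup_ne_top hG (hPp.to_le (relZ_le _)))
  by_cases hr : PRankLE p 2 ↥(P : Subgroup G)
  · -- rank at most two
    have hPsN₁ : (P : Subgroup G) ∈ sylSet p N₁ := mem_sylSet_of_normalizer_le hPs le_top hPN₁
    have hsolN₁ := minSimple_solvable hG hN₁ne
    have hoddN₁ := minSimple_odd_sub hG N₁
    have hPO : (P : Subgroup G) ≤ pPrimePCoreOf p N₁ :=
      sylow_le_pPrimePCoreOf_of_rank2 hp2 hsolN₁ hoddN₁ hPsN₁ hr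
    have hfac1 := core_sup_normalizer_inf_rel hPsN₁
    rw [inf_eq_left.mpr hPO] at hfac1
    have hNO : N₁ ⊓ Subgroup.normalizer ((P : Subgroup G) : Set G) ≤
        Subgroup.normalizer (pPrimeCoreOf p N₁ : Set G) :=
      inf_le_left.trans (le_normalizer_pPrimeCoreOf N₁)
    have hx' : x ∈ (N₁ ⊓ Subgroup.normalizer ((P : Subgroup G) : Set G)) ⊔ pPrimeCoreOf p N₁ := by
      rw [sup_comm]; exact hfac1 hx
    obtain ⟨n, hn, k, hk, rfl⟩ := Cfsg.Agent.Lib.Helper42.mem_sup_of_le_normalizer hNO hx'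
    obtain ⟨y, hy, hyb⟩ := conj_eq_of_core_factor (pPrimeCoreOf_coprime N₁) hNO
      (le_inf hPN₁ Subgroup.le_normalizer) hPp hT hk hn (fun b hb => by
        rw [hxa b hb]
        exact hgT (mem_cj.mpr (by
          have e : g⁻¹ * (g * b * g⁻¹) * g = b := by group
          rw [e]; exact hb)))
    exact ⟨y, hNM hy.2, fun b hb => (hyb b hb).trans (hxa b hb)⟩
  · -- rank at least three: `P` lies in a unique maximal subgroup
    obtain ⟨A, hA, hA3⟩ := exists_scn3 hp2 hPp hr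
    have hAU := bg95 hG p P A hA hA3
    obtain ⟨M', hM', hAM', hAu⟩ := uniqIn_of_inUniqueMaximal hAU
    have hMM' : M = M' := hAu M hM (hA.1.trans hPM)
    obtain ⟨L, hL, hN₁L⟩ := exists_coatom_ge hN₁ne
    have hLM' : L = M' := hAu L hL ((hA.1.trans hPN₁).trans hN₁L)
    refine ⟨x, ?_, hxa⟩
    rw [hMM', ← hLM']
    exact hN₁L hx

/-- **B&G Theorem 10.1.** -/
theorem sigma_fusion (hG : IsMinSimpleOddOrder G) (M : Subgroup G) (hM : IsCoatom M) (p : ℕ)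
    [Fact p.Prime] (hp : p ∈ sigma M) (X : Subgroup G) (hXp : IsPGroup p X) (hX1 : X ≠ ⊥)
    (hXM : X ≤ M) :
    (∀ g : G, X.map (MulAut.conj g).toMonoidHom ≤ M →
      ∃ m ∈ M, ∃ c ∈ Subgroup.centralizer (X : Set G), g = m * c) ∧
    Subgroup.normalizer (X : Set G) =
      (M ⊓ Subgroup.normalizer (X : Set G)) ⊔ Subgroup.centralizer (X : Set G) := by
  classical
  have hp2 : p ≠ 2 := prime_ne_two hG hXp hX1
  obtain ⟨-, -, P₀, hNP₀⟩ := hp
  obtain ⟨Q, hQ⟩ : ∃ Q : Subgroup G, Q = (P₀ : Subgroup ↥M).map M.subtype := ⟨_, rfl⟩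
  rw [← hQ] at hNP₀
  have hQM : Q ∈ sylSet p M := by rw [hQ]; exact mem_sylSet_of_sylow P₀
  have hQtop : Q ∈ sylSet p ⊤ := mem_sylSet_of_normalizer_le hQM hNP₀ le_top
  have hcard : Nat.card Q = p ^ (Nat.card G).factorization p := by
    have := hQtop.2; rwa [Subgroup.card_top] at this
  obtain ⟨P, hP⟩ : ∃ P : Sylow p G, (P : Subgroup G) = Q := ⟨Sylow.ofCard Q hcard, Sylow.coe_ofCard Q hcard⟩
  rw [← hP] at hNP₀ hQM
  have key : ∀ g : G, cj g X ≤ M →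
      ∃ m ∈ M, ∃ c ∈ Subgroup.centralizer (X : Set G), g = m * c := by
    intro g hg
    obtain ⟨R₁, hR₁, hXR₁⟩ := exists_sylSet_ge hXp hXM
    obtain ⟨n₁, hn₁, hn₁R⟩ := sylSet_conj hR₁ hQM
    obtain ⟨R₂, hR₂, hXR₂⟩ := exists_sylSet_ge (isPGroup_cj (g := g) hXp) hg
    obtain ⟨n₂, hn₂, hn₂R⟩ := sylSet_conj hR₂ hQM
    have hT : cj n₁ X ≤ (P : Subgroup G) := (cj_mono n₁ hXR₁).trans (le_of_eq hn₁R)
    have hgT : cj (n₂ * g * n₁⁻¹) (cj n₁ X) ≤ (P : Subgroup G) := by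
      rw [cj_mul, cj_inv_cj, cj_mul]
      exact (cj_mono n₂ hXR₂).trans (le_of_eq hn₂R)
    obtain ⟨y, hy, hyb⟩ := sylow_conj_eq hG hp2 P hM hNP₀ (cj n₁ X) (n₂ * g * n₁⁻¹) hT hgT
    refine ⟨n₂⁻¹ * y * n₁, M.mul_mem (M.mul_mem (M.inv_mem hn₂) hy) hn₁,
      (n₂⁻¹ * y * n₁)⁻¹ * g, ?_, by group⟩
    rw [Subgroup.mem_centralizer_iff]
    intro x hx
    have h1 := hyb (n₁ * x * n₁⁻¹) (mem_cj.mpr (by
      have e : n₁⁻¹ * (n₁ * x * n₁⁻¹) * n₁ = x := by group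
      rw [e]; exact hx))
    -- y (n₁ x n₁⁻¹) y⁻¹ = (n₂ g n₁⁻¹) (n₁ x n₁⁻¹) (n₂ g n₁⁻¹)⁻¹
    have h2 : n₂⁻¹ * (y * (n₁ * x * n₁⁻¹) * y⁻¹) * n₂ = g * x * g⁻¹ := by
      rw [h1]; group
    calc x * ((n₂⁻¹ * y * n₁)⁻¹ * g)
        = (n₂⁻¹ * y * n₁)⁻¹ * (n₂⁻¹ * (y * (n₁ * x * n₁⁻¹) * y⁻¹) * n₂) * g := by group
      _ = (n₂⁻¹ * y * n₁)⁻¹ * (g * x * g⁻¹) * g := by rw [h2]
      _ = (n₂⁻¹ * y * n₁)⁻¹ * g * x := by group
  refine ⟨key, le_antisymm ?_ (sup_le inf_le_right (Subgroup.centralizer_le_normalizer _))⟩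
  intro g hg
  have hgX : cj g X ≤ M := by rw [cj_eq_self_iff.mpr hg]; exact hXM
  obtain ⟨m, hm, c, hc, rfl⟩ := key g hgX
  refine Subgroup.mul_mem_sup ⟨hm, ?_⟩ hc
  have hcN : c ∈ Subgroup.normalizer (X : Set G) := Subgroup.centralizer_le_normalizer _ hc
  have e : m = m * c * c⁻¹ := by group
  rw [e]
  exact Subgroup.mul_mem _ hg (Subgroup.inv_mem _ hcN)

end

end Cfsg.Agent.Lib.Helper3.BG10
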