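import Mathlib
import Cfsg.Agent.Lib.Helper3.BG10a
import Cfsg.Agent.Lib.Helper32.Uniq9
import Cfsg.Agent.Lib.Helper90.BG10C

/-!
# B&G Theorem 10.2 (helper3)

* `elemAb3_unique`, `uniqueness`: the Uniqueness Theorem (B&G 9.6), unconditional.
* `sylow_of_alpha`: for `p ∈ α(M)` a Sylow `p`-subgroup of `M` is a Sylow `p`-subgroup of `G`
  whose normalizer lies in `M`.
* `sylow_le_comm_of_normalizer_le`: `P ≤ M'` when `N_G(P) ≤ M`.
* `alpha_core_hall`: B&G Theorem 10.2.
-/

set_option autoImplicit false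

namespace Cfsg.Agent.Lib.Helper3.BG10

open Cfsg Cfsg.Agent.Lib.Helper34 Cfsg.Agent.Lib.Helper32 Cfsg.Agent.Lib.Helper3.U95
open scoped commutatorElement

universe u

section

variable {G : Type u} [Group G] [Finite G]

/-- an elementary abelian subgroup of order `q ^ 3` lies in a unique maximal subgroup. -/
theorem elemAb3_unique (hG : IsMinSimpleOddOrder G) {q : ℕ} [Fact q.Prime] {E : Subgroup G}
    (hEc : ∀ a ∈ E, ∀ b ∈ E, a * b = b * a) (hEe : ∀ a ∈ E, a ^ q = 1)
    (hEcard : Nat.card E = q ^ 3) : InUniqueMaximal E :=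
  elemAb3_uniq hG (fun p _ P A hA hA3 => bg95 hG p P A hA hA3) hEc hEe hEcard

/-- **The Uniqueness Theorem (B&G 9.6).** -/
theorem uniqueness (hG : IsMinSimpleOddOrder G) (K : Subgroup G) (hK : K ≠ ⊤)
    (hK2 : ¬ RankLE 1 K)
    (hK3 : ¬ RankLE 2 K ∨ ¬ RankLE 2 (Subgroup.centralizer (K : Set G))) :
    InUniqueMaximal K :=
  uniqueness_of_scn3 hG (fun p _ P A hA hA3 => bg95 hG p P A hA hA3) K hK hK2 hK3

/-- a subgroup of `M` of `p`-rank at least three lies in no other maximal subgroup. -/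
theorem uniqIn_of_rank3 (hG : IsMinSimpleOddOrder G) {M : Subgroup G} (hM : IsCoatom M)
    {p : ℕ} [Fact p.Prime] {Q : Subgroup G} (hQM : Q ≤ M) (hr : ¬ PRankLE p 2 ↥Q) :
    UniqIn M Q := by
  have hp := (Fact.out : p.Prime)
  obtain ⟨E, hEQ, hEc, hEe, hEcard⟩ := exists_of_not_prankLE hr
  have hEp : IsPGroup p E := fun g => ⟨1, by rw [pow_one]; exact Subtype.ext (hEe g.1 g.2)⟩
  obtain ⟨E', hE'E, hE'card⟩ := exists_subgroup_card (p := p) (n := 3) (B := E) (by
    obtain ⟨m, hm⟩ := IsPGroup.iff_card.mp hEp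
    rw [hm] at hEcard ⊢
    exact pow_dvd_pow p (by
      have := (Nat.pow_lt_pow_iff_right hp.one_lt).mp hEcard
      omega))
  have hU := elemAb3_unique hG (fun a ha b hb => hEc a (hE'E ha) b (hE'E hb))
    (fun a ha => hEe a (hE'E ha)) hE'card
  obtain ⟨M', hM', hEM', hEu⟩ := uniqIn_of_inUniqueMaximal hU
  have hMM' : M = M' := hEu M hM ((hE'E.trans hEQ).trans hQM)
  rw [hMM']
  exact hEu.mono (hE'E.trans hEQ)

/-- for `p ∈ α(M)`, a Sylow `p`-subgroup of `M` is a Sylow `p`-subgroup of `G` with normalizer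
in `M`. -/
theorem sylow_of_alpha (hG : IsMinSimpleOddOrder G) {M : Subgroup G} (hM : IsCoatom M)
    {p : ℕ} [Fact p.Prime] (hr : ¬ PRankLE p 2 ↥M) {Q : Subgroup G} (hQ : Q ∈ sylSet p M) :
    UniqIn M Q ∧ Subgroup.normalizer (Q : Set G) ≤ M ∧ Q ∈ sylSet p ⊤ := by
  have hQr : ¬ PRankLE p 2 ↥Q := fun h => hr (prankLE_of_sylSet hQ 2 h)
  have hQp : IsPGroup p Q := isPGroup_of_mem_sylSet hQ
  have hu : UniqIn M Q := uniqIn_of_rank3 hG hM hQ.1 hQr
  have hQ1 : Q ≠ ⊥ := by
    rintro rfl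
    exact not_isCyclic_of_not_prankLE hQr inferInstance
  have hN := normalizer_le_of_uniqIn hG hu hQ1 (minSimple_pgroup_ne_top hG hQp)
  exact ⟨hu, hN, mem_sylSet_of_normalizer_le hQ hN le_top⟩

/-- a Sylow `p`-subgroup of `G` with normalizer in the maximal subgroup `M` lies in `M'`. -/
theorem sylow_le_comm_of_normalizer_le (hG : IsMinSimpleOddOrder G) {p : ℕ} [Fact p.Prime]
    (P : Sylow p G) {M : Subgroup G} (hM : IsCoatom M)
    (hNM : Subgroup.normalizer ((P : Subgroup G) : Set G) ≤ M) :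
    (P : Subgroup G) ≤ ⁅M, M⁆ := by
  by_cases hP1 : (P : Subgroup G) = ⊥
  · rw [hP1]; exact bot_le
  have hp2 : p ≠ 2 := prime_ne_two hG P.isPGroup' hP1
  have hPM : (P : Subgroup G) ≤ M := Subgroup.le_normalizer.trans hNM
  have h1 := Cfsg.Agent.Lib.Helper42.focal_le (Cfsg.Agent.Lib.Helper42.sylow_isSylIn P)
    (F := ⁅M, M⁆) ?_
  · rw [commutator_top_eq_top hG, inf_top_eq] at h1
    exact h1
  · intro x hx u _ hux
    have hsub : (fun a => u * a * u⁻¹) '' ({x} : Set G) ⊆ (P : Subgroup G) := by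
      rintro _ ⟨a, ha, rfl⟩
      rw [Set.mem_singleton_iff] at ha
      rw [ha]; exact hux
    obtain ⟨y, hy, hyb⟩ := sylow_conj_eq hG hp2 P hM hNM (Subgroup.closure {x}) u
      ((Subgroup.closure_le _).mpr (Set.singleton_subset_iff.mpr hx))
      (Cfsg.Agent.Lib.Helper42.image_conj_subset_iff.mp hsub)
    have h3 := hyb x (Subgroup.subset_closure rfl)
    have h4 : ⁅u, x⁆ = ⁅y, x⁆ := by
      rw [commutatorElement_def, commutatorElement_def, h3]
    rw [h4]
    exact Subgroup.commutator_mem_commutator hy (hPM hx)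

/-- every `p`-element of `M` lies in `M'`, for `p ∈ α(M)`. -/
theorem alpha_elt_mem_comm (hG : IsMinSimpleOddOrder G) {M : Subgroup G} (hM : IsCoatom M)
    {p : ℕ} [Fact p.Prime] (hr : ¬ PRankLE p 2 ↥M) {x : G} (hxM : x ∈ M) {k : ℕ}
    (hx : orderOf x = p ^ k) : x ∈ ⁅M, M⁆ := by
  have hzp : IsPGroup p (Subgroup.zpowers x) := by
    apply IsPGroup.of_card (n := k)
    rw [Nat.card_zpowers, hx]
  obtain ⟨R, hR, hxR⟩ := exists_sylSet_ge hzp (Subgroup.zpowers_le.mpr hxM)
  obtain ⟨-, hN, hRtop⟩ := sylow_of_alpha hG hM hr hR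
  have hcard : Nat.card R = p ^ (Nat.card G).factorization p := by
    have := hRtop.2; rwa [Subgroup.card_top] at this
  have h := sylow_le_comm_of_normalizer_le hG (Sylow.ofCard R hcard) hM
    (by rw [Sylow.coe_ofCard]; exact hN)
  rw [Sylow.coe_ofCard] at h
  exact h (hxR (Subgroup.mem_zpowers x))

/-- **B&G Theorem 10.2.** -/
theorem alpha_core_hall (hG : IsMinSimpleOddOrder G) (M : Subgroup G) (hM : IsCoatom M) :
    IsPiHallOf (alpha M) (alphaCore M) M ∧ IsPiHall (alpha M) (alphaCore M) ∧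
      alphaCore M ≤ sigmaCore M ∧ RankLE 2 (↥M ⧸ piCore (alpha M) ↥M) ∧
      Group.IsNilpotent ↥((commutator ↥M).map (QuotientGroup.mk' (piCore (alpha M) ↥M))) := by
  classical
  have hsol : Group.IsSolvable ↥M := minSimple_solvable hG hM.1
  have hodd := minSimple_odd_sub hG M
  have h1 : ∀ q : ℕ, q.Prime → q ∉ alpha M → PRankLE q 2 ↥M := by
    intro q hq hqα
    by_contra h
    exact hqα ⟨hq, h⟩
  have h2 : ∀ p : ℕ, p.Prime → p ∈ alpha M → ∀ x : ↥M, (∃ k : ℕ, orderOf x = p ^ k) →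
      x ∈ commutator ↥M := by
    intro p hp hpα x ⟨k, hk⟩
    have : Fact p.Prime := ⟨hp⟩
    have hx : (x : G) ∈ ⁅M, M⁆ :=
      alpha_elt_mem_comm hG hM hpα.2 x.2 (k := k) (by rw [Subgroup.orderOf_coe]; exact hk)
    rw [← Subgroup.map_subtype_commutator] at hx
    obtain ⟨y, hy, hyx⟩ := hx
    have : y = x := Subtype.ext hyx
    rw [← this]; exact hy
  obtain ⟨hC1, hC2, hC3⟩ := Cfsg.Agent.Lib.Helper90.BG10.alpha_core_hall_aux hodd (alpha M) h1 h2
  have hsub : (alphaCore M).subgroupOf M = piCore (alpha M) ↥M :=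
    Subgroup.comap_map_eq_self_of_injective M.subtype_injective _
  have hle : alphaCore M ≤ M := piCoreOf_le (alpha M) M
  have hrel : ∀ p : ℕ, p.Prime → p ∈ alpha M → ¬ p ∣ (alphaCore M).relIndex M := by
    intro p hp hpα
    unfold Subgroup.relIndex
    rw [hsub]
    exact hC1 p hp hpα
  have hασ : ∀ p : ℕ, p.Prime → p ∈ alpha M → p ∈ sigma M ∧ ¬ p ∣ M.index := by
    intro p hp hpα
    have : Fact p.Prime := ⟨hp⟩
    obtain ⟨P₀⟩ : Nonempty (Sylow p ↥M) := inferInstance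
    have hQ := mem_sylSet_of_sylow P₀
    obtain ⟨-, hN, hQtop⟩ := sylow_of_alpha hG hM hpα.2 hQ
    have hpM : p ∣ Nat.card M := by
      by_contra hnd
      apply hpα.2
      intro A hAc hAe
      have hAp : IsPGroup p A := fun g => ⟨1, by rw [pow_one]; exact Subtype.ext (hAe g.1 g.2)⟩
      obtain ⟨m, hm⟩ := IsPGroup.iff_card.mp hAp
      have hd : Nat.card A ∣ Nat.card M := Subgroup.card_subgroup_dvd_card A
      rw [hm] at hd ⊢
      rcases Nat.eq_zero_or_pos m with h0 | h0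
      · rw [h0, pow_zero]; exact Nat.one_le_pow _ _ hp.pos
      · exact absurd ((dvd_pow_self p h0.ne').trans hd) hnd
    refine ⟨⟨hp, hpM, P₀, hN⟩, ?_⟩
    have e1 := hQ.2
    have e2 := hQtop.2
    rw [Subgroup.card_top] at e2
    rw [e1] at e2
    have e3 := Nat.pow_right_injective hp.two_le e2
    have e4 : Nat.card M * M.index = Nat.card G := Subgroup.card_mul_index M
    have hi0 : M.index ≠ 0 := Subgroup.index_ne_zero_of_finite
    have hc0 : Nat.card M ≠ 0 := Nat.card_pos.ne'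
    have e5 : (Nat.card G).factorization p =
        (Nat.card M).factorization p + (M.index).factorization p := by
      rw [← e4, Nat.factorization_mul hc0 hi0, Finsupp.add_apply]
    have e6 : (M.index).factorization p = 0 := by omega
    rcases (Nat.factorization_eq_zero_iff _ _).mp e6 with h | h | h
    · exact absurd hp h
    · exact h
    · exact absurd h hi0
  refine ⟨⟨hle, piCoreOf_primes (alpha M) M, hrel⟩, ⟨piCoreOf_primes (alpha M) M, ?_⟩, ?_,
    hC2, hC3⟩
  · intro p hp hpα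
    rw [← Subgroup.relIndex_mul_index hle]
    intro hd
    rcases (Nat.Prime.dvd_mul hp).mp hd with h | h
    · exact hrel p hp hpα h
    · exact (hασ p hp hpα).2 h
  · apply Subgroup.map_mono
    apply sSup_le_sSup
    rintro N ⟨hNn, hNπ⟩
    exact ⟨hNn, fun p hp hd => (hασ p hp (hNπ p hp hd)).1⟩

end

end Cfsg.Agent.Lib.Helper3.BG10
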