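import Cfsg.Agent.Lib.Helper41.BG11Kit
import Cfsg.Agent.Lib.Helper14.Basic

/-!
# B&G Section 11: small shared lemmas (helper3)

`omZ p P = Ω₁(Z(P))`, the elements of order dividing `p` of the centre of `P`.
-/

set_option autoImplicit false

open Cfsg Cfsg.Agent.Lib.Helper32 Cfsg.Agent.Lib.Helper32.BG10 Cfsg.Agent.Lib.Helper3.BG12
open Cfsg.Agent.Lib.Helper41.BG11

namespace Cfsg.Agent.Lib.Helper3.BG11

universe u

variable {G : Type u} [Group G]

/-- `Ω₁(Z(P))` -/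
def omZ (p : ℕ) (P : Subgroup G) : Subgroup G where
  carrier := {x | x ∈ P ∧ (∀ y ∈ P, y * x = x * y) ∧ x ^ p = 1}
  mul_mem' := by
    intro a b ha hb
    refine ⟨P.mul_mem ha.1 hb.1, fun y hy => ?_, ?_⟩
    · rw [← mul_assoc, ha.2.1 y hy, mul_assoc, hb.2.1 y hy, mul_assoc]
    · have hc : Commute a b := (hb.2.1 a ha.1)
      rw [hc.mul_pow, ha.2.2, hb.2.2, one_mul]
  one_mem' := ⟨P.one_mem, fun y _ => by rw [mul_one, one_mul], one_pow _⟩
  inv_mem' := by
    intro a ha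
    refine ⟨P.inv_mem ha.1, fun y hy => ?_, by rw [inv_pow, ha.2.2, inv_one]⟩
    have h := ha.2.1 y hy
    have h2 : y * a⁻¹ = a⁻¹ * (a * y) * a⁻¹ := by group
    rw [h2, ← h]; group

theorem mem_omZ {p : ℕ} {P : Subgroup G} {x : G} :
    x ∈ omZ p P ↔ x ∈ P ∧ (∀ y ∈ P, y * x = x * y) ∧ x ^ p = 1 := Iff.rfl

theorem omZ_le (p : ℕ) (P : Subgroup G) : omZ p P ≤ P := fun _ hx => hx.1

theorem le_centralizer_omZ (p : ℕ) (P : Subgroup G) :
    P ≤ Subgroup.centralizer ((omZ p P : Subgroup G) : Set G) := by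
  intro y hy
  rw [Subgroup.mem_centralizer_iff]
  intro x hx
  exact (hx.2.1 y hy).symm

theorem omZ_elemAb (p : ℕ) (P : Subgroup G) : IsElementaryAbelian p (omZ p P) :=
  ⟨⟨⟨fun a b => Subtype.ext (a.2.2.1 b.1 b.2.1).symm⟩⟩, fun a ha => ha.2.2⟩

theorem normalizer_le_omZ (p : ℕ) (P : Subgroup G) :
    Subgroup.normalizer (P : Set G) ≤ Subgroup.normalizer ((omZ p P : Subgroup G) : Set G) := by
  intro g hg
  have hg' := hg
  rw [Subgroup.mem_normalizer_iff] at hg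
  have key : ∀ (h : G), (∀ y, y ∈ P ↔ h * y * h⁻¹ ∈ P) → ∀ x ∈ omZ p P, h * x * h⁻¹ ∈ omZ p P := by
    intro h hh x hx
    refine ⟨(hh x).mp hx.1, fun y hy => ?_, ?_⟩
    · have h1 : h⁻¹ * y * h ∈ P := by
        rw [hh]
        have : h * (h⁻¹ * y * h) * h⁻¹ = y := by group
        rw [this]; exact hy
      have h2 := hx.2.1 _ h1
      have h3 : y * (h * x * h⁻¹) = h * ((h⁻¹ * y * h) * x) * h⁻¹ := by group
      rw [h3, h2]; group
    · rw [conj_pow, hx.2.2, mul_one, mul_inv_cancel]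
  rw [Subgroup.mem_normalizer_iff]
  intro x
  constructor
  · exact key g hg x
  · intro hx
    have hinv : ∀ y, y ∈ P ↔ g⁻¹ * y * g⁻¹⁻¹ ∈ P := by
      have := (Subgroup.normalizer (P : Set G)).inv_mem hg'
      rw [Subgroup.mem_normalizer_iff] at this
      exact this
    have := key g⁻¹ hinv _ hx
    have h2 : g⁻¹ * (g * x * g⁻¹) * g⁻¹⁻¹ = x := by group
    rwa [h2] at this

theorem omZ_ne_bot [Finite G] {p : ℕ} [Fact p.Prime] {P : Subgroup G} (hP : IsPGroup p P)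
    (hne : P ≠ ⊥) : omZ p P ≠ ⊥ := by
  haveI : Nontrivial ↥P := (Subgroup.nontrivial_iff_ne_bot P).mpr hne
  haveI := hP.center_nontrivial
  have hZ : IsPGroup p ↥(Subgroup.center ↥P) := hP.to_subgroup _
  obtain ⟨n, hn⟩ := IsPGroup.iff_card.mp hZ
  have hn0 : n ≠ 0 := by
    rintro rfl
    rw [pow_zero] at hn
    exact (Subgroup.one_lt_card_iff_ne_bot _).mpr ((Subgroup.nontrivial_iff_ne_bot _).mp ‹_›) |>.ne' hn
  have hdvd : p ∣ Nat.card ↥(Subgroup.center ↥P) := by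
    rw [hn]; exact dvd_pow_self p hn0
  obtain ⟨z, hz⟩ := exists_prime_orderOf_dvd_card' p hdvd
  intro hbot
  have hmem : ((z : ↥P) : G) ∈ omZ p P := by
    refine ⟨(z : ↥P).2, fun y hy => ?_, ?_⟩
    · have h1 := (Subgroup.mem_center_iff.mp z.2) ⟨y, hy⟩
      exact congrArg Subtype.val h1
    · have h1 : z ^ p = 1 := by rw [← hz]; exact pow_orderOf_eq_one z
      have h2 := congrArg (fun t : ↥(Subgroup.center ↥P) => ((t : ↥P) : G)) h1
      simpa using h2
  rw [hbot, Subgroup.mem_bot] at hmem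
  have h3 : z = 1 := Subtype.ext (Subtype.ext hmem)
  rw [h3, orderOf_one] at hz
  exact (Fact.out : p.Prime).one_lt.ne hz

/-- (F1) -/
theorem normalizer_eq_of_coatom (hG : IsMinSimpleOddOrder G) {M X : Subgroup G} (hM : IsCoatom M)
    (hX : X ≠ ⊥) (hXM : X ≤ M) (hMN : M ≤ Subgroup.normalizer (X : Set G)) :
    Subgroup.normalizer (X : Set G) = M := by
  have hXtop : X ≠ ⊤ := by
    rintro rfl
    exact hM.1 (top_le_iff.mp hXM)
  have hN := minSimple_normalizer_ne_top hG hX hXtop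
  by_contra hne
  exact hN (hM.2 _ (lt_of_le_of_ne hMN (Ne.symm hne)))

/-- a nontrivial subgroup of a group of order `p ^ 2` has order `p` or is everything -/
theorem card_eq_or_eq_of_le {p : ℕ} (hp : p.Prime) {A Z : Subgroup G} [Finite A]
    (hAc : Nat.card A = p ^ 2) (hZA : Z ≤ A) (hZ : Z ≠ ⊥) : Nat.card Z = p ∨ Z = A := by
  have h1 : Nat.card Z ∣ p ^ 2 := hAc ▸ Subgroup.card_dvd_of_le hZA
  obtain ⟨k, hk, hkc⟩ := (Nat.dvd_prime_pow hp).mp h1
  have hfin : Finite ↥Z := Finite.of_injective (Subgroup.inclusion hZA) (Subgroup.inclusion_injective hZA)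
  have hk0 : k ≠ 0 := by
    rintro rfl
    rw [pow_zero] at hkc
    exact hZ (Subgroup.card_eq_one.mp hkc)
  rcases Nat.lt_or_ge k 2 with h | h
  · left
    have : k = 1 := by omega
    rw [hkc, this, pow_one]
  · right
    have : k = 2 := by omega
    rw [this] at hkc
    exact Subgroup.eq_of_le_of_card_ge hZA (by rw [hkc, hAc])

end Cfsg.Agent.Lib.Helper3.BG11
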