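import Cfsg.Agent.Lib.Helper41.BG11Kit

/-!
# B&G Section 11, piece T6 (B&G 11.6): `PAb G → PTI G → PSyl G ∧ PFpf G` (helper3)
-/

set_option autoImplicit false

open Cfsg Cfsg.Agent.Lib.Helper32 Cfsg.Agent.Lib.Helper32.BG10 Cfsg.Agent.Lib.Helper3.BG12
open Cfsg.Agent.Lib.Helper41.BG11

namespace Cfsg.Agent.Lib.Helper3.BG11

universe u

variable {G : Type u} [Group G]

/-- in a commutative subgroup `P` containing the maximal elementary abelian `A`: `Ω₁(P) = A` -/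
theorem omega_eq_of_comm {p : ℕ} {A P : Subgroup G} (hmax : MaxEA p A)
    (hPc : IsMulCommutative ↥P) (hAP : A ≤ P) : ∀ x ∈ P, x ^ p = 1 ↔ x ∈ A := by
  intro x hx
  constructor
  · intro hxp
    have hcomm : ∀ y ∈ P, ∀ z ∈ P, y * z = z * y := by
      intro y hy z hz
      exact congrArg Subtype.val (hPc.is_comm.comm ⟨y, hy⟩ ⟨z, hz⟩)
    let Ω : Subgroup G :=
      { carrier := {y | y ∈ P ∧ y ^ p = 1}
        mul_mem' := by
          intro a b ha hb
          refine ⟨P.mul_mem ha.1 hb.1, ?_⟩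
          have hc : Commute a b := hcomm a ha.1 b hb.1
          rw [hc.mul_pow, ha.2, hb.2, one_mul]
        one_mem' := ⟨P.one_mem, one_pow _⟩
        inv_mem' := by
          intro a ha
          exact ⟨P.inv_mem ha.1, by rw [inv_pow, ha.2, inv_one]⟩ }
    have hAΩ : A ≤ Ω := fun a ha => ⟨hAP ha, hmax.1.2 a ha⟩
    have hxΩ : Subgroup.zpowers x ≤ Ω := by
      rw [Subgroup.zpowers_le]
      exact ⟨hx, hxp⟩
    have hB : IsElementaryAbelian p (A ⊔ Subgroup.zpowers x) := by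
      have hle : A ⊔ Subgroup.zpowers x ≤ Ω := sup_le hAΩ hxΩ
      refine ⟨⟨⟨fun a b => ?_⟩⟩, fun a ha => (hle ha).2⟩
      exact Subtype.ext (hcomm a.1 (hle a.2).1 b.1 (hle b.2).1)
    have h := hmax.2 _ hB le_sup_left
    rw [← h]
    exact (le_sup_right : Subgroup.zpowers x ≤ A ⊔ Subgroup.zpowers x) (Subgroup.mem_zpowers x)
  · exact hmax.1.2 x

/-- the normalizer of `P` normalizes `Ω₁(P) = A` -/
theorem normalizer_le_of_omega {p : ℕ} {A P : Subgroup G}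
    (hΩ : ∀ x ∈ P, x ^ p = 1 ↔ x ∈ A) (hAP : A ≤ P) :
    Subgroup.normalizer (P : Set G) ≤ Subgroup.normalizer (A : Set G) := by
  intro g hg
  rw [Subgroup.mem_normalizer_iff] at hg ⊢
  intro y
  constructor
  · intro hy
    have h1 : g * y * g⁻¹ ∈ P := (hg y).mp (hAP hy)
    refine (hΩ _ h1).mp ?_
    rw [conj_pow, ((hΩ y (hAP hy)).mpr hy), mul_one, mul_inv_cancel]
  · intro hy
    have h1 : y ∈ P := (hg y).mpr (hAP hy)
    refine (hΩ _ h1).mp ?_
    have h2 : (g * y * g⁻¹) ^ p = 1 := (hΩ _ (hAP hy)).mpr hy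
    rw [conj_pow] at h2
    have h3 : y ^ p = g⁻¹ * (g * y ^ p * g⁻¹) * g := by group
    rw [h3, h2, mul_one, inv_mul_cancel]

variable [Finite G]

theorem t6 (hG : IsMinSimpleOddOrder G) (hAb : PAb G) (hTI : PTI G) : PSyl G ∧ PFpf G := by
  have hSyl : PSyl G := by
    intro M p A A₀ hE P hP
    have hE' := hE
    obtain ⟨hM, hp, hσ, hAM, hmax, hAc, hid, hA₀, hA₀c, hN⟩ := hE
    have : Fact p.Prime := ⟨hp⟩
    have hPc := hAb M p A A₀ hE' P hP
    refine ⟨hPc, fun hAP => ⟨omega_eq_of_comm hmax hPc hAP, fun hNP => ?_⟩⟩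
    have hPne : P ≠ ⊥ := by
      rintro rfl
      have hA : A = ⊥ := le_bot_iff.mp hAP
      rw [hA, Subgroup.card_bot] at hAc
      have := hp.one_lt
      have : 1 < p ^ 2 := Nat.one_lt_pow (by norm_num) this
      omega
    exact hσ (mem_sigma_of_normalizer_le hP hPne hNP)
  refine ⟨hSyl, ?_⟩
  intro M p A A₀ hE
  have hE' := hE
  obtain ⟨hM, hp, hσ, hAM, hmax, hAc, hid, hA₀, hA₀c, hN⟩ := hE
  have : Fact p.Prime := ⟨hp⟩
  have hpA : IsPGroup p ↥A := IsPGroup.of_card hAc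
  obtain ⟨P, hP, hAP⟩ := exists_sylSet_ge hpA hAM
  obtain ⟨hPc, h2⟩ := hSyl M p A A₀ hE' P hP
  obtain ⟨hΩ, hNP⟩ := h2 hAP
  have hNA : ¬ Subgroup.normalizer (A : Set G) ≤ M :=
    fun h => hNP ((normalizer_le_of_omega hΩ hAP).trans h)
  obtain ⟨g, hgN, hgM⟩ := SetLike.not_le_iff_exists.mp hNA
  -- `g ^ 2 ∉ M`
  have hodd : Odd (orderOf g) := by
    have h1 : orderOf g ∣ Nat.card G := orderOf_dvd_natCard g
    exact Odd.of_dvd_nat hG.1 h1
  have hg2M : g * g ∉ M := by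
    intro h
    obtain ⟨k, hk⟩ := hodd
    have h3 : (g * g) ^ (k + 1) = g := by
      rw [← pow_two, ← pow_mul]
      have : 2 * (k + 1) = orderOf g + 1 := by omega
      rw [this, pow_succ, pow_orderOf_eq_one, one_mul]
    exact hgM (h3 ▸ M.pow_mem h (k + 1))
  have hg2N : g * g ∈ Subgroup.normalizer (A : Set G) := Subgroup.mul_mem _ hgN hgN
  have hcjA : ∀ x : G, x ∈ Subgroup.normalizer (A : Set G) → cj x A₀ ≤ A := by
    intro x hx
    have := cj_mono x hA₀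
    rwa [cj_eq_self_iff.mpr hx] at this
  have hAcj : ∀ x : G, x ∈ Subgroup.normalizer (A : Set G) → A ≤ cj x M := by
    intro x hx
    have := cj_mono x hAM
    rwa [cj_eq_self_iff.mpr hx] at this
  have h1 := (hTI M p A A₀ hE' g hgM (hAcj g hgN)).2
  have h2 := (hTI M p A A₀ hE' (g * g) hg2M (hAcj _ hg2N)).2
  have hne : cj g A₀ ≠ cj (g * g) A₀ := by
    intro h
    rw [cj_mul] at h
    have h3 := congrArg (cj g⁻¹) h
    rw [cj_inv_cj, cj_inv_cj] at h3
    exact hgM (hN (cj_eq_self_iff.mp h3.symm))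
  have hd : sigmaCore M ⊓ Subgroup.centralizer (A : Set G) = ⊥ := by
    rw [eq_bot_iff, ← h1]
    exact inf_le_inf_left _ (Subgroup.centralizer_le (hcjA g hgN))
  exact ⟨hd, hNA, cj g A₀, cj (g * g) A₀, hcjA g hgN, hcjA _ hg2N, by rw [card_cj, hA₀c],
    by rw [card_cj, hA₀c], hne, h1, h2⟩

end Cfsg.Agent.Lib.Helper3.BG11
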