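import Cfsg.Agent.Lib.Helper3.BG12Defs
import Cfsg.Agent.Lib.Helper87.Fusion5

/-!
# B&G Lemma 12.15 (a)-(c) (S1424) modulo earlier rows (helper3)
-/

set_option autoImplicit false

open Cfsg Cfsg.Agent.Lib.Helper32 Cfsg.Agent.Lib.Helper32.BG10

namespace Cfsg.Agent.Lib.Helper3.BG12

universe u

variable {G : Type u} [Group G] [Finite G]

/-- a `p`-group `Q` containing `S` with `N_Q(S) ≤ S` equals `S` -/
theorem eq_of_inf_normalizer_le {p : ℕ} [Fact p.Prime] {Q S : Subgroup G} (hQ : IsPGroup p Q)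
    (hSQ : S ≤ Q) (h : Q ⊓ Subgroup.normalizer (S : Set G) ≤ S) : Q = S := by
  by_contra hne
  have hlt : S < Q := lt_of_le_of_ne hSQ (Ne.symm hne)
  obtain ⟨g, hgQ, hgN, hgS⟩ := Cfsg.Agent.Lib.Helper87.exists_mem_normalizer_not_mem hQ hlt
  exact hgS (h ⟨hgQ, hgN⟩)

omit [Finite G] in
/-- subgroups of a cyclic subgroup are normalized by its normalizer -/
theorem normalizer_le_normalizer_of_cyclic [Finite G] {S X : Subgroup G} (hc : IsCyclic S)
    (hXS : X ≤ S) :
    Subgroup.normalizer (S : Set G) ≤ Subgroup.normalizer (X : Set G) := by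
  intro n hn
  obtain ⟨s, hs⟩ := hc.exists_generator
  have h1 : n * (s : G) * n⁻¹ ∈ S := (Subgroup.mem_normalizer_iff.mp hn s).mp s.2
  obtain ⟨k, hk⟩ := Subgroup.mem_zpowers_iff.mp (hs ⟨_, h1⟩)
  have hk' : (s : G) ^ k = n * s * n⁻¹ := by simpa using congrArg Subtype.val hk
  have hle : cj n X ≤ X := by
    intro y hy
    rw [mem_cj] at hy
    obtain ⟨j, hj⟩ := Subgroup.mem_zpowers_iff.mp (hs ⟨_, hXS hy⟩)
    have hj' : (s : G) ^ j = n⁻¹ * y * n := by simpa using congrArg Subtype.val hj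
    have h2 : y = (n⁻¹ * y * n) ^ k := by
      rw [← hj', ← zpow_mul, mul_comm, zpow_mul, hk']
      have h3 : (n * (s : G) * n⁻¹) ^ j = n * (s : G) ^ j * n⁻¹ := by
        simp [conj_zpow]
      rw [h3, hj']
      group
    rw [h2]
    exact X.zpow_mem hy k
  have heq : cj n X = X :=
    Subgroup.eq_of_le_of_card_ge hle (by rw [card_cj])
  exact cj_eq_self_iff.mp heq

/-- a member of `sylSet q H` has index in `H` prime to `q` -/
theorem not_dvd_relIndex_of_mem_sylSet {q : ℕ} [Fact q.Prime] {H S : Subgroup G}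
    (hS : S ∈ sylSet q H) : ¬ q ∣ S.relIndex H := by
  have hq : q.Prime := Fact.out
  obtain ⟨P, hP⟩ := exists_sylow_of_mem_sylSet hS
  have h1 : S.relIndex H = (P : Subgroup ↥H).index := by
    rw [Subgroup.relIndex, ← hP]
    congr 1
    ext x
    simp [Subgroup.mem_subgroupOf]
  rw [h1]
  exact P.not_dvd_index

/-- B&G Lemma 12.15 (a), (b), (c) -/
theorem bg12_15 (h1 : H1 G) (hnc : NormNC G)
    (M : Subgroup G) (hM : IsCoatom M) (q : ℕ) [Fact q.Prime] (hq : q ∈ sigma M)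
    (X : Subgroup G) (hXq : IsPGroup q X) (hX1 : X ≠ ⊥) (hXM : X ≤ M)
    (Mstar : Subgroup G) (hne : Mstar ≠ M)
    (hNX : Subgroup.normalizer (X : Set G) ≤ Mstar)
    (S : Subgroup G) (hS : S ∈ sylSet q (M ⊓ Mstar)) (hXS : X ≤ S) :
    (∀ g : G, Mstar ≠ cj g M) ∧ Subgroup.normalizer (S : Set G) ≤ M ∧ S ∈ sylSet q Mstar := by
  have hSq : IsPGroup q S := isPGroup_of_mem_sylSet hS
  have hSM : S ≤ M := hS.1.trans inf_le_left
  have hSMs : S ≤ Mstar := hS.1.trans inf_le_right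
  have hb : Subgroup.normalizer (S : Set G) ≤ M := by
    by_cases hc : IsCyclic S
    · have hN : Subgroup.normalizer (S : Set G) ≤ Mstar :=
        (normalizer_le_normalizer_of_cyclic hc hXS).trans hNX
      obtain ⟨Q, hQ, hSQ⟩ := exists_sylSet_ge hSq hSM
      have hQq : IsPGroup q Q := isPGroup_of_mem_sylSet hQ
      have h2 : Q ⊓ Subgroup.normalizer (S : Set G) ≤ S := by
        have h3 : Q ⊓ Subgroup.normalizer (S : Set G) = S :=
          sylSet_eq_of_le hS (hQq.to_le inf_le_left)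
            (le_inf (inf_le_left.trans hQ.1) (inf_le_right.trans hN))
            (le_inf hSQ Subgroup.le_normalizer)
        exact h3.le
      have h4 : Q = S := eq_of_inf_normalizer_le hQq hSQ h2
      rw [← h4]
      exact (sigma_sylSet hq hQ).1
    · exact hnc M hM q S hq hSq hSM hc
  refine ⟨?_, hb, ?_⟩
  · intro g hg
    have hX' : cj g⁻¹ X ≤ M := by
      have h2 : cj g⁻¹ X ≤ cj g⁻¹ (cj g M) := cj_mono g⁻¹ (by rw [← hg]; exact (Subgroup.le_normalizer.trans hNX))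
      rwa [cj_inv_cj] at h2
    obtain ⟨m, hm, c, hc, hgmc⟩ := (h1 M hM q hq X hXq hX1 hXM).1 g⁻¹ hX'
    have hcN : c ∈ Subgroup.normalizer (X : Set G) := Subgroup.centralizer_le_normalizer (X : Set G) hc
    have hcMs : c ∈ cj g M := hg ▸ hNX hcN
    rw [mem_cj] at hcMs
    have hg' : g = c⁻¹ * m⁻¹ := by
      have : g = (g⁻¹)⁻¹ := by simp
      rw [this, hgmc]; group
    have h3 : g⁻¹ * c * g = m * c * m⁻¹ := by
      rw [hgmc, hg']; group
    rw [h3] at hcMs
    have hcM : c ∈ M := by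
      have : c = m⁻¹ * (m * c * m⁻¹) * m := by group
      rw [this]
      exact M.mul_mem (M.mul_mem (M.inv_mem hm) hcMs) hm
    have hgM : g ∈ M := by
      rw [hg']
      exact M.mul_mem (M.inv_mem hcM) (M.inv_mem hm)
    have h4 : cj g M = M := cj_eq_self_iff.mpr (Subgroup.le_normalizer hgM)
    exact hne (hg.trans h4)
  · obtain ⟨T, hT, hST⟩ := exists_sylSet_ge hSq hSMs
    have hTq : IsPGroup q T := isPGroup_of_mem_sylSet hT
    have h2 : T ⊓ Subgroup.normalizer (S : Set G) ≤ S := by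
      have h3 : T ⊓ Subgroup.normalizer (S : Set G) = S :=
        sylSet_eq_of_le hS (hTq.to_le inf_le_left)
          (le_inf (inf_le_right.trans hb) (inf_le_left.trans hT.1))
          (le_inf hST Subgroup.le_normalizer)
      exact h3.le
    have h4 : T = S := eq_of_inf_normalizer_le hTq hST h2
    rw [← h4]
    exact hT

/-- the statement of S1424 -/
theorem s1424 (h1 : H1 G) (hnc : NormNC G)
    (M : Subgroup G) (hM : IsCoatom M) (q : ℕ) [Fact q.Prime] (hq : q ∈ Cfsg.sigma M) (X : Subgroup G) (hXq : IsPGroup q X) (hX1 : X ≠ ⊥) (hXM : X ≤ M)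
    (Mstar : Subgroup G) (hne : Mstar ≠ M) (hNX : Subgroup.normalizer (X : Set G) ≤ Mstar)
    (S : Sylow q ↥(M ⊓ Mstar)) (hXS : X ≤ (S : Subgroup ↥(M ⊓ Mstar)).map (M ⊓ Mstar).subtype) :
    (∀ g : G, Mstar ≠ M.map (MulAut.conj g).toMonoidHom) ∧
      Subgroup.normalizer (((S : Subgroup ↥(M ⊓ Mstar)).map (M ⊓ Mstar).subtype : Subgroup G) : Set G) ≤ M ∧
      ¬ q ∣ ((S : Subgroup ↥(M ⊓ Mstar)).map (M ⊓ Mstar).subtype).relIndex Mstar := by
  obtain ⟨ha, hb, hc⟩ := bg12_15 h1 hnc M hM q hq X hXq hX1 hXM Mstar hne hNX _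
    (mem_sylSet_of_sylow S) hXS
  exact ⟨ha, hb, not_dvd_relIndex_of_mem_sylSet hc⟩

end Cfsg.Agent.Lib.Helper3.BG12
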