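import Cfsg.Agent.Lib.Helper32.BG12KITA
import Cfsg.Agent.Lib.Helper32.BG12KITB
import Cfsg.Agent.Lib.Helper68.BG12P17B
import Cfsg.Agent.Lib.Helper68.BG12P13N
import Cfsg.Agent.Lib.Helper19.BG12P17A
import Cfsg.Agent.Lib.Helper58.BG12P17Z
import Cfsg.Agent.Lib.Helper58.BG12P16C
import Cfsg.Agent.Lib.Helper58.BG12P14A
import Cfsg.Agent.Lib.Helper20.BG12P14N
import Cfsg.Agent.Lib.Helper20.BG12P13P
import Cfsg.Agent.Lib.Helper20.BG12P14C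
import Cfsg.Agent.Lib.Helper63.BG12P14B
import Cfsg.Agent.Lib.Helper63.BG12P16X
import Cfsg.Agent.Lib.Helper8.BG12PNPC
import Cfsg.Agent.Lib.Helper78.BG12P16D
import Cfsg.Agent.Lib.Helper34.BG12P16H
import Cfsg.Agent.Lib.Helper52.BG12P13G
import Cfsg.Agent.Lib.Helper55.BG12P16T

/-!
# The job pieces of the block S1422 - S1426 (note 1329), re-exported under one namespace (helper3)
-/

set_option autoImplicit false

open Cfsg Cfsg.Agent.Lib.Helper32 Cfsg.Agent.Lib.Helper32.BG10 Cfsg.Agent.Lib.Helper3.BG12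

namespace Cfsg.Agent.Lib.Helper3.BG12S

universe u

variable {G : Type u} [Group G] [Finite G]

theorem exCompl_of (hG : IsMinSimpleOddOrder G) : ExCompl G :=
  Cfsg.Agent.Lib.Helper32.BG12.exCompl_of hG

theorem mem_sigma_of_dvd_sigmaCore {M : Subgroup G} {p : ℕ} (hp : p.Prime)
    (h : p ∣ Nat.card (sigmaCore M)) : p ∈ sigma M :=
  Cfsg.Agent.Lib.Helper32.BG12.mem_sigma_of_dvd_sigmaCore hp h

theorem sigmaCore_coprime (hG : IsMinSimpleOddOrder G) {M : Subgroup G} (hM : IsCoatom M)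
    {E : Subgroup G} (hE : IsComplIn E (sigmaCore M) M) :
    (Nat.card (sigmaCore M)).Coprime (Nat.card E) :=
  Cfsg.Agent.Lib.Helper32.BG12.sigmaCore_coprime hG hM hE

theorem le_sigmaCore_of_sigma (hG : IsMinSimpleOddOrder G) {M : Subgroup G} (hM : IsCoatom M)
    {Y : Subgroup G} (hYM : Y ≤ M) (hY : ∀ p : ℕ, p.Prime → p ∣ Nat.card Y → p ∈ sigma M) :
    Y ≤ sigmaCore M :=
  Cfsg.Agent.Lib.Helper32.BG12.le_sigmaCore_of_sigma hG hM hYM hY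

theorem sigmaCore_le_comm (hG : IsMinSimpleOddOrder G) {M : Subgroup G} (hM : IsCoatom M) :
    sigmaCore M ≤ ⁅M, M⁆ :=
  Cfsg.Agent.Lib.Helper32.BG12.sigmaCore_le_comm hG hM

theorem sylSet_sigmaCore_iff (hG : IsMinSimpleOddOrder G) {M : Subgroup G} (hM : IsCoatom M)
    {p : ℕ} [Fact p.Prime] (hp : p ∈ sigma M) {Q : Subgroup G} :
    Q ∈ sylSet p (sigmaCore M) ↔ Q ∈ sylSet p M :=
  Cfsg.Agent.Lib.Helper32.BG12.sylSet_sigmaCore_iff hG hM hp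

theorem pgroup_le_sigmaCore (hG : IsMinSimpleOddOrder G) {M : Subgroup G} (hM : IsCoatom M)
    {p : ℕ} [Fact p.Prime] (hp : p ∈ sigma M) {X : Subgroup G} (hX : IsPGroup p X) (hXM : X ≤ M) :
    X ≤ sigmaCore M :=
  Cfsg.Agent.Lib.Helper32.BG12.pgroup_le_sigmaCore hG hM hp hX hXM

theorem exists_cj_le_sigmaCore (hG : IsMinSimpleOddOrder G) {M : Subgroup G} (hM : IsCoatom M)
    {p : ℕ} [Fact p.Prime] (hp : p ∈ sigma M) {X : Subgroup G} (hX : IsPGroup p X) :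
    ∃ g : G, cj g X ≤ sigmaCore M :=
  Cfsg.Agent.Lib.Helper32.BG12.exists_cj_le_sigmaCore hG hM hp hX

theorem comm_compl_eq {N E M : Subgroup G} [Group.IsSolvable ↥N] (hE : IsComplIn E N M)
    (hNn : M ≤ Subgroup.normalizer (N : Set G)) (hNM : N ≤ ⁅M, M⁆) : ⁅N, E⁆ = N :=
  Cfsg.Agent.Lib.Helper68.BG12.comm_compl_eq hE hNn hNM

theorem cent_compl_le_der {N E M : Subgroup G} (hE : IsComplIn E N M)
    (hNn : M ≤ Subgroup.normalizer (N : Set G)) (hNM : N ≤ ⁅M, M⁆)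
    (hcop : (Nat.card N).Coprime (Nat.card E)) :
    N ⊓ Subgroup.centralizer (E : Set G) ≤ ⁅N, N⁆ :=
  Cfsg.Agent.Lib.Helper19.BG12.cent_compl_le_der hE hNn hNM hcop

theorem cyclic_of_inf_der_eq_bot {D N : Subgroup G} (hDN : D ≤ N) (h : D ⊓ ⁅N, N⁆ = ⊥)
    (hc : ∀ (q : ℕ) [Fact q.Prime] (X : Subgroup G), X ≤ D → IsPGroup q X → IsCyclic X) :
    IsCyclic D :=
  Cfsg.Agent.Lib.Helper58.BG12.cyclic_of_inf_der_eq_bot hDN h hc

theorem rank3_cent_of_narrow {p : ℕ} [Fact p.Prime] (hp : p ≠ 2) {R : Subgroup G}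
    (hR : IsPGroup p R) (hr : ¬ PRankLE p 2 ↥R) {E : Subgroup G} (hER : E ≤ R)
    (hE : IsElementaryAbelian p E) (hE2 : Nat.card E = p ^ 2)
    (hEmax : ∀ B : Subgroup G, B ≤ R → IsElementaryAbelian p B → E ≤ B → B = E)
    {X : Subgroup G} (hX : X ≤ ⁅R, R⁆) (hXc : Nat.card X = p) :
    ¬ PRankLE p 2 ↥(R ⊓ Subgroup.centralizer (X : Set G)) :=
  Cfsg.Agent.Lib.Helper20.BG12.rank3_cent_of_narrow hp hR hr hER hE hE2 hEmax hX hXc

theorem le_centralizer_of_cprod {p : ℕ} [Fact p.Prime] {R P₁ P₂ X : Subgroup G}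
    (hsup : P₁ ⊔ P₂ = R) (hcomm : ∀ a ∈ P₁, ∀ b ∈ P₂, a * b = b * a)
    (hP₁ : Nat.card P₁ = p ^ 3) (hP₂ : IsCyclic P₂) (hX : X ≤ ⁅R, R⁆) :
    R ≤ Subgroup.centralizer (X : Set G) :=
  Cfsg.Agent.Lib.Helper63.BG12.le_centralizer_of_cprod hsup hcomm hP₁ hP₂ hX

theorem exists_npc_sub {p : ℕ} [Fact p.Prime] {N : Subgroup G} (h : HasNormalPComplement p ↥N) :
    ∃ K : Subgroup G, K ≤ N ∧ (Nat.card K).Coprime p ∧
      Subgroup.normalizer (N : Set G) ≤ Subgroup.normalizer (K : Set G) ∧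
      ∀ R : Subgroup G, R ∈ sylSet p N → (K ⊔ R = N ∧ R ⊓ ⁅N, N⁆ ≤ ⁅R, R⁆) :=
  Cfsg.Agent.Lib.Helper8.BG12.exists_npc_sub h

theorem normalizer_le_of_nilpotent {p : ℕ} [Fact p.Prime] {N R : Subgroup G}
    (hN : Group.IsNilpotent ↥N) (hR : R ∈ sylSet p N) :
    Subgroup.normalizer (N : Set G) ≤ Subgroup.normalizer (R : Set G) :=
  Cfsg.Agent.Lib.Helper68.BG12.normalizer_le_of_nilpotent hN hR

theorem cprod_structure {p : ℕ} [Fact p.Prime] {P₁ P₂ : Subgroup G}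
    (hcomm : ∀ a ∈ P₁, ∀ b ∈ P₂, a * b = b * a) (hnc : ¬ IsMulCommutative P₁)
    (hP₁ : Nat.card P₁ = p ^ 3) (hexp : Monoid.exponent P₁ = p) (hP₂ : IsCyclic P₂)
    (hcl : Subgroup.closure {x : G | x ∈ P₂ ∧ x ^ p = 1} =
      P₁ ⊓ Subgroup.centralizer (P₁ : Set G)) :
    Nat.card ↥(P₁ ⊓ Subgroup.centralizer (P₁ : Set G)) = p ∧
    (∀ A : Subgroup G, A ≤ P₁ ⊔ P₂ → IsElementaryAbelian p A → Nat.card A = p ^ 2 →
      (P₁ ⊓ Subgroup.centralizer (P₁ : Set G) ≤ A ∧ A ≤ P₁)) ∧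
    (∀ U : Subgroup G, U ≤ P₁ → Nat.card U = p → U ≠ P₁ ⊓ Subgroup.centralizer (P₁ : Set G) →
      (IsElementaryAbelian p ((P₁ ⊓ Subgroup.centralizer (P₁ : Set G)) ⊔ U) ∧
        Nat.card ↥((P₁ ⊓ Subgroup.centralizer (P₁ : Set G)) ⊔ U) = p ^ 2)) ∧
    (∀ A A₀ U : Subgroup G, A ≤ P₁ → IsElementaryAbelian p A → Nat.card A = p ^ 2 →
      A₀ ≤ A → U ≤ A → Nat.card A₀ = p → Nat.card U = p →
      A₀ ≠ P₁ ⊓ Subgroup.centralizer (P₁ : Set G) → U ≠ P₁ ⊓ Subgroup.centralizer (P₁ : Set G) →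
      ∃ x ∈ P₁, cj x A₀ = U) :=
  Cfsg.Agent.Lib.Helper20.BG12.cprod_structure hcomm hnc hP₁ hexp hP₂ hcl

theorem le_of_cent_noncentral_le {p : ℕ} [Fact p.Prime] {P₁ K Y : Subgroup G}
    (hP₁ : Nat.card P₁ = p ^ 3) (hnc : ¬ IsMulCommutative P₁) (hexp : Monoid.exponent P₁ = p)
    (hPK : P₁ ≤ Subgroup.normalizer (K : Set G)) (hcop : (Nat.card K).Coprime p)
    (hY : ∀ U : Subgroup G, U ≤ P₁ → Nat.card U = p →
      U ≠ P₁ ⊓ Subgroup.centralizer (P₁ : Set G) →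
      K ⊓ Subgroup.centralizer (U : Set G) ≤ Y) : K ≤ Y :=
  Cfsg.Agent.Lib.Helper52.BG12.le_of_cent_noncentral_le hP₁ hnc hexp hPK hcop hY

theorem exists_normal_pgroup_of_solvable {Y : Subgroup G} [Group.IsSolvable ↥Y] (hY : Y ≠ ⊥) :
    ∃ q : ℕ, q.Prime ∧ ∃ X : Subgroup G, X ≤ Y ∧ X ≠ ⊥ ∧ IsPGroup q X ∧
      Y ≤ Subgroup.normalizer (X : Set G) :=
  Cfsg.Agent.Lib.Helper63.BG12.exists_normal_pgroup_of_solvable hY

theorem le_betaCore_sup_normalizer (hG : IsMinSimpleOddOrder G) (h14 : H14 G) {M : Subgroup G}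
    (hM : IsCoatom M) {q : ℕ} [Fact q.Prime] (hq : q ∈ sigma M) {S : Subgroup G}
    (hS : S ∈ sylSet q M) :
    M ≤ piCoreOf (beta M) M ⊔ (M ⊓ Subgroup.normalizer (S : Set G)) :=
  Cfsg.Agent.Lib.Helper78.BG12.le_betaCore_sup_normalizer hG h14 hM hq hS

theorem exists_cj_le_of_coprime {X B L Y : Subgroup G} [Group.IsSolvable ↥X] (hBX : B ≤ X)
    (hBn : X ≤ Subgroup.normalizer (B : Set G)) (hLX : L ≤ X) (hXBL : X ≤ B ⊔ L) (hYX : Y ≤ X)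
    (hcop : (Nat.card Y).Coprime (Nat.card B)) : ∃ x ∈ X, cj x Y ≤ L :=
  Cfsg.Agent.Lib.Helper34.BG12.exists_cj_le_of_coprime hBX hBn hLX hXBL hYX hcop

theorem mem_tau2_of_normalizer_le (hG : IsMinSimpleOddOrder G) {M : Subgroup G} (hM : IsCoatom M)
    {q : ℕ} [Fact q.Prime] (hq : q ∉ sigma M) {X : Subgroup G} (hXq : IsPGroup q X) (hX1 : X ≠ ⊥)
    (hNX : Subgroup.normalizer (X : Set G) ≤ M) : q ∈ tau2 M :=
  Cfsg.Agent.Lib.Helper55.BG12.mem_tau2_of_normalizer_le hG hM hq hXq hX1 hNX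

theorem exists_elemAb2_le_sylSet {q : ℕ} [Fact q.Prime] {M S : Subgroup G}
    (h : ¬ PRankLE q 1 ↥M) (hS : S ∈ sylSet q M) :
    ∃ A : Subgroup G, A ≤ S ∧ IsElementaryAbelian q A ∧ Nat.card A = q ^ 2 :=
  Cfsg.Agent.Lib.Helper55.BG12.exists_elemAb2_le_sylSet h hS

theorem isComplIn_cj {E N M : Subgroup G} (h : IsComplIn E N M)
    (hn : M ≤ Subgroup.normalizer (N : Set G)) {x : G} (hx : x ∈ M) : IsComplIn (cj x E) N M :=
  Cfsg.Agent.Lib.Helper58.BG12.isComplIn_cj h hn hx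

theorem exists_elemAb2_ge {p : ℕ} [Fact p.Prime] {R X : Subgroup G} (hR : IsPGroup p R)
    (hr : ¬ PRankLE p 1 ↥R) (hXR : X ≤ R) (hXc : Nat.card X = p) :
    ∃ A : Subgroup G, A ≤ R ∧ IsElementaryAbelian p A ∧ Nat.card A = p ^ 2 ∧ X ≤ A :=
  Cfsg.Agent.Lib.Helper58.BG12.exists_elemAb2_ge hR hr hXR hXc

theorem exists_max_elemAb2_of_not_ideal {p : ℕ} [Fact p.Prime] {R : Subgroup G}
    (hR : R ∈ sylSet p (⊤ : Subgroup G)) (hr : ¬ PRankLE p 2 ↥R) (hni : ¬ IsIdealPrime p G) :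
    ∃ E : Subgroup G, E ≤ R ∧ IsElementaryAbelian p E ∧ Nat.card E = p ^ 2 ∧
      ∀ B : Subgroup G, B ≤ R → IsElementaryAbelian p B → E ≤ B → B = E :=
  Cfsg.Agent.Lib.Helper20.BG12.exists_max_elemAb2_of_not_ideal hR hr hni

theorem exists_elemAb_gt_of_ideal {p : ℕ} [Fact p.Prime] {R : Subgroup G}
    (hR : R ∈ sylSet p (⊤ : Subgroup G)) (hi : IsIdealPrime p G) {A : Subgroup G} (hAR : A ≤ R)
    (hA : IsElementaryAbelian p A) (hAc : Nat.card A = p ^ 2) :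
    ∃ B : Subgroup G, B ≤ R ∧ IsElementaryAbelian p B ∧ A < B :=
  Cfsg.Agent.Lib.Helper20.BG12.exists_elemAb_gt_of_ideal hR hi hAR hA hAc

end Cfsg.Agent.Lib.Helper3.BG12S
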