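import Cfsg.Agent.Lib.Helper3.BG12Defs2
import Cfsg.Agent.Lib.Helper3.BG12a
import Cfsg.Agent.Lib.Helper3.BG12Pieces
import Cfsg.Agent.Lib.Helper32.BG10Main

/-!
# B&G Lemma 12.17 (S1426) modulo earlier rows (helper3)
-/

set_option autoImplicit false

open Cfsg Cfsg.Agent.Lib.Helper32 Cfsg.Agent.Lib.Helper32.BG10
open Cfsg.Agent.Lib.Helper3.BG12S

namespace Cfsg.Agent.Lib.Helper3.BG12

universe u

variable {G : Type u} [Group G] [Finite G]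

/-- Cauchy: a subgroup of order `q` inside `D` -/
theorem exists_card_eq_prime_le {D : Subgroup G} {q : ℕ} (hq : q.Prime) (h : q ∣ Nat.card D) :
    ∃ X₀ : Subgroup G, X₀ ≤ D ∧ Nat.card X₀ = q := by
  haveI : Fact q.Prime := ⟨hq⟩
  obtain ⟨x, hx⟩ := exists_prime_orderOf_dvd_card' q h
  refine ⟨Subgroup.zpowers (x : G), ?_, ?_⟩
  · rw [Subgroup.zpowers_le]; exact x.2
  · rw [Nat.card_zpowers, Subgroup.orderOf_coe, hx]

omit [Finite G] in
theorem sigmaCore_le (M : Subgroup G) : sigmaCore M ≤ M := by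
  rintro x ⟨y, -, rfl⟩; exact y.2

theorem sigmaCore_normalizer (M : Subgroup G) :
    M ≤ Subgroup.normalizer ((sigmaCore M : Subgroup G) : Set G) :=
  le_normalizer_map_subtype M (piCore (sigma M) ↥M)

/-- B&G Lemma 12.17 -/
theorem bg12_17 (hG : IsMinSimpleOddOrder G) (hnc : NormNC G) (h23 : H23 G)
    (M : Subgroup G) (hM : IsCoatom M) (E : Subgroup G) (hE : Cfsg.IsComplIn E (Cfsg.sigmaCore M) M) :
    Cfsg.sigmaCore M ⊓ Subgroup.centralizer (E : Set G) ≤ ⁅Cfsg.sigmaCore M, Cfsg.sigmaCore M⁆ ∧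
      ⁅Cfsg.sigmaCore M, E⁆ = Cfsg.sigmaCore M ∧
      ∀ g : G, g ∉ M → IsCyclic ↥(Cfsg.sigmaCore M ⊓ M.map (MulAut.conj g).toMonoidHom) ∧
        (∀ p : ℕ, p.Prime → p ∣ Nat.card ↥(Cfsg.sigmaCore M ⊓ M.map (MulAut.conj g).toMonoidHom) → p ∉ Cfsg.beta M) ∧
        Cfsg.sigmaCore M ⊓ M.map (MulAut.conj g).toMonoidHom ⊓ ⁅Cfsg.sigmaCore M, Cfsg.sigmaCore M⁆ = ⊥ := by
  have h1 : H1 G := h1_of hG
  have hNn := sigmaCore_normalizer M
  have hNM : sigmaCore M ≤ M := sigmaCore_le M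
  have hNtop : sigmaCore M ≠ ⊤ := fun h => hM.1 (top_le_iff.mp (h ▸ hNM))
  haveI : Group.IsSolvable ↥(sigmaCore M) := minSimple_solvable hG hNtop
  refine ⟨cent_compl_le_der hE hNn (sigmaCore_le_comm hG hM) (sigmaCore_coprime hG hM hE),
    comm_compl_eq hE hNn (sigmaCore_le_comm hG hM), ?_⟩
  intro g hg
  change IsCyclic ↥(sigmaCore M ⊓ cj g M) ∧
    (∀ p : ℕ, p.Prime → p ∣ Nat.card ↥(sigmaCore M ⊓ cj g M) → p ∉ beta M) ∧
    sigmaCore M ⊓ cj g M ⊓ ⁅sigmaCore M, sigmaCore M⁆ = ⊥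
  set D := sigmaCore M ⊓ cj g M with hD
  have hDN : D ≤ sigmaCore M := inf_le_left
  have key : ∀ (q : ℕ) [Fact q.Prime] (X : Subgroup G), X ≤ D → IsPGroup q X → X ≠ ⊥ →
      q ∈ sigma M ∧ ¬ Subgroup.centralizer (X : Set G) ≤ M := by
    intro q _ X hXD hXq hX1
    have hqP : q.Prime := Fact.out
    have hqσ : q ∈ sigma M := by
      apply mem_sigma_of_dvd_sigmaCore hqP
      obtain ⟨k, hk⟩ := IsPGroup.iff_card.mp hXq
      have hk0 : k ≠ 0 := by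
        rintro rfl
        rw [pow_zero] at hk
        exact hX1 (Subgroup.card_eq_one.mp hk)
      have h2 : q ∣ Nat.card X := by rw [hk]; exact dvd_pow_self q hk0
      exact h2.trans (Subgroup.card_dvd_of_le (hXD.trans hDN))
    refine ⟨hqσ, fun hC => hg ?_⟩
    have hXM : X ≤ M := (hXD.trans hDN).trans hNM
    have hX' : cj g⁻¹ X ≤ M := by
      have h2 : cj g⁻¹ X ≤ cj g⁻¹ (cj g M) := cj_mono g⁻¹ (hXD.trans inf_le_right)
      rwa [cj_inv_cj] at h2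
    obtain ⟨m, hm, c, hc, hgmc⟩ := (h1 M hM q hqσ X hXq hX1 hXM).1 g⁻¹ hX'
    have h3 : g⁻¹ ∈ M := hgmc ▸ M.mul_mem hm (hC hc)
    simpa using M.inv_mem h3
  have hcyc : ∀ (q : ℕ) [Fact q.Prime] (X : Subgroup G), X ≤ D → IsPGroup q X → IsCyclic X := by
    intro q _ X hXD hXq
    by_cases hX1 : X = ⊥
    · subst hX1; infer_instance
    · by_contra hncyc
      obtain ⟨hqσ, hC⟩ := key q X hXD hXq hX1
      exact hC ((Subgroup.centralizer_le_normalizer (X : Set G)).trans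
        (hnc M hM q X hqσ hXq ((hXD.trans hDN).trans hNM) hncyc))
  have hord : ∀ (q : ℕ), q.Prime → ∀ X₀ : Subgroup G, X₀ ≤ D → Nat.card X₀ = q →
      q ∉ beta M ∧ ¬ X₀ ≤ ⁅sigmaCore M, sigmaCore M⁆ := by
    intro q hqP X₀ hX₀D hcard
    haveI : Fact q.Prime := ⟨hqP⟩
    have hXq : IsPGroup q X₀ := IsPGroup.of_card (n := 1) (by rw [hcard, pow_one])
    have hX1 : X₀ ≠ ⊥ := by
      rintro rfl
      rw [Subgroup.card_bot] at hcard
      exact hqP.one_lt.ne hcard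
    obtain ⟨hqσ, hC⟩ := key q X₀ hX₀D hXq hX1
    obtain ⟨P⟩ : Nonempty (Sylow q ↥(sigmaCore M)) := inferInstance
    have h4 := h23 M hM q hqσ X₀ ((hX₀D.trans hDN).trans hNM) hcard P
    exact ⟨fun hb => hC (h4 (Or.inl hb)).1.1, fun hb => hC (h4 (Or.inr hb)).1.1⟩
  have hbot : D ⊓ ⁅sigmaCore M, sigmaCore M⁆ = ⊥ := by
    by_contra hne
    have hcard : Nat.card ↥(D ⊓ ⁅sigmaCore M, sigmaCore M⁆) ≠ 1 := fun h =>
      hne (Subgroup.card_eq_one.mp h)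
    obtain ⟨q, hqP, hqd⟩ := Nat.exists_prime_and_dvd hcard
    obtain ⟨X₀, hX₀, hX₀c⟩ := exists_card_eq_prime_le hqP hqd
    exact (hord q hqP X₀ (hX₀.trans inf_le_left) hX₀c).2 (hX₀.trans inf_le_right)
  refine ⟨cyclic_of_inf_der_eq_bot hDN hbot hcyc, ?_, hbot⟩
  intro p hp hpd
  obtain ⟨X₀, hX₀, hX₀c⟩ := exists_card_eq_prime_le hp hpd
  exact (hord p hp X₀ hX₀ hX₀c).1

end Cfsg.Agent.Lib.Helper3.BG12
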