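import Cfsg.Agent.Lib.Helper3.BG11Om
import Cfsg.Agent.Lib.Helper3.BG12b

/-!
# B&G 12.4, piece P4D (helper3)
-/

set_option autoImplicit false

open Cfsg Cfsg.Agent.Lib.Helper32 Cfsg.Agent.Lib.Helper32.BG10 Cfsg.Agent.Lib.Helper3.BG12
open Cfsg.Agent.Lib.Helper41.BG11

namespace Cfsg.Agent.Lib.Helper3.BG11

universe u

variable {G : Type u} [Group G] [Finite G]

/-- the Sylow `p`-subgroup of a nilpotent normal subgroup `N` of `M` contains every
`p`-subgroup of `N` and is normal in `M` -/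
theorem exists_normal_sylow_of_nilpotent {p : ℕ} [Fact p.Prime] {M N : Subgroup G}
    (hNM : M ≤ Subgroup.normalizer (N : Set G)) (hnil : Group.IsNilpotent ↥N) :
    ∃ P : Subgroup G, P ∈ sylSet p N ∧ M ≤ Subgroup.normalizer (P : Set G) ∧
      N ≤ Subgroup.normalizer (P : Set G) ∧
      ∀ X : Subgroup G, IsPGroup p X → X ≤ N → X ≤ P := by
  obtain ⟨P, hP⟩ := sylSet_nonempty p N
  have hNP : Subgroup.normalizer (N : Set G) ≤ Subgroup.normalizer (P : Set G) :=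
    Cfsg.Agent.Lib.Helper3.BG12S.normalizer_le_of_nilpotent hnil hP
  have hN' : N ≤ Subgroup.normalizer (P : Set G) := Subgroup.le_normalizer.trans hNP
  refine ⟨P, hP, hNM.trans hNP, hN', fun X hX hXN => ?_⟩
  obtain ⟨R, hR, hXR⟩ := exists_sylSet_ge hX hXN
  obtain ⟨n, hn, hcj⟩ := sylSet_conj hP hR
  rw [cj_eq_self_iff.mpr (hN' hn)] at hcj
  rw [hcj]; exact hXR

theorem p4d (hG : IsMinSimpleOddOrder G) {M : Subgroup G} (hM : IsCoatom M) {p : ℕ} (hp : p.Prime)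
    {A : Subgroup G} (hAM : A ≤ M) (hmax : MaxEA p A) (hAc : Nat.card A = p ^ 2)
    (hbad : Bad M p A) (hσ : p ∈ sigma M) (hnil : Group.IsNilpotent ↥(sigmaCore M)) :
    Subgroup.centralizer (A : Set G) ≤ M := by
  have : Fact p.Prime := ⟨hp⟩
  have hp1 := hp.one_lt
  have hpA : IsPGroup p ↥A := IsPGroup.of_card hAc
  have hAbot : A ≠ ⊥ := by
    rintro rfl
    rw [Subgroup.card_bot] at hAc
    have : 1 < p ^ 2 := Nat.one_lt_pow (by norm_num) hp1
    omega
  obtain ⟨P, hP, hMP, -, hall⟩ := exists_normal_sylow_of_nilpotent (p := p)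
    (Cfsg.Agent.Lib.Helper3.BG12.sigmaCore_normalizer M) hnil
  have hAS : A ≤ sigmaCore M := Cfsg.Agent.Lib.Helper32.BG12.pgroup_le_sigmaCore hG hM hσ hpA hAM
  have hAP : A ≤ P := hall A hpA hAS
  have hPp : IsPGroup p ↥P := isPGroup_of_mem_sylSet hP
  have hPbot : P ≠ ⊥ := fun h => hAbot (le_bot_iff.mp (h ▸ hAP))
  have hPM : P ≤ M := hP.1.trans (Cfsg.Agent.Lib.Helper3.BG12.sigmaCore_le M)
  have hZbot : omZ p P ≠ ⊥ := omZ_ne_bot hPp hPbot
  have hZM : omZ p P ≤ M := (omZ_le p P).trans hPM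
  have hMZ : M ≤ Subgroup.normalizer ((omZ p P : Subgroup G) : Set G) :=
    hMP.trans (normalizer_le_omZ p P)
  have hNZ := normalizer_eq_of_coatom hG hM hZbot hZM hMZ
  have hZA : omZ p P ≤ A := by
    have h1 : IsElementaryAbelian p (omZ p P ⊔ A) :=
      Cfsg.Agent.Lib.Helper14.ea_sup (omZ_elemAb p P) hmax.1 (fun a ha b hb => (ha.2.1 b (hAP hb)).symm)
    have h2 := hmax.2 _ h1 le_sup_right
    rw [← h2]; exact le_sup_left
  rcases card_eq_or_eq_of_le hp hAc hZA hZbot with hc | hc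
  · exfalso
    exact hbad _ hZA hc ⟨hNZ.le, fun L hL hNL => (coatom_eq_of_le hM hL (hNZ ▸ hNL)).symm⟩
  · rw [hc] at hNZ
    rw [← hNZ]
    exact Subgroup.centralizer_le_normalizer (A : Set G)

end Cfsg.Agent.Lib.Helper3.BG11
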