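import Cfsg.Agent.Lib.Helper3.BG11T6
import Cfsg.Agent.Lib.Helper3.BG11P4D
import Cfsg.Agent.Lib.Helper34.PLen2
import Cfsg.Agent.Lib.Helper72.ZGNf

/-!
# B&G 11.7, piece NORM: `M ≤ N(M_σ A)` (helper3)
-/

set_option autoImplicit false

open Cfsg Cfsg.Agent.Lib.Helper32 Cfsg.Agent.Lib.Helper32.BG10 Cfsg.Agent.Lib.Helper3.BG12
open Cfsg.Agent.Lib.Helper41.BG11
open scoped commutatorElement

namespace Cfsg.Agent.Lib.Helper3.BG11

universe u

variable {G : Type u} [Group G]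

theorem isNilpotent_of_le {H K : Subgroup G} (hK : Group.IsNilpotent ↥K) (h : H ≤ K) :
    Group.IsNilpotent ↥H := by
  haveI := hK
  exact Subgroup.isNilpotent_of_ker_le_center (Subgroup.inclusion h)
    (by rw [(MonoidHom.ker_eq_bot_iff _).mpr (Subgroup.inclusion_injective h)]; exact bot_le)

theorem eq_bot_of_pgroup_of_coprime {p : ℕ} (hp : p.Prime) {X : Subgroup G} [Finite X]
    (hX : IsPGroup p X) (hc : (Nat.card X).Coprime p) : X = ⊥ := by
  haveI : Fact p.Prime := ⟨hp⟩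
  obtain ⟨k, hk⟩ := IsPGroup.iff_card.mp hX
  rw [hk] at hc
  have hk0 : k = 0 := by
    by_contra hk0
    have h1 : p ∣ Nat.gcd (p ^ k) p := Nat.dvd_gcd (dvd_pow_self p hk0) dvd_rfl
    rw [hc] at h1
    exact hp.one_lt.ne' (Nat.dvd_one.mp h1)
  rw [hk0, pow_zero] at hk
  exact Subgroup.card_eq_one.mp hk

variable [Finite G]

theorem mem_normalizer_of_cj_le {H : Subgroup G} {g : G} (h : cj g H ≤ H) :
    g ∈ Subgroup.normalizer (H : Set G) :=
  cj_eq_self_iff.mp (Subgroup.eq_of_le_of_card_ge h (by rw [card_cj]))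

theorem mem_normalizer_sup_of_cj_le {X Y : Subgroup G} {g : G}
    (hX : cj g X ≤ X ⊔ Y) (hY : cj g Y ≤ X ⊔ Y) :
    g ∈ Subgroup.normalizer ((X ⊔ Y : Subgroup G) : Set G) := by
  have h1 : X ≤ cj g⁻¹ (X ⊔ Y) := by have := cj_mono g⁻¹ hX; rwa [cj_inv_cj] at this
  have h2 : Y ≤ cj g⁻¹ (X ⊔ Y) := by have := cj_mono g⁻¹ hY; rwa [cj_inv_cj] at this
  have h3 : X ⊔ Y ≤ cj g⁻¹ (X ⊔ Y) := sup_le h1 h2
  have h4 : X ⊔ Y = cj g⁻¹ (X ⊔ Y) := Subgroup.eq_of_le_of_card_ge h3 (by rw [card_cj])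
  have h5 : g⁻¹ ∈ Subgroup.normalizer ((X ⊔ Y : Subgroup G) : Set G) := cj_eq_self_iff.mp h4.symm
  simpa using (Subgroup.normalizer _).inv_mem h5

theorem le_normalizer_inf {M X Y : Subgroup G} (hX : M ≤ Subgroup.normalizer (X : Set G))
    (hY : M ≤ Subgroup.normalizer (Y : Set G)) :
    M ≤ Subgroup.normalizer ((X ⊓ Y : Subgroup G) : Set G) := by
  intro m hm
  apply mem_normalizer_of_cj_le
  intro x hx
  rw [mem_cj] at hx
  have h1 : x ∈ cj m X := mem_cj.mpr hx.1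
  have h2 : x ∈ cj m Y := mem_cj.mpr hx.2
  rw [cj_eq_self_iff.mpr (hX hm)] at h1
  rw [cj_eq_self_iff.mpr (hY hm)] at h2
  exact ⟨h1, h2⟩

theorem norm (hG : IsMinSimpleOddOrder G) (hSyl : PSyl G) (hFit : PFit G) (hCen : PCen G) :
    PNorm G := by
  intro M p A A₀ hE
  have hE' := hE
  obtain ⟨hM, hp, hσ, hAM, hmax, hAc, hid, hA₀, hA₀c, hN⟩ := hE
  have : Fact p.Prime := ⟨hp⟩
  have hpA : IsPGroup p ↥A := IsPGroup.of_card hAc
  have hSn : M ≤ Subgroup.normalizer ((sigmaCore M : Subgroup G) : Set G) :=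
    Cfsg.Agent.Lib.Helper3.BG12.sigmaCore_normalizer M
  have hSM : sigmaCore M ≤ M := Cfsg.Agent.Lib.Helper3.BG12.sigmaCore_le M
  have hconj : ∀ m ∈ M, ∀ s ∈ sigmaCore M, m * s * m⁻¹ ∈ sigmaCore M := by
    intro m hm s hs
    exact ((Subgroup.mem_normalizer_iff.mp (hSn hm)) s).mp hs
  have hMsol : Group.IsSolvable ↥M := minSimple_solvable hG hM.1
  have hAsol : Group.IsSolvable ↥A :=
    Group.isSolvable_of_isSolvable_injective (Subgroup.inclusion_injective hAM)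
  -- `K`
  have hKn : (pPrimeCore p ↥M).Normal := Cfsg.Agent.Lib.Helper30.pPrimeCore_normal p ↥M
  obtain ⟨K, hK⟩ : ∃ K : Subgroup G, K = (pPrimeCore p ↥M).map M.subtype := ⟨_, rfl⟩
  have hKM : K ≤ M := by
    rw [hK]; rintro x ⟨y, -, rfl⟩; exact y.2
  have hMK : M ≤ Subgroup.normalizer (K : Set G) := by
    rw [hK]; exact le_normalizer_map_subtype M (pPrimeCore p ↥M)
  have hKcop : (Nat.card K).Coprime p := by
    rw [hK, Cfsg.Agent.Lib.Helper30.card_map_subtype]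
    exact Cfsg.Agent.Lib.Helper30.pPrimeCore_coprime p
  -- (1)
  have hAK : A ≤ Subgroup.normalizer (K : Set G) := hAM.trans hMK
  have hcop : (Nat.card A).Coprime (Nat.card K) := by
    rw [hAc]; exact (Nat.Coprime.pow_right 2 hKcop).symm
  have hF4 : ⁅⁅K, A⁆, A⁆ = ⁅K, A⁆ :=
    Cfsg.Agent.Lib.Helper72.ZG.commutator_commutator_eq hAK
      (Cfsg.Agent.Lib.Helper72.ZG.le_cent_mul_commutator hAK hcop (Or.inl hAsol))
  have hKAF : ⁅K, A⁆ ≤ fittingOf M := hFit M p A A₀ hE' K hKM hMK hKcop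
  have hKAK : ⁅K, A⁆ ≤ K := Cfsg.Agent.Lib.Helper72.HH.commutator_le_left_of_normalizer hAK
  have hFKnil : Group.IsNilpotent ↥(fittingOf M ⊓ K) :=
    isNilpotent_of_le (isNilpotent_fittingOf M) inf_le_left
  have hMFK : M ≤ Subgroup.normalizer ((fittingOf M ⊓ K : Subgroup G) : Set G) :=
    le_normalizer_inf (le_normalizer_fittingOf M) hMK
  have hFKcop : (Nat.card ↥(fittingOf M ⊓ K)).Coprime p :=
    Nat.Coprime.coprime_dvd_left (Subgroup.card_dvd_of_le inf_le_right) hKcop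
  let T : Subgroup G :=
    { carrier := {x | x ∈ M ∧ ∀ a ∈ A, x * a * x⁻¹ * a⁻¹ ∈ sigmaCore M}
      mul_mem' := by
        intro x y hx hy
        refine ⟨M.mul_mem hx.1 hy.1, fun a ha => ?_⟩
        have h1 := hconj x hx.1 _ (hy.2 a ha)
        have h2 := (sigmaCore M).mul_mem h1 (hx.2 a ha)
        have e : x * y * a * (x * y)⁻¹ * a⁻¹ = x * (y * a * y⁻¹ * a⁻¹) * x⁻¹ * (x * a * x⁻¹ * a⁻¹) := by
          group
        rw [e]; exact h2
      one_mem' := ⟨M.one_mem, fun a _ => by simp⟩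
      inv_mem' := by
        intro x hx
        refine ⟨M.inv_mem hx.1, fun a ha => ?_⟩
        have h1 := hconj x⁻¹ (M.inv_mem hx.1) _ ((sigmaCore M).inv_mem (hx.2 a ha))
        have e : x⁻¹ * a * x⁻¹⁻¹ * a⁻¹ = x⁻¹ * (x * a * x⁻¹ * a⁻¹)⁻¹ * x⁻¹⁻¹ := by group
        rw [e]; exact h1 }
  have hFKT : fittingOf M ⊓ K ≤ T := by
    apply le_of_sylSet_le
    intro q hq
    haveI : Fact q.Prime := ⟨hq⟩
    obtain ⟨Sq, hSq, hMSq, -, -⟩ := exists_normal_sylow_of_nilpotent (p := q) hMFK hFKnil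
    refine ⟨Sq, hSq, ?_⟩
    have hSqp : IsPGroup q ↥Sq := isPGroup_of_mem_sylSet hSq
    have hSqM : Sq ≤ M := hSq.1.trans (inf_le_right.trans hKM)
    by_cases hqp : q = p
    · subst hqp
      have : Sq = ⊥ := eq_bot_of_pgroup_of_coprime hq hSqp
        (Nat.Coprime.coprime_dvd_left (Subgroup.card_dvd_of_le hSq.1) hFKcop)
      rw [this]; exact bot_le
    · by_cases hqσ : q ∈ sigma M
      · have h1 : Sq ≤ sigmaCore M :=
          Cfsg.Agent.Lib.Helper32.BG12.pgroup_le_sigmaCore hG hM hqσ hSqp hSqM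
        intro x hx
        refine ⟨hSqM hx, fun a ha => ?_⟩
        have h2 := hconj a (hAM ha) _ ((sigmaCore M).inv_mem (h1 hx))
        have e : x * a * x⁻¹ * a⁻¹ = x * (a * x⁻¹ * a⁻¹) := by group
        rw [e]; exact (sigmaCore M).mul_mem (h1 hx) h2
      · have h1 : Sq ≤ Subgroup.centralizer (A : Set G) :=
          hCen M p A A₀ hE' q hq hqp hqσ Sq hSqM hMSq hSqp
        intro x hx
        refine ⟨hSqM hx, fun a ha => ?_⟩
        have h2 : a * x = x * a := (Subgroup.mem_centralizer_iff.mp (h1 hx)) a ha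
        have e : x * a * x⁻¹ * a⁻¹ = 1 := by rw [← h2]; group
        rw [e]; exact (sigmaCore M).one_mem
  have hKAS : ⁅K, A⁆ ≤ sigmaCore M := by
    rw [← hF4, Subgroup.commutator_le]
    intro x hx a ha
    have h1 : x ∈ T := hFKT ⟨hKAF hx, hKAK hx⟩
    have h2 := h1.2 a ha
    rwa [commutatorElement_def]
  -- (2), (3)
  obtain ⟨P, hP, hAP⟩ := exists_sylSet_ge hpA hAM
  obtain ⟨Sy, hSy⟩ := exists_sylow_of_mem_sylSet hP
  have hpl := Cfsg.Agent.Lib.Helper34.plength_one_sup_normalizer p (h7_of hG p M hM.1) Sy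
  rw [Cfsg.Agent.Lib.Helper34.upperPSeries_one_eq] at hpl
  obtain ⟨hPc, h2⟩ := hSyl M p A A₀ hE' P hP
  obtain ⟨hΩ, -⟩ := h2 hAP
  have hNPA := normalizer_le_of_omega hΩ hAP
  have h1 : K ≤ Subgroup.normalizer ((sigmaCore M ⊔ A : Subgroup G) : Set G) := by
    intro k hk
    apply mem_normalizer_sup_of_cj_le
    · rw [cj_eq_self_iff.mpr (hSn (hKM hk))]; exact le_sup_left
    · intro x hx
      rw [mem_cj] at hx
      have hc : ⁅k, k⁻¹ * x * k⁆ ∈ ⁅K, A⁆ := Subgroup.commutator_mem_commutator hk hx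
      have e : x = ⁅k, k⁻¹ * x * k⁆ * (k⁻¹ * x * k) := by rw [commutatorElement_def]; group
      rw [e]
      exact Subgroup.mul_mem _ ((le_sup_left : sigmaCore M ≤ sigmaCore M ⊔ A) (hKAS hc))
        ((le_sup_right : A ≤ sigmaCore M ⊔ A) hx)
  have h2 : (Subgroup.normalizer ((Sy : Subgroup ↥M) : Set ↥M)).map M.subtype ≤
      Subgroup.normalizer ((sigmaCore M ⊔ A : Subgroup G) : Set G) := by
    rintro _ ⟨y, hy, rfl⟩
    change (y : G) ∈ _
    have hyP : (y : G) ∈ Subgroup.normalizer (P : Set G) := by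
      rw [← hSy]; exact mem_normalizer_map_subtype hy
    have hyA := hNPA hyP
    apply mem_normalizer_sup_of_cj_le
    · rw [cj_eq_self_iff.mpr (hSn y.2)]; exact le_sup_left
    · rw [cj_eq_self_iff.mpr hyA]; exact le_sup_right
  have h3 : M = (⊤ : Subgroup ↥M).map M.subtype := by
    rw [← MonoidHom.range_eq_map, Subgroup.range_subtype]
  have h4 : M ≤ (⊤ : Subgroup ↥M).map M.subtype := h3.le
  rw [← hpl, Subgroup.map_sup, ← hK] at h4
  exact h4.trans (sup_le h1 h2)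

end Cfsg.Agent.Lib.Helper3.BG11
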