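import Cfsg.Agent.Lib.Helper41.BG11Kit

/-!
# B&G 12.4, piece P4A: a non-maximal elementary abelian `A` of order `p ^ 2` (helper3)
-/

set_option autoImplicit false

open Cfsg Cfsg.Agent.Lib.Helper32 Cfsg.Agent.Lib.Helper32.BG10 Cfsg.Agent.Lib.Helper3.BG12
open Cfsg.Agent.Lib.Helper41.BG11

namespace Cfsg.Agent.Lib.Helper3.BG11

universe u

variable {G : Type u} [Group G]

/-- a commutative subgroup normalizes its subgroups -/
theorem le_normalizer_of_comm_le {A A₀ : Subgroup G} (hc : ∀ a ∈ A, ∀ b ∈ A, a * b = b * a)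
    (h : A₀ ≤ A) : A ≤ Subgroup.normalizer (A₀ : Set G) := by
  intro a ha
  rw [Subgroup.mem_normalizer_iff]
  intro y
  constructor
  · intro hy
    have h1 : a * y = y * a := hc a ha y (h hy)
    have h2 : a * y * a⁻¹ = y := by rw [h1]; group
    rw [h2]; exact hy
  · intro hy
    have h1 : a * (a * y * a⁻¹) = (a * y * a⁻¹) * a := hc a ha _ (h hy)
    have h2 : y = a * y * a⁻¹ := by
      have h3 : a * y = a * (a * y * a⁻¹) := by rw [h1]; group
      exact mul_left_cancel h3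
    rw [h2]; exact hy

/-- a subgroup of order `p` of a group of order divisible by `p` -/
theorem exists_card_prime_le [Finite G] {p : ℕ} (hp : p.Prime) {A : Subgroup G}
    (h : p ∣ Nat.card A) : ∃ A₀ : Subgroup G, A₀ ≤ A ∧ Nat.card A₀ = p := by
  have : Fact p.Prime := ⟨hp⟩
  obtain ⟨x, hx⟩ := exists_prime_orderOf_dvd_card' (G := ↥A) p h
  refine ⟨Subgroup.zpowers (x : G), ?_, ?_⟩
  · rw [Subgroup.zpowers_le]; exact x.2
  · rw [Nat.card_zpowers, Subgroup.orderOf_coe, hx]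

variable [Finite G]

theorem p4a (hG : IsMinSimpleOddOrder G) {M : Subgroup G} (hM : IsCoatom M) {p : ℕ} (hp : p.Prime)
    {A : Subgroup G} (hAM : A ≤ M) (hAe : IsElementaryAbelian p A) (hAc : Nat.card A = p ^ 2)
    (hnm : ¬ MaxEA p A) : Subgroup.centralizer (A : Set G) ≤ M ∧ ¬ Bad M p A := by
  have hp1 := hp.one_lt
  have hpp : p < p ^ 2 := by nlinarith
  have hcomm : ∀ a ∈ A, ∀ b ∈ A, a * b = b * a := fun a ha b hb =>
    congrArg Subtype.val (hAe.1.is_comm.comm ⟨a, ha⟩ ⟨b, hb⟩)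
  obtain ⟨B, hBe, hAB, hBne⟩ : ∃ B : Subgroup G, IsElementaryAbelian p B ∧ A ≤ B ∧ B ≠ A := by
    by_contra hcon
    apply hnm
    refine ⟨hAe, fun B hB hAB => ?_⟩
    by_contra hne
    exact hcon ⟨B, hB, hAB, hne⟩
  have hBcomm : ∀ a ∈ B, ∀ b ∈ B, a * b = b * a := fun a ha b hb =>
    congrArg Subtype.val (hBe.1.is_comm.comm ⟨a, ha⟩ ⟨b, hb⟩)
  have hBC : B ≤ Subgroup.centralizer (A : Set G) := by
    intro b hb
    rw [Subgroup.mem_centralizer_iff]
    intro a ha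
    exact hBcomm a (hAB ha) b hb
  have hBcard : p ^ 2 < Nat.card B := by
    have h1 : Nat.card A ∣ Nat.card B := Subgroup.card_dvd_of_le hAB
    have h2 : Nat.card A ≤ Nat.card B := Nat.le_of_dvd Nat.card_pos h1
    rcases h2.lt_or_eq with h3 | h3
    · rw [hAc] at h3; exact h3
    · exact absurd (Subgroup.eq_of_le_of_card_ge hAB h3.ge).symm hBne
  -- `¬ RankLE 2 (C(A))`
  have hr2 : ¬ RankLE 2 ↥(Subgroup.centralizer (A : Set G)) := by
    intro hr
    have h1 := hr p hp (B.subgroupOf (Subgroup.centralizer (A : Set G)))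
      ⟨⟨fun a b => Subtype.ext (Subtype.ext (hBcomm a.1.1 a.2 b.1.1 b.2))⟩⟩
      (fun a ha => Subtype.ext (hBe.2 a.1 ha))
    rw [Nat.card_congr (Subgroup.subgroupOfEquivOfLe hBC).toEquiv] at h1
    omega
  have hr1 : ¬ RankLE 1 ↥A := by
    intro hr
    have h1 := hr p hp (⊤ : Subgroup ↥A)
      ⟨⟨fun a b => Subtype.ext (Subtype.ext (hcomm a.1.1 a.1.2 b.1.1 b.1.2))⟩⟩
      (fun a _ => Subtype.ext (hAe.2 a.1 a.2))
    rw [Subgroup.card_top, hAc, pow_one] at h1
    omega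
  have hAtop : A ≠ ⊤ := by
    rintro rfl
    exact hM.1 (top_le_iff.mp hAM)
  have hAbot : A ≠ ⊥ := by
    rintro rfl
    rw [Subgroup.card_bot] at hAc
    omega
  have huniq : InUniqueMaximal A := ut_of hG A hAtop hr1 (Or.inr hr2)
  have hU : ∀ L : Subgroup G, IsCoatom L → A ≤ L → L = M := by
    intro L hL hAL
    obtain ⟨M', -, hM'⟩ := huniq
    rw [hM' L ⟨hL, hAL⟩, hM' M ⟨hM, hAM⟩]
  have hsub : ∀ X : Subgroup G, X ≠ ⊤ → A ≤ X → X ≤ M := by
    intro X hX hAX
    obtain ⟨L, hL, hXL⟩ := exists_coatom_ge hX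
    rw [← hU L hL (hAX.trans hXL)]
    exact hXL
  constructor
  · have h1 : Subgroup.centralizer (A : Set G) ≤ Subgroup.normalizer (A : Set G) :=
      Subgroup.centralizer_le_normalizer (A : Set G)
    exact h1.trans (hsub _ (minSimple_normalizer_ne_top hG hAbot hAtop) Subgroup.le_normalizer)
  · intro hbad
    obtain ⟨A₀, hA₀, hA₀c⟩ := exists_card_prime_le hp (A := A) (by rw [hAc]; exact dvd_pow_self p (by norm_num))
    have hA₀bot : A₀ ≠ ⊥ := by
      rintro rfl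
      rw [Subgroup.card_bot] at hA₀c
      omega
    have hA₀top : A₀ ≠ ⊤ := fun h => hAtop (top_le_iff.mp (h ▸ hA₀))
    have hAN : A ≤ Subgroup.normalizer (A₀ : Set G) := le_normalizer_of_comm_le hcomm hA₀
    have hNtop := minSimple_normalizer_ne_top hG hA₀bot hA₀top
    exact hbad A₀ hA₀ hA₀c ⟨hsub _ hNtop hAN, fun L hL hNL => hU L hL (hAN.trans hNL)⟩

end Cfsg.Agent.Lib.Helper3.BG11
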