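import Cfsg.Agent.Lib.Helper3.BG11NORM
import Cfsg.Agent.Lib.Helper3.BG11P4A
import Cfsg.Agent.Lib.Helper3.U95M
import Cfsg.Agent.Lib.Helper32.BnR
import Cfsg.Agent.S1443
import Cfsg.Agent.S0026

/-!
# B&G Section 11, piece T9A: the bad case gives the configuration (helper3)
-/

set_option autoImplicit false

open Cfsg Cfsg.Agent.Lib.Helper32 Cfsg.Agent.Lib.Helper32.BG10 Cfsg.Agent.Lib.Helper3.BG12
open Cfsg.Agent.Lib.Helper41.BG11
open scoped commutatorElement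

namespace Cfsg.Agent.Lib.Helper3.BG11

universe u

variable {G : Type u} [Group G]

theorem isCyclic_of_le {H K : Subgroup G} (hK : IsCyclic ↥K) (h : H ≤ K) : IsCyclic ↥H := by
  haveI := hK
  exact isCyclic_of_surjective (Subgroup.subgroupOfEquivOfLe h) (Subgroup.subgroupOfEquivOfLe h).surjective

variable [Finite G]

theorem t9a (hG : IsMinSimpleOddOrder G) (h14 : H14 G) (hSyl : PSyl G) (hCyc : PCyc G)
    (hFit : PFit G) : PSigA G := by
  intro M p A A₀ hE q hq hqp hqσ Y hYM hMY hYq hYA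
  have hE' := hE
  obtain ⟨hM, hp, hσ, hAM, hmax, hAc, hid, hA₀, hA₀c, hN⟩ := hE
  have : Fact p.Prime := ⟨hp⟩
  have : Fact q.Prime := ⟨hq⟩
  have hpA : IsPGroup p ↥A := IsPGroup.of_card hAc
  have hMsol : Group.IsSolvable ↥M := minSimple_solvable hG hM.1
  have hAsol : Group.IsSolvable ↥A :=
    Group.isSolvable_of_isSolvable_injective (Subgroup.inclusion_injective hAM)
  have hYcyc : IsCyclic ↥Y := hCyc M q hM hq hqσ Y hYM hMY hYq
  have hcopAq : (Nat.card A).Coprime q := by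
    rw [hAc]; exact Nat.Coprime.pow_left 2 ((Nat.coprime_primes hp hq).mpr (Ne.symm hqp))
  have hq2 : q ≠ 2 := by
    obtain ⟨k, hk⟩ := IsPGroup.iff_card.mp hYq
    have hk0 : k ≠ 0 := by
      rintro rfl
      rw [pow_zero] at hk
      rw [Subgroup.card_eq_one.mp hk] at hYA
      exact hYA bot_le
    have h1 : q ∣ Nat.card G := ((dvd_pow_self q hk0).trans (hk ▸ dvd_rfl)).trans
      (Subgroup.card_subgroup_dvd_card Y)
    have h2 : Odd q := Odd.of_dvd_nat hG.1 h1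
    rintro rfl
    exact absurd h2 (by decide)
  -- `x`
  obtain ⟨x, hxY, hxo, hxA⟩ : ∃ x ∈ Y, orderOf x = q ∧
      ¬ A ≤ Subgroup.centralizer ({x} : Set G) := by
    by_contra hcon
    have hcon' : ∀ x ∈ Y, orderOf x = q → A ≤ Subgroup.centralizer ({x} : Set G) := by
      intro x hx ho
      by_contra h
      exact hcon ⟨x, hx, ho, h⟩
    have h1 := Cfsg.Agent.S1443.result q hq2 Y ⊥ A hYq bot_le Cfsg.Agent.Lib.Helper14.ea_bot
      (hAM.trans hMY) hcopAq (fun x hx ho => hcon' x hx.1 ho)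
    apply hYA
    intro y hy
    rw [Subgroup.mem_centralizer_iff]
    intro a ha
    exact ((Subgroup.mem_centralizer_iff.mp (h1 ha)) y hy).symm
  -- `B₀`
  obtain ⟨B₀, hB₀⟩ : ∃ B₀ : Subgroup G, B₀ = Subgroup.zpowers x := ⟨_, rfl⟩
  have hxB₀ : x ∈ B₀ := by rw [hB₀]; exact Subgroup.mem_zpowers x
  have hB₀c : Nat.card B₀ = q := by rw [hB₀, Nat.card_zpowers, hxo]
  have hB₀p : IsPGroup q ↥B₀ := IsPGroup.of_card (n := 1) (by rw [hB₀c, pow_one])
  have hB₀Y : B₀ ≤ Y := by rw [hB₀, Subgroup.zpowers_le]; exact hxY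
  have hB₀M : B₀ ≤ M := hB₀Y.trans hYM
  have hMB₀ : M ≤ Subgroup.normalizer (B₀ : Set G) :=
    hMY.trans (normalizer_le_normalizer_of_cyclic hYcyc hB₀Y)
  have hB₀bot : B₀ ≠ ⊥ := by
    intro h
    rw [h, Subgroup.card_bot] at hB₀c
    exact hq.one_lt.ne hB₀c
  have hNB₀ := normalizer_eq_of_coatom hG hM hB₀bot hB₀M hMB₀
  have hB₀A : ¬ B₀ ≤ Subgroup.centralizer (A : Set G) := by
    intro h
    apply hxA
    intro a ha
    rw [Subgroup.mem_centralizer_iff]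
    intro y hy
    rw [Set.mem_singleton_iff] at hy
    rw [hy]
    exact ((Subgroup.mem_centralizer_iff.mp (h hxB₀)) a ha).symm
  -- `p < q`
  have hpq : p < q := by
    obtain ⟨a, ha, hax⟩ : ∃ a ∈ A, a * x ≠ x * a := by
      by_contra hcon
      apply hxA
      intro a ha
      rw [Subgroup.mem_centralizer_iff]
      intro y hy
      rw [Set.mem_singleton_iff] at hy
      rw [hy]
      by_contra h
      exact hcon ⟨a, ha, fun h' => h h'.symm⟩
    haveI hnorm : (B₀.subgroupOf M).Normal :=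
      (Subgroup.normal_subgroupOf_iff_le_normalizer hB₀M).mpr hMB₀
    have hcard : Nat.card ↥(B₀.subgroupOf M) = q := by
      rw [Nat.card_congr (Subgroup.subgroupOfEquivOfLe hB₀M).toEquiv, hB₀c]
    haveI : IsCyclic ↥(B₀.subgroupOf M) := isCyclic_of_prime_card hcard
    have h1 : (MulAut.conjNormal (H := B₀.subgroupOf M) (⟨a, hAM ha⟩ : ↥M)) ^ p = 1 := by
      rw [← map_pow]
      have : (⟨a, hAM ha⟩ : ↥M) ^ p = 1 := Subtype.ext (by simpa using hmax.1.2 a ha)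
      rw [this, map_one]
    have h2 : (MulAut.conjNormal (H := B₀.subgroupOf M) (⟨a, hAM ha⟩ : ↥M)) ≠ 1 := by
      intro h
      have hx' : (⟨x, hB₀M hxB₀⟩ : ↥M) ∈ B₀.subgroupOf M := by
        rw [Subgroup.mem_subgroupOf]; exact hxB₀
      have h3 := congrArg (fun f : MulAut ↥(B₀.subgroupOf M) =>
        (((f ⟨_, hx'⟩ : ↥(B₀.subgroupOf M)) : ↥M) : G)) h
      simp only [MulAut.conjNormal_apply, MulAut.one_apply] at h3
      apply hax
      have h4 : a * x * a⁻¹ = x := h3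
      calc a * x = a * x * a⁻¹ * a := by group
        _ = x * a := by rw [h4]
    have h3 := orderOf_eq_prime h1 h2
    have h4 : p ∣ Nat.card (MulAut ↥(B₀.subgroupOf M)) := h3 ▸ orderOf_dvd_natCard _
    rw [IsCyclic.card_mulAut, hcard, Nat.totient_prime hq] at h4
    have h5 := Nat.le_of_dvd (by have := hq.two_le; omega) h4
    omega
  -- `B'`
  obtain ⟨-, hqid, B', hB'e, hB'c, hB₀B'⟩ := h6_of hG M hM q hqσ B₀ hB₀c hNB₀.le
  have hB'M : B' ≤ M := by
    rw [← hNB₀]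
    exact le_normalizer_of_comm_le (Cfsg.Agent.Lib.Helper14.ea_comm hB'e) hB₀B'
  -- tower
  have hpM : p ∣ Nat.card M := by
    have h1 := Subgroup.card_dvd_of_le hAM
    rw [hAc] at h1
    exact (dvd_pow_self p two_ne_zero).trans h1
  have hpβ : p ∉ beta M := fun h => hid h.2
  obtain ⟨-, -, htow⟩ := (h14 M hM).2.2.2.2 p hp hpM hpβ
  have hqidx : ¬ q ∣ (pPrimeCore p ↥M).index := fun h => by
    have := htow q hq h
    omega
  -- `K`, `Q`
  have hKn : (pPrimeCore p ↥M).Normal := Cfsg.Agent.Lib.Helper30.pPrimeCore_normal p ↥M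
  obtain ⟨K, hK⟩ : ∃ K : Subgroup G, K = (pPrimeCore p ↥M).map M.subtype := ⟨_, rfl⟩
  have hKM : K ≤ M := by
    rw [hK]; rintro x ⟨y, -, rfl⟩; exact y.2
  have hMK : M ≤ Subgroup.normalizer (K : Set G) := by
    rw [hK]; exact le_normalizer_map_subtype M (pPrimeCore p ↥M)
  have hKcop : (Nat.card K).Coprime p := by
    rw [hK, Cfsg.Agent.Lib.Helper30.card_map_subtype]
    exact Cfsg.Agent.Lib.Helper30.pPrimeCore_coprime p
  have hAK : A ≤ Subgroup.normalizer (K : Set G) := hAM.trans hMK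
  have hcop : (Nat.card A).Coprime (Nat.card K) := by
    rw [hAc]; exact (Nat.Coprime.pow_right 2 hKcop).symm
  obtain ⟨Q, hQ, hAQ⟩ := exists_invariant_sylow (q := q) A K hAK hcop hAsol
  have hQM : Q ∈ sylSet q M := by
    refine ⟨hQ.1.trans hKM, ?_⟩
    rw [hQ.2]
    congr 1
    have h1 : Nat.card M = Nat.card K * (pPrimeCore p ↥M).index := by
      rw [hK, Cfsg.Agent.Lib.Helper30.card_map_subtype]
      exact (Subgroup.card_mul_index _).symm
    rw [h1, Nat.factorization_mul Nat.card_pos.ne' (Subgroup.index_ne_zero_of_finite),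
      Finsupp.add_apply, Nat.factorization_eq_zero_of_not_dvd hqidx, add_zero]
  have hconjQ : ∀ X : Subgroup G, IsPGroup q X → X ≤ M → ∃ m ∈ M, cj m X ≤ Q := by
    intro X hX hXM
    obtain ⟨R, hR, hXR⟩ := exists_sylSet_ge hX hXM
    obtain ⟨m, hm, hcj⟩ := sylSet_conj hR hQM
    exact ⟨m, hm, hcj ▸ cj_mono m hXR⟩
  have hB₀Q : B₀ ≤ Q := by
    obtain ⟨m, hm, h⟩ := hconjQ B₀ hB₀p hB₀M
    rwa [cj_eq_self_iff.mpr (hMB₀ hm)] at h
  obtain ⟨m, hm, hBQ⟩ := hconjQ B' (Cfsg.Agent.Lib.Helper14.ea_isPGroup hB'e) hB'M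
  obtain ⟨B, hBdef⟩ : ∃ B : Subgroup G, B = cj m B' := ⟨_, rfl⟩
  rw [← hBdef] at hBQ
  have hBe : IsElementaryAbelian q B := by
    rw [hBdef]
    exact Cfsg.Agent.Lib.Helper14.ea_map _ hB'e
  have hBc : Nat.card B = q ^ 2 := by rw [hBdef, card_cj, hB'c]
  have hB₀B : B₀ ≤ B := by
    have h := cj_mono m hB₀B'
    rwa [cj_eq_self_iff.mpr (hMB₀ hm), ← hBdef] at h
  have hBM : B ≤ M := hBQ.trans hQM.1
  have hExcq : Exc M q B B₀ := exc_mk hG hM hq hqσ hBM hBe hBc hB₀B hB₀c hNB₀.le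
  obtain ⟨hQc, h2⟩ := hSyl M q B B₀ hExcq Q hQM
  obtain ⟨hΩ, -⟩ := h2 hBQ
  have hAB : A ≤ Subgroup.normalizer (B : Set G) := hAQ.trans (normalizer_le_of_omega hΩ hBQ)
  -- `[B, A] ≤ B₀`
  have hBK : B ≤ K := hBQ.trans hQ.1
  have hBAF : ⁅B, A⁆ ≤ fittingOf M :=
    (Subgroup.commutator_mono hBK le_rfl).trans (hFit M p A A₀ hE' K hKM hMK hKcop)
  have hBAB : ⁅B, A⁆ ≤ B := Cfsg.Agent.Lib.Helper72.HH.commutator_le_left_of_normalizer hAB
  have hBFB₀ : B ⊓ fittingOf M ≤ B₀ := by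
    intro y hy
    have hyq : y ^ q = 1 := hBe.2 y hy.1
    have ho : orderOf y ∣ q := orderOf_dvd_of_pow_eq_one hyq
    rcases (Nat.dvd_prime hq).mp ho with h1 | h1
    · rw [orderOf_eq_one_iff] at h1; rw [h1]; exact B₀.one_mem
    · have hyO : y ∈ pCoreOf q M :=
        mem_pCoreOf_of_mem_fittingOf q hy.2 (k := 1) (by rw [h1, pow_one])
      have hOcyc : IsCyclic ↥(pCoreOf q M) :=
        hCyc M q hM hq hqσ _ (pCoreOf_le q M) (le_normalizer_pCoreOf q M) (isPGroup_pCoreOf q M)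
      have hB₀O : B₀ ≤ pCoreOf q M := Cfsg.Agent.Lib.Helper32.Bn.le_pCoreOf hB₀M hMB₀ hB₀p
      have hWO : B₀ ⊔ Subgroup.zpowers y ≤ pCoreOf q M :=
        sup_le hB₀O (Subgroup.zpowers_le.mpr hyO)
      have hWB : B₀ ⊔ Subgroup.zpowers y ≤ B := sup_le hB₀B (Subgroup.zpowers_le.mpr hy.1)
      have hWc : Nat.card ↥(B₀ ⊔ Subgroup.zpowers y) = q :=
        Cfsg.Agent.Lib.Helper3.U95.card_eq_of_cyclic_exp (isCyclic_of_le hOcyc hWO)
          (fun v hv => hBe.2 v (hWB hv)) (fun h => hB₀bot (le_bot_iff.mp (h ▸ le_sup_left)))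
      have hWeq : B₀ = B₀ ⊔ Subgroup.zpowers y :=
        Subgroup.eq_of_le_of_card_ge le_sup_left (by rw [hWc, hB₀c])
      rw [hWeq]
      exact (le_sup_right : Subgroup.zpowers y ≤ B₀ ⊔ Subgroup.zpowers y) (Subgroup.mem_zpowers y)
  have hBAB₀ : ⁅B, A⁆ ≤ B₀ := (le_inf hBAB hBAF).trans hBFB₀
  -- `B₁`
  have hcopAB : (Nat.card A).Coprime (Nat.card B) := by
    rw [hBc]; exact Nat.Coprime.pow_right 2 hcopAq
  have h26 := Cfsg.Agent.S0026.result A B hAB hcopAB (Or.inl hAsol)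
  have hq1 := hq.one_lt
  have hqq : q < q ^ 2 := by nlinarith
  have hB₁bot : B ⊓ Subgroup.centralizer (A : Set G) ≠ ⊥ := by
    intro h
    rw [h, sup_bot_eq] at h26
    have h1 : B ≤ B₀ := h26 ▸ hBAB₀
    have h2 := Subgroup.card_le_of_le h1
    rw [hBc, hB₀c] at h2
    omega
  have hB₁ne : B ⊓ Subgroup.centralizer (A : Set G) ≠ B := by
    intro h
    exact hB₀A (hB₀B.trans (h ▸ inf_le_right))
  have hB₁c : Nat.card ↥(B ⊓ Subgroup.centralizer (A : Set G)) = q := by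
    rcases card_eq_or_eq_of_le hq hBc inf_le_left hB₁bot with h | h
    · exact h
    · exact absurd h hB₁ne
  have hdisj : B₀ ⊓ (B ⊓ Subgroup.centralizer (A : Set G)) = ⊥ := by
    by_contra hne
    obtain ⟨z, hz1⟩ := (Subgroup.ne_bot_iff_exists_ne_one).mp hne
    have hz' : (z : G) ∈ B₀ ⊓ (B ⊓ Subgroup.centralizer (A : Set G)) := z.2
    have hz1' : (z : G) ≠ 1 := fun h => hz1 (Subtype.ext h)
    have h1 : B₀ ≤ Subgroup.zpowers (z : G) :=
      Cfsg.Agent.Lib.Helper3.U95.le_zpowers_of_card_prime hB₀c hz'.1 hz1'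
    exact hB₀A (h1.trans ((Subgroup.zpowers_le.mpr hz'.2).trans inf_le_right))
  exact ⟨B, B₀, B ⊓ Subgroup.centralizer (A : Set G), hq, hqp, hqσ, hB₀M, hMB₀, hB₀c, hBM, hBe,
    hBc, hB₀B, inf_le_left, hB₁c, hdisj, hAB, inf_le_right, hB₀A⟩

end Cfsg.Agent.Lib.Helper3.BG11
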