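import Cfsg.Agent.Lib.Helper32.BG10Sigma
import Cfsg.Agent.Lib.Helper32.BG10P1

/-!
# B&G Section 12, second half (S1422 - S1426): interface (helper3)

The earlier rows used by the block, with `G` fixed, as `Prop`s.
-/

set_option autoImplicit false

open Cfsg Cfsg.Agent.Lib.Helper32 Cfsg.Agent.Lib.Helper32.BG10

namespace Cfsg.Agent.Lib.Helper3.BG12

universe u

variable (G : Type u) [Group G]

/-- S1412 -/
def H12 : Prop :=
  ∀ (p : ℕ) [Fact p.Prime] (P : Sylow p G), Cfsg.PRankLE p 2 (P : Subgroup G) →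
    IsMulCommutative (P : Subgroup G) ∨ ∃ P₁ P₂ : Subgroup G, P₁ ⊔ P₂ = (P : Subgroup G) ∧ (∀ a ∈ P₁, ∀ b ∈ P₂, a * b = b * a) ∧
        ¬ IsMulCommutative P₁ ∧ Nat.card P₁ = p ^ 3 ∧ Monoid.exponent P₁ = p ∧ IsCyclic P₂ ∧
        Subgroup.closure {x : G | x ∈ P₂ ∧ x ^ p = 1} = P₁ ⊓ Subgroup.centralizer (P₁ : Set G)

/-- S1414 -/
def H14 : Prop :=
  ∀ (M : Subgroup G), IsCoatom M →
    Cfsg.IsPiHallOf (Cfsg.beta M) (Cfsg.piCoreOf (Cfsg.beta M) M) M ∧ Cfsg.IsPiHall (Cfsg.beta M) (Cfsg.piCoreOf (Cfsg.beta M) M) ∧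
      (∃ H : Subgroup G, Cfsg.IsPiHallOf {q | q.Prime ∧ q ∉ Cfsg.beta M} H ⁅M, M⁆ ∧ Group.IsNilpotent H) ∧
      (∃ H : Subgroup G, Cfsg.IsPiHallOf {q | q.Prime ∧ q ∉ Cfsg.beta M} H (Cfsg.sigmaCore M) ∧ Group.IsNilpotent H) ∧
      ∀ p : ℕ, p.Prime → p ∣ Nat.card M → p ∉ Cfsg.beta M →
        Cfsg.HasNormalPComplement p ↥⁅M, M⁆ ∧ Cfsg.HasNormalPComplement p ↥(Cfsg.sigmaCore M) ∧
        ∀ q : ℕ, q.Prime → q ∣ (Cfsg.pPrimeCore p ↥M).index → q ≤ p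

/-- S1416 -/
def H16 : Prop :=
  ∀ (M : Subgroup G), IsCoatom M → ∀ (p : ℕ) [Fact p.Prime] (A : Subgroup G), (A ≤ M ∧ Cfsg.IsElementaryAbelian p A ∧ Nat.card A = p ^ 2) →
    Subgroup.centralizer (A : Set G) ≤ M ∧
      ((∀ A₀ : Subgroup G, A₀ ≤ A → Nat.card A₀ = p →
          ¬ (Subgroup.normalizer (A₀ : Set G) ≤ M ∧ ∀ L : Subgroup G, IsCoatom L → Subgroup.normalizer (A₀ : Set G) ≤ L → L = M)) →
        p ∈ Cfsg.sigma M ∧ Cfsg.alphaCore M = ⊥ ∧ Group.IsNilpotent (Cfsg.sigmaCore M))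

/-- S1417 -/
def H17 : Prop :=
  ∀ (M : Subgroup G), IsCoatom M → ∀ (p : ℕ) [Fact p.Prime], p ∈ Cfsg.tau2 M → ∀ (A : Subgroup G), (A ≤ M ∧ Cfsg.IsElementaryAbelian p A ∧ Nat.card A = p ^ 2) →
    Group.IsNilpotent (Cfsg.sigmaCore M) ∧
      (∀ P : Sylow p M, IsMulCommutative (P : Subgroup M) ∧
        (A ≤ (P : Subgroup M).map M.subtype →
          (∀ x ∈ (P : Subgroup M).map M.subtype, x ^ p = 1 ↔ x ∈ A) ∧
          ¬ Subgroup.normalizer ((((P : Subgroup M).map M.subtype : Subgroup G)) : Set G) ≤ M)) ∧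
      M ≤ Subgroup.normalizer ((Cfsg.sigmaCore M ⊔ A : Subgroup G) : Set G) ∧
      Cfsg.sigmaCore M ⊓ Subgroup.centralizer (A : Set G) = ⊥ ∧
      (∀ Mstar : Subgroup G, IsCoatom Mstar → Mstar ≠ M → A ≤ Mstar → Cfsg.sigmaCore M ⊓ Mstar = ⊥) ∧
      ∃ A₁ : Subgroup G, A₁ ≤ A ∧ Nat.card A₁ = p ∧ Cfsg.sigmaCore M ⊓ Subgroup.centralizer (A₁ : Set G) = ⊥

/-- S1418 -/
def H18 : Prop :=
  ∀ (M : Subgroup G), IsCoatom M → ∀ (E : Subgroup G), Cfsg.IsComplIn E (Cfsg.sigmaCore M) M → ∀ (p : ℕ) [Fact p.Prime], p ∈ Cfsg.tau2 M → ∀ (A : Subgroup G), (A ≤ E ∧ Cfsg.IsElementaryAbelian p A ∧ Nat.card A = p ^ 2) →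
    (E ≤ Subgroup.normalizer (A : Set G) ∧ ∀ X : Subgroup G, X ≤ E → Nat.card X = p → X ≤ A) ∧
      (Subgroup.centralizer (A : Set G) ≤ M ⊓ Subgroup.normalizer (A : Set G) ∧ M ⊓ Subgroup.normalizer (A : Set G) = E ∧
        ¬ Subgroup.normalizer (A : Set G) ≤ M) ∧
      ∀ X : Subgroup G, X ≤ A → Nat.card X = p → Cfsg.sigmaCore M ⊓ Subgroup.centralizer (X : Set G) ≠ ⊥ → (Subgroup.centralizer (X : Set G) ≤ M ∧ ∀ L : Subgroup G, IsCoatom L → Subgroup.centralizer (X : Set G) ≤ L → L = M)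

/-- S1420 -/
def H20 : Prop :=
  ∀ (M : Subgroup G), IsCoatom M → ∀ (E : Subgroup G), Cfsg.IsComplIn E (Cfsg.sigmaCore M) M →
    (∀ N : Subgroup G, N ≤ M → Group.IsNilpotent N → (∀ p : ℕ, p.Prime → p ∣ Nat.card N → p ∉ Cfsg.sigma M) → IsMulCommutative N) ∧
      IsMulCommutative ↥⁅E, E⁆ ∧
      (∀ (p : ℕ) (P : Subgroup G), p ∈ Cfsg.sigma M → IsPGroup p P → P ≤ M → ¬ IsCyclic P → Subgroup.normalizer (P : Set G) ≤ M) ∧
      ∀ x ∈ M, x ≠ 1 → (∀ p : ℕ, p.Prime → p ∣ orderOf x → p ∈ Cfsg.tau2 M) → x ∈ Cfsg.sigmaHat M →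
        Subgroup.centralizer ({x} : Set G) ≤ M ∧ ∀ L : Subgroup G, IsCoatom L → Subgroup.centralizer ({x} : Set G) ≤ L → L = M

/-! ### Derived forms -/

/-- S1420, first part (B&G 12.10(a)): nilpotent `σ(M)'`-subgroups of `M` are abelian -/
def NilAb : Prop :=
  ∀ (M : Subgroup G), IsCoatom M → ∀ N : Subgroup G, N ≤ M → Group.IsNilpotent N →
    (∀ p : ℕ, p.Prime → p ∣ Nat.card N → p ∉ Cfsg.sigma M) → IsMulCommutative N

/-- S1420, third part (B&G 12.10(d)): normalizers of noncyclic `p`-subgroups, `p ∈ σ(M)` -/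
def NormNC : Prop :=
  ∀ (M : Subgroup G), IsCoatom M → ∀ (p : ℕ) (P : Subgroup G), p ∈ Cfsg.sigma M → IsPGroup p P →
    P ≤ M → ¬ IsCyclic P → Subgroup.normalizer (P : Set G) ≤ M

/-- existence of a complement of `M_σ` in `M` -/
def ExCompl : Prop :=
  ∀ (M : Subgroup G), IsCoatom M → ∃ E : Subgroup G, Cfsg.IsComplIn E (Cfsg.sigmaCore M) M

variable {G}

theorem nilAb_of (hc : ExCompl G) (h20 : H20 G) : NilAb G := by
  intro M hM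
  obtain ⟨E, hE⟩ := hc M hM
  exact (h20 M hM E hE).1

theorem normNC_of (hc : ExCompl G) (h20 : H20 G) : NormNC G := by
  intro M hM
  obtain ⟨E, hE⟩ := hc M hM
  exact (h20 M hM E hE).2.2.1

end Cfsg.Agent.Lib.Helper3.BG12
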