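import Cfsg.Agent.Lib.Helper3.BG12Defs

/-!
# B&G Section 12, second half: the rows S1422, S1423 as `Prop`s (helper3)
-/

set_option autoImplicit false

open Cfsg Cfsg.Agent.Lib.Helper32 Cfsg.Agent.Lib.Helper32.BG10

namespace Cfsg.Agent.Lib.Helper3.BG12

universe u

variable (G : Type u) [Group G]

/-- S1422 -/
def H22 : Prop :=
  ∀ (p : ℕ) [Fact p.Prime] (P : Subgroup G), IsPGroup p P → ¬ IsMulCommutative P →
    Cfsg.InUniqueMaximal P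

/-- S1423 -/
def H23 : Prop :=
  ∀ (M : Subgroup G), IsCoatom M → ∀ (p : ℕ) [Fact p.Prime], p ∈ Cfsg.sigma M → ∀ (X : Subgroup G), X ≤ M → Nat.card X = p →
    ∀ (P : Sylow p ↥(Cfsg.sigmaCore M)), (p ∈ Cfsg.beta M ∨ X ≤ ⁅Cfsg.sigmaCore M, Cfsg.sigmaCore M⁆) →
    (Subgroup.centralizer (X : Set G) ≤ M ∧ ∀ L : Subgroup G, IsCoatom L → Subgroup.centralizer (X : Set G) ≤ L → L = M) ∧ Cfsg.InUniqueMaximal ((P : Subgroup ↥(Cfsg.sigmaCore M)).map (Cfsg.sigmaCore M).subtype) ∧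
      (P : Subgroup ↥(Cfsg.sigmaCore M)).map (Cfsg.sigmaCore M).subtype ≤ M

end Cfsg.Agent.Lib.Helper3.BG12
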