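import Cfsg.Agent.Lib.Helper3.BG12Pieces

set_option autoImplicit false

open Cfsg Cfsg.Agent.Lib.Helper32 Cfsg.Agent.Lib.Helper32.BG10 Cfsg.Agent.Lib.Helper3.BG12 Cfsg.Agent.Lib.Helper3.BG12S

namespace Cfsg.Agent.Lib.Helper3.BG12G

universe u

variable {G : Type u} [Group G] [Finite G]

omit [Finite G] in
theorem pelt_centralizes (h17 : H17 G) {M : Subgroup G} (hM : IsCoatom M) {E : Subgroup G}
    (hEM : E ≤ M) {p : ℕ} [Fact p.Prime] (hp : p ∈ tau2 M) {A : Subgroup G}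
    (hA : A ≤ E ∧ IsElementaryAbelian p A ∧ Nat.card A = p ^ 2)
    (hEA : E ≤ Subgroup.normalizer (A : Set G)) {y : G} (hy : y ∈ E)
    (hyp : IsPGroup p (Subgroup.zpowers y)) : y ∈ Subgroup.centralizer (A : Set G) := by
  have hAM : A ≤ M := hA.1.trans hEM
  have hAp : IsPGroup p A := by
    intro g
    refine ⟨1, ?_⟩
    rw [pow_one]
    apply Subtype.ext
    exact hA.2.1.2 g.1 g.2
  have hyN : Subgroup.zpowers y ≤ Subgroup.normalizer (A : Set G) :=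
    (Subgroup.zpowers_le.mpr hy).trans hEA
  have hsup : IsPGroup p ↥(Subgroup.zpowers y ⊔ A) :=
    IsPGroup.to_sup_of_normal_right' hyp hAp hyN
  have hsupM : Subgroup.zpowers y ⊔ A ≤ M :=
    sup_le ((Subgroup.zpowers_le.mpr hy).trans hEM) hAM
  have hsub : IsPGroup p ↥((Subgroup.zpowers y ⊔ A).subgroupOf M) :=
    hsup.comap_subtype
  obtain ⟨P, hP⟩ := hsub.exists_le_sylow
  have hcomm := ((h17 M hM p hp A ⟨hAM, hA.2.1, hA.2.2⟩).2.1 P).1
  rw [Subgroup.mem_centralizer_iff]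
  intro a ha
  have hyM : y ∈ M := hEM hy
  have haM : a ∈ M := hAM ha
  have hyP : (⟨y, hyM⟩ : ↥M) ∈ (P : Subgroup ↥M) := by
    apply hP
    rw [Subgroup.mem_subgroupOf]
    exact Subgroup.mem_sup_left (Subgroup.mem_zpowers y)
  have haP : (⟨a, haM⟩ : ↥M) ∈ (P : Subgroup ↥M) := by
    apply hP
    rw [Subgroup.mem_subgroupOf]
    exact Subgroup.mem_sup_right ha
  have h1 := hcomm.is_comm.comm ⟨⟨a, haM⟩, haP⟩ ⟨⟨y, hyM⟩, hyP⟩
  have h2 := congrArg (fun z : ↥(P : Subgroup ↥M) => ((z : ↥M) : G)) h1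
  exact h2

end Cfsg.Agent.Lib.Helper3.BG12G
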