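import Cfsg.Agent.Lib.Helper3.BG12b
import Cfsg.Agent.Lib.Helper3.BG10b

/-!
# B&G Lemma 12.13 (S1422) modulo earlier rows (helper3)
-/

set_option autoImplicit false

open Cfsg Cfsg.Agent.Lib.Helper32 Cfsg.Agent.Lib.Helper32.BG10
open Cfsg.Agent.Lib.Helper3.BG12S

namespace Cfsg.Agent.Lib.Helper3.BG12

universe u

variable {G : Type u} [Group G] [Finite G]

/-- Frattini argument in subgroup form -/
theorem frattini_sub {p : ℕ} [Fact p.Prime] {N M R : Subgroup G} (hNM : N ≤ M)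
    (hn : M ≤ Subgroup.normalizer (N : Set G)) (hR : R ∈ sylSet p N) :
    M ≤ N ⊔ (M ⊓ Subgroup.normalizer (R : Set G)) := by
  intro m hm
  have h1 : cj m R ∈ sylSet p N := cj_mem_sylSet (hn hm) hR
  obtain ⟨t, ht, htR⟩ := sylSet_conj h1 hR
  rw [← cj_mul] at htR
  have h2 : t * m ∈ Subgroup.normalizer (R : Set G) := cj_eq_self_iff.mp htR
  have h3 : t⁻¹ ∈ N := N.inv_mem ht
  have h4 : m = t⁻¹ * (t * m) := by group
  rw [h4]
  exact Subgroup.mul_mem_sup h3 ⟨M.mul_mem (hNM ht) hm, h2⟩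

/-- `U` normalizer lies in `X` and in no other maximal subgroup -/
def Good (X U : Subgroup G) : Prop :=
  Subgroup.normalizer (U : Set G) ≤ X ∧
    ∀ L : Subgroup G, IsCoatom L → Subgroup.normalizer (U : Set G) ≤ L → L = X

omit [Finite G] in
theorem good_cj {X U : Subgroup G} (h : Good X U) {x : G} (hx : x ∈ X) : Good X (cj x U) := by
  refine ⟨?_, ?_⟩
  · intro y hy
    rw [mem_normalizer_cj] at hy
    have h1 := h.1 hy
    have h2 : y = x * (x⁻¹ * y * x) * x⁻¹ := by group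
    rw [h2]
    exact X.mul_mem (X.mul_mem hx h1) (X.inv_mem hx)
  · intro L hL hle
    have h1 : Subgroup.normalizer (U : Set G) ≤ cj x⁻¹ L := by
      intro w hw
      rw [mem_cj]
      apply hle
      rw [mem_normalizer_cj]
      have h2 : x⁻¹ * (x⁻¹⁻¹ * w * x⁻¹) * x = w := by group
      rw [h2]
      exact hw
    have h3 := h.2 (cj x⁻¹ L) (isCoatom_cj x⁻¹ hL) h1
    have h4 : L = cj x X := by rw [← h3, cj_cj_inv]
    rw [h4]
    exact cj_eq_self_iff.mpr (Subgroup.le_normalizer hx)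

omit [Finite G] in
theorem isMulCommutative_of_le {A B : Subgroup G} (h : A ≤ B) (hB : IsMulCommutative B) :
    IsMulCommutative A := by
  refine ⟨⟨fun a b => ?_⟩⟩
  have h1 := hB.is_comm.comm ⟨a.1, h a.2⟩ ⟨b.1, h b.2⟩
  have h2 : (a : G) * (b : G) = (b : G) * (a : G) := congrArg Subtype.val h1
  exact Subtype.ext h2

/-- the normal `p`-complement of `X_σ` and the Frattini factorisation, for `p ∈ σ(X)` of rank ≤ 2 -/
theorem side_lemma (hG : IsMinSimpleOddOrder G) (h14 : H14 G) {X : Subgroup G} (hX : IsCoatom X)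
    {p : ℕ} [Fact p.Prime] (hp : p ∈ sigma X) {R : Subgroup G} (hR : R ∈ sylSet p X)
    (hr : PRankLE p 2 ↥R) :
    ∃ K : Subgroup G, (Nat.card K).Coprime p ∧ X ≤ Subgroup.normalizer (K : Set G) ∧
      X ≤ K ⊔ Subgroup.normalizer (R : Set G) := by
  have hβ : p ∉ beta X := fun hb => hb.1.2 (prankLE_of_sylSet hR 2 hr)
  obtain ⟨-, hnpc, -⟩ := (h14 X hX).2.2.2.2 p hp.1 hp.2.1 hβ
  obtain ⟨K, hKN, hcop, hKn, hKR⟩ := exists_npc_sub hnpc
  have hRσ : R ∈ sylSet p (sigmaCore X) := (sylSet_sigmaCore_iff hG hX hp).mpr hR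
  refine ⟨K, hcop, (sigmaCore_normalizer X).trans hKn, ?_⟩
  have h1 := frattini_sub (sigmaCore_le X) (sigmaCore_normalizer X) hRσ
  refine h1.trans ?_
  rw [← (hKR R hRσ).1]
  exact sup_le (sup_le le_sup_left (Subgroup.le_normalizer.trans le_sup_right))
    (inf_le_right.trans le_sup_right)

/-- from S1416: some subgroup of order `p` of `A` is good for `X` -/
theorem exists_good (hG : IsMinSimpleOddOrder G) (h16 : H16 G) {X Y : Subgroup G}
    (hX : IsCoatom X) (hY : IsCoatom Y) (hXY : X ≠ Y) {p : ℕ} [Fact p.Prime] (hp : p ∈ sigma X)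
    {R : Subgroup G} (hR : R ∈ sylSet p X) (hNY : Subgroup.normalizer (R : Set G) ≤ Y)
    {A : Subgroup G} (hAR : A ≤ R) (hAe : IsElementaryAbelian p A) (hAc : Nat.card A = p ^ 2) :
    ∃ A₀ : Subgroup G, A₀ ≤ A ∧ Nat.card A₀ = p ∧ Good X A₀ := by
  by_contra hno
  push Not at hno
  obtain ⟨-, h2⟩ := h16 X hX p A ⟨hAR.trans hR.1, hAe, hAc⟩
  obtain ⟨-, -, hnil⟩ := h2 (fun A₀ hA₀ hc hg => hno A₀ hA₀ hc hg)
  have hRσ : R ∈ sylSet p (sigmaCore X) := (sylSet_sigmaCore_iff hG hX hp).mpr hR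
  have h3 : X ≤ Y := (sigmaCore_normalizer X).trans ((normalizer_le_of_nilpotent hnil hRσ).trans hNY)
  rcases hX.le_iff.mp h3 with h | h
  · exact hY.1 h
  · exact hXY h.symm

/-- B&G Lemma 12.13 -/
theorem bg12_13 (hG : IsMinSimpleOddOrder G) (hna : NilAb G) (hnc : NormNC G) (h12 : H12 G)
    (h14 : H14 G) (h16 : H16 G) (p : ℕ) [Fact p.Prime] (P : Subgroup G) (hP : IsPGroup p P)
    (hPna : ¬ IsMulCommutative P) : Cfsg.InUniqueMaximal P := by
  have hpP : p.Prime := Fact.out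
  have hPtop : P ≠ ⊤ := minSimple_pgroup_ne_top hG hP
  obtain ⟨M, hM, hPM⟩ := exists_coatom_ge hPtop
  refine ⟨M, ⟨hM, hPM⟩, ?_⟩
  rintro H ⟨hH, hPH⟩
  by_contra hne
  have hσ : ∀ L : Subgroup G, IsCoatom L → P ≤ L → p ∈ sigma L := by
    intro L hL hPL
    by_contra h
    apply hPna
    refine hna L hL P hPL hP.isNilpotent ?_
    intro q hq hqd
    obtain ⟨k, hk⟩ := IsPGroup.iff_card.mp hP
    rw [hk] at hqd
    have : q = p := (Nat.prime_dvd_prime_iff_eq hq hpP).mp (hq.dvd_of_dvd_pow hqd)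
    rw [this]; exact h
  have hσM := hσ M hM hPM
  have hσH := hσ H hH hPH
  obtain ⟨R, hR, hPR⟩ := exists_sylSet_ge hP (le_inf hPM hPH)
  have hRp : IsPGroup p R := isPGroup_of_mem_sylSet hR
  have hRM : R ≤ M := hR.1.trans inf_le_left
  have hRH : R ≤ H := hR.1.trans inf_le_right
  have hRnc : ¬ IsCyclic R := by
    intro hc
    haveI : IsCyclic ↥R := hc
    haveI : IsCyclic ↥P := Subgroup.isCyclic_of_le hPR
    exact hPna inferInstance
  have hNM : Subgroup.normalizer (R : Set G) ≤ M := hnc M hM p R hσM hRp hRM hRnc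
  have hNH : Subgroup.normalizer (R : Set G) ≤ H := hnc H hH p R hσH hRp hRH hRnc
  have hRtop : R ∈ sylSet p ⊤ := by
    obtain ⟨Q, hQ, hRQ⟩ := exists_sylSet_ge hRp (le_top : R ≤ ⊤)
    have hQp : IsPGroup p Q := isPGroup_of_mem_sylSet hQ
    have h2 : Q ⊓ Subgroup.normalizer (R : Set G) = R :=
      sylSet_eq_of_le hR (hQp.to_le inf_le_left)
        (le_inf (inf_le_right.trans hNM) (inf_le_right.trans hNH))
        (le_inf hRQ Subgroup.le_normalizer)
    have h4 : Q = R := eq_of_inf_normalizer_le hQp hRQ h2.le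
    rw [← h4]; exact hQ
  have hRsM : R ∈ sylSet p M := mem_sylSet_of_normalizer_le hRtop le_top hRM
  have hRsH : R ∈ sylSet p H := mem_sylSet_of_normalizer_le hRtop le_top hRH
  by_cases hr : PRankLE p 2 ↥R
  swap
  · exact hne (Cfsg.Agent.Lib.Helper3.BG10.uniqIn_of_rank3 hG hM hRM hr H hH hRH)
  have hcard : Nat.card R = p ^ (Nat.card G).factorization p := by
    have := hRtop.2; rwa [Subgroup.card_top] at this
  obtain ⟨Ps, hPs⟩ : ∃ Ps : Sylow p G, (Ps : Subgroup G) = R :=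
    ⟨Sylow.ofCard R hcard, Sylow.coe_ofCard R hcard⟩
  rcases h12 p Ps (hPs ▸ hr) with hcomm | ⟨P₁, P₂, hsup, hcomm, hnc₁, hc₁, hexp, hcyc₂, hcl⟩
  · exact hPna (isMulCommutative_of_le (hPs ▸ hPR) hcomm)
  rw [hPs] at hsup
  obtain ⟨hZ, hA, hU, hconj⟩ := cprod_structure hcomm hnc₁ hc₁ hexp hcyc₂ hcl
  have hP₁R : P₁ ≤ R := hsup ▸ le_sup_left
  obtain ⟨KM, hKMcop, hKMn, hKMf⟩ := side_lemma hG h14 hM hσM hRsM hr
  obtain ⟨KH, hKHcop, hKHn, hKHf⟩ := side_lemma hG h14 hH hσH hRsH hr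
  -- the key step, symmetric in the two maximal subgroups
  have step : ∀ (X Y : Subgroup G), IsCoatom X → IsCoatom Y → X ≠ Y → p ∈ sigma X →
      R ∈ sylSet p X → Subgroup.normalizer (R : Set G) ≤ Y →
      ¬ Good X (P₁ ⊓ Subgroup.centralizer (P₁ : Set G)) →
      ∀ U : Subgroup G, U ≤ P₁ → Nat.card U = p →
        U ≠ P₁ ⊓ Subgroup.centralizer (P₁ : Set G) → Good X U := by
    intro X Y hX hY hXY hpX hRX hNY hnZ U hUP hUc hUZ
    obtain ⟨hAe, hAc⟩ := hU U hUP hUc hUZ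
    have hAP : (P₁ ⊓ Subgroup.centralizer (P₁ : Set G)) ⊔ U ≤ P₁ := sup_le inf_le_left hUP
    obtain ⟨A₀, hA₀A, hA₀c, hA₀g⟩ := exists_good hG h16 hX hY hXY hpX hRX hNY
      (hAP.trans hP₁R) hAe hAc
    by_cases hA₀Z : A₀ = P₁ ⊓ Subgroup.centralizer (P₁ : Set G)
    · exact absurd (hA₀Z ▸ hA₀g) hnZ
    · obtain ⟨x, hx, hxU⟩ := hconj _ A₀ U hAP hAe hAc hA₀A le_sup_right hA₀c hUc hA₀Z hUZ
      rw [← hxU]
      exact good_cj hA₀g (hRX.1 (hP₁R hx))
  by_cases hgZ : Good M (P₁ ⊓ Subgroup.centralizer (P₁ : Set G))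
  · have hnZ : ¬ Good H (P₁ ⊓ Subgroup.centralizer (P₁ : Set G)) := fun h => hne (hgZ.2 H hH h.1)
    have claim := step H M hH hM hne hσH hRsH hNM hnZ
    have hK : KM ≤ H := le_of_cent_noncentral_le hc₁ hnc₁ hexp (hP₁R.trans (hRM.trans hKMn))
      hKMcop (fun U hU hUc hUZ => inf_le_right.trans
        ((Subgroup.centralizer_le_normalizer _).trans (claim U hU hUc hUZ).1))
    have h3 : M ≤ H := hKMf.trans (sup_le hK hNH)
    rcases hM.le_iff.mp h3 with h | h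
    · exact hH.1 h
    · exact hne h
  · have claim := step M H hM hH (Ne.symm hne) hσM hRsM hNH hgZ
    have hK : KH ≤ M := le_of_cent_noncentral_le hc₁ hnc₁ hexp (hP₁R.trans (hRH.trans hKHn))
      hKHcop (fun U hU hUc hUZ => inf_le_right.trans
        ((Subgroup.centralizer_le_normalizer _).trans (claim U hU hUc hUZ).1))
    have h3 : H ≤ M := hKHf.trans (sup_le hK hNM)
    rcases hH.le_iff.mp h3 with h | h
    · exact hM.1 h
    · exact hne h.symm

end Cfsg.Agent.Lib.Helper3.BG12
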