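import Cfsg.Agent.Lib.Helper3.BG12c

/-!
# B&G Corollary 12.14 (S1423) modulo earlier rows (helper3)
-/

set_option autoImplicit false

open Cfsg Cfsg.Agent.Lib.Helper32 Cfsg.Agent.Lib.Helper32.BG10
open Cfsg.Agent.Lib.Helper3.BG12S

namespace Cfsg.Agent.Lib.Helper3.BG12

universe u

variable {G : Type u} [Group G] [Finite G]

/-- `C_G(X) ≤ M` and `M` is the only maximal subgroup over `C_G(X)` -/
def CentGood (M X : Subgroup G) : Prop :=
  Subgroup.centralizer (X : Set G) ≤ M ∧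
    ∀ L : Subgroup G, IsCoatom L → Subgroup.centralizer (X : Set G) ≤ L → L = M

omit [Finite G] in
theorem centGood_of_cj {M X : Subgroup G} {m : G} (hm : m ∈ M) (h : CentGood M (cj m X)) :
    CentGood M X := by
  have key : ∀ c ∈ Subgroup.centralizer (X : Set G),
      m * c * m⁻¹ ∈ Subgroup.centralizer ((cj m X : Subgroup G) : Set G) := by
    intro c hc
    rw [Subgroup.mem_centralizer_iff]
    intro y hy
    have hy' : m⁻¹ * y * m ∈ X := mem_cj.mp hy
    have h1 := (Subgroup.mem_centralizer_iff.mp hc) _ hy'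
    have h2 : y * (m * c * m⁻¹) = m * ((m⁻¹ * y * m) * c) * m⁻¹ := by group
    have h3 : m * c * m⁻¹ * y = m * (c * (m⁻¹ * y * m)) * m⁻¹ := by group
    rw [h2, h3, h1]
  refine ⟨?_, ?_⟩
  · intro c hc
    have h1 := h.1 (key c hc)
    have h2 : c = m⁻¹ * (m * c * m⁻¹) * m := by group
    rw [h2]
    exact M.mul_mem (M.mul_mem (M.inv_mem hm) h1) hm
  · intro L hL hle
    have h1 : Subgroup.centralizer ((cj m X : Subgroup G) : Set G) ≤ cj m L := by
      intro c' hc'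
      rw [mem_cj]
      apply hle
      rw [Subgroup.mem_centralizer_iff]
      intro x hx
      have hx' : m * x * m⁻¹ ∈ cj m X := by
        rw [mem_cj]
        have : m⁻¹ * (m * x * m⁻¹) * m = x := by group
        rw [this]; exact hx
      have h2 := (Subgroup.mem_centralizer_iff.mp hc') _ hx'
      have h3 : x * (m⁻¹ * c' * m) = m⁻¹ * ((m * x * m⁻¹) * c') * m := by group
      have h4 : m⁻¹ * c' * m * x = m⁻¹ * (c' * (m * x * m⁻¹)) * m := by group
      rw [h3, h4, h2]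
    have h3 := h.2 (cj m L) (isCoatom_cj m hL) h1
    have h4 : L = cj m⁻¹ M := by rw [← h3, cj_inv_cj]
    rw [h4]
    exact cj_eq_self_iff.mpr (Subgroup.le_normalizer (M.inv_mem hm))

theorem centGood_of_le_uniq (hG : IsMinSimpleOddOrder G) {M Q X : Subgroup G} (hu : UniqIn M Q)
    (hQ : Q ≤ Subgroup.centralizer (X : Set G)) (hX1 : X ≠ ⊥) (hXtop : X ≠ ⊤) : CentGood M X := by
  have hC : Subgroup.centralizer (X : Set G) ≠ ⊤ := by
    intro h
    have h2 := minSimple_normalizer_ne_top hG hX1 hXtop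
    exact h2 (top_le_iff.mp (h ▸ Subgroup.centralizer_le_normalizer (X : Set G)))
  obtain ⟨L₀, hL₀, hCL₀⟩ := exists_coatom_ge hC
  have h1 : L₀ = M := hu L₀ hL₀ (hQ.trans hCL₀)
  exact ⟨h1 ▸ hCL₀, fun L hL hCL => hu L hL (hQ.trans hCL)⟩

/-- B&G Corollary 12.14 -/
theorem bg12_14 (hG : IsMinSimpleOddOrder G) (h12 : H12 G) (h14 : H14 G) (h22 : H22 G)
    (M : Subgroup G) (hM : IsCoatom M) (p : ℕ) [Fact p.Prime] (hp : p ∈ Cfsg.sigma M) (X : Subgroup G) (hXM : X ≤ M) (hX : Nat.card X = p)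
    (P : Sylow p ↥(Cfsg.sigmaCore M)) (h : p ∈ Cfsg.beta M ∨ X ≤ ⁅Cfsg.sigmaCore M, Cfsg.sigmaCore M⁆) :
    (Subgroup.centralizer (X : Set G) ≤ M ∧ ∀ L : Subgroup G, IsCoatom L → Subgroup.centralizer (X : Set G) ≤ L → L = M) ∧ Cfsg.InUniqueMaximal ((P : Subgroup ↥(Cfsg.sigmaCore M)).map (Cfsg.sigmaCore M).subtype) ∧
      (P : Subgroup ↥(Cfsg.sigmaCore M)).map (Cfsg.sigmaCore M).subtype ≤ M := by
  have hpP : p.Prime := Fact.out
  obtain ⟨R, hRdef⟩ : ∃ R : Subgroup G, R = (P : Subgroup ↥(sigmaCore M)).map (sigmaCore M).subtype :=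
    ⟨_, rfl⟩
  rw [← hRdef]
  have hRσ : R ∈ sylSet p (sigmaCore M) := hRdef ▸ mem_sylSet_of_sylow P
  have hRsM : R ∈ sylSet p M := (sylSet_sigmaCore_iff hG hM hp).mp hRσ
  have hRM : R ≤ M := hRsM.1
  have hRtop : R ∈ sylSet p ⊤ := (sigma_sylSet hp hRsM).2
  have hRp : IsPGroup p R := isPGroup_of_mem_sylSet hRsM
  have hXp : IsPGroup p X := IsPGroup.of_card (n := 1) (by rw [hX, pow_one])
  have hX1 : X ≠ ⊥ := by
    rintro rfl
    rw [Subgroup.card_bot] at hX
    exact hpP.one_lt.ne hX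
  -- conjugate `X` into `R`
  obtain ⟨R', hR', hXR'⟩ := exists_sylSet_ge hXp hXM
  obtain ⟨m, hm, hmR⟩ := sylSet_conj hR' hRsM
  obtain ⟨X', hX'def⟩ : ∃ X' : Subgroup G, X' = cj m X := ⟨_, rfl⟩
  have hX'R : X' ≤ R := by rw [hX'def, ← hmR]; exact cj_mono m hXR'
  have hX'c : Nat.card X' = p := by rw [hX'def, card_cj]; exact hX
  have hX'p : IsPGroup p X' := IsPGroup.of_card (n := 1) (by rw [hX'c, pow_one])
  have hX'1 : X' ≠ ⊥ := by
    rintro h0
    rw [h0, Subgroup.card_bot] at hX'c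
    exact hpP.one_lt.ne hX'c
  have hX'top : X' ≠ ⊤ := minSimple_pgroup_ne_top hG hX'p
  have hNn := sigmaCore_normalizer M
  have hX'der : X ≤ ⁅sigmaCore M, sigmaCore M⁆ → X' ≤ ⁅sigmaCore M, sigmaCore M⁆ := by
    intro hx
    have h1 : cj m X ≤ cj m ⁅sigmaCore M, sigmaCore M⁆ := cj_mono m hx
    have h2 : cj m ⁅sigmaCore M, sigmaCore M⁆ = ⁅cj m (sigmaCore M), cj m (sigmaCore M)⁆ :=
      Subgroup.map_commutator _ _ _
    rw [h2, cj_eq_self_iff.mpr (hNn hm)] at h1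
    rw [hX'def]; exact h1
  have hder : p ∉ beta M → X ≤ ⁅sigmaCore M, sigmaCore M⁆ → X' ≤ ⁅R, R⁆ := by
    intro hβ hx
    obtain ⟨-, hnpc, -⟩ := (h14 M hM).2.2.2.2 p hpP hp.2.1 hβ
    obtain ⟨K, -, -, -, hKR⟩ := exists_npc_sub hnpc
    exact (le_inf hX'R (hX'der hx)).trans (hKR R hRσ).2
  suffices hcore : CentGood M X' ∧ Cfsg.InUniqueMaximal R from
    ⟨centGood_of_cj hm (hX'def ▸ hcore.1), hcore.2, hRM⟩
  by_cases hr : PRankLE p 2 ↥R
  · -- rank at most two
    have hβ : p ∉ beta M := fun hb => hb.1.2 (prankLE_of_sylSet hRsM 2 hr)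
    have hx : X ≤ ⁅sigmaCore M, sigmaCore M⁆ := h.resolve_left hβ
    have hX'RR := hder hβ hx
    have hRna : ¬ IsMulCommutative R := by
      intro hc
      have h0 : ⁅R, R⁆ = ⊥ := by
        rw [Subgroup.commutator_eq_bot_iff_le_centralizer]
        intro a ha
        rw [Subgroup.mem_centralizer_iff]
        intro b hb
        have h1 := hc.is_comm.comm ⟨b, hb⟩ ⟨a, ha⟩
        exact congrArg Subtype.val h1
      exact hX'1 (le_bot_iff.mp (h0 ▸ hX'RR))
    have huR : Cfsg.InUniqueMaximal R := h22 p R hRp hRna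
    have huR' : UniqIn M R := by
      obtain ⟨L, -, hLu⟩ := huR
      intro H hH hRH
      exact (hLu H ⟨hH, hRH⟩).trans (hLu M ⟨hM, hRM⟩).symm
    have hcard : Nat.card R = p ^ (Nat.card G).factorization p := by
      have := hRtop.2; rwa [Subgroup.card_top] at this
    obtain ⟨Ps, hPs⟩ : ∃ Ps : Sylow p G, (Ps : Subgroup G) = R :=
      ⟨Sylow.ofCard R hcard, Sylow.coe_ofCard R hcard⟩
    rcases h12 p Ps (hPs ▸ hr) with hcomm | ⟨P₁, P₂, hsup, hcomm, hnc₁, hc₁, hexp, hcyc₂, hcl⟩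
    · exact absurd (hPs ▸ hcomm) hRna
    rw [hPs] at hsup
    have hRC : R ≤ Subgroup.centralizer (X' : Set G) :=
      le_centralizer_of_cprod hsup hcomm hc₁ hcyc₂ hX'RR
    exact ⟨centGood_of_le_uniq hG huR' hRC hX'1 hX'top, huR⟩
  · -- rank at least three
    have huR' : UniqIn M R := Cfsg.Agent.Lib.Helper3.BG10.uniqIn_of_rank3 hG hM hRM hr
    have huR : Cfsg.InUniqueMaximal R := ⟨M, ⟨hM, hRM⟩, fun L hL => huR' L hL.1 hL.2⟩
    refine ⟨?_, huR⟩
    have hp2 : p ≠ 2 := Cfsg.Agent.Lib.Helper3.U95.prime_ne_two hG hXp hX1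
    have hrM : ¬ PRankLE p 2 ↥M := fun h' => hr (prankLE_mono hRM h')
    have hrank : ¬ PRankLE p 2 ↥(R ⊓ Subgroup.centralizer (X' : Set G)) := by
      by_cases hβ : p ∈ beta M
      · have hr1 : ¬ PRankLE p 1 ↥R := fun h1 => hr (fun A hA hAe =>
          (h1 A hA hAe).trans (Nat.pow_le_pow_right hpP.pos (by norm_num)))
        obtain ⟨A, hAR, hAe, hAc, hXA⟩ := exists_elemAb2_ge hRp hr1 hX'R hX'c
        obtain ⟨B, hBR, hBe, hAB⟩ := exists_elemAb_gt_of_ideal hRtop hβ.2 hAR hAe hAc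
        have hBcomm : ∀ a ∈ B, ∀ b ∈ B, a * b = b * a := by
          intro a ha b hb
          have h1 := hBe.1.is_comm.comm ⟨a, ha⟩ ⟨b, hb⟩
          exact congrArg Subtype.val h1
        have hBC : B ≤ Subgroup.centralizer (X' : Set G) := by
          intro b hb
          rw [Subgroup.mem_centralizer_iff]
          intro x hx
          exact hBcomm x (hAB.le (hXA hx)) b hb
        have hcardB : p ^ 2 < Nat.card B := by
          rw [← hAc]
          refine lt_of_le_of_ne (Subgroup.card_le_of_le hAB.le) (fun heq => ?_)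
          exact hAB.ne (Subgroup.eq_of_le_of_card_ge hAB.le heq.ge)
        exact not_prankLE_of_le (le_inf hBR hBC) hBcomm hBe.2 hcardB
      · have hx : X ≤ ⁅sigmaCore M, sigmaCore M⁆ := h.resolve_left hβ
        have hni : ¬ IsIdealPrime p G := fun hi => hβ ⟨⟨hpP, hrM⟩, hi⟩
        obtain ⟨E, hER, hE, hE2, hEmax⟩ := exists_max_elemAb2_of_not_ideal hRtop hr hni
        exact rank3_cent_of_narrow hp2 hRp hr hER hE hE2 hEmax (hder hβ hx) hX'c
    exact centGood_of_le_uniq hG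
      (Cfsg.Agent.Lib.Helper3.BG10.uniqIn_of_rank3 hG hM (inf_le_left.trans hRM) hrank)
      inf_le_right hX'1 hX'top

end Cfsg.Agent.Lib.Helper3.BG12
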