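import Cfsg.Agent.Lib.Helper3.BG12d

/-!
# B&G Corollary 12.16 (S1425) modulo earlier rows (helper3)
-/

set_option autoImplicit false

open Cfsg Cfsg.Agent.Lib.Helper32 Cfsg.Agent.Lib.Helper32.BG10
open Cfsg.Agent.Lib.Helper3.BG12S

namespace Cfsg.Agent.Lib.Helper3.BG12

universe u

variable {G : Type u} [Group G] [Finite G]

theorem elemAb2_not_cyclic {p : ℕ} [Fact p.Prime] {A : Subgroup G}
    (hA : IsElementaryAbelian p A) (h : Nat.card A = p ^ 2) : ¬ IsCyclic A := by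
  intro hc
  have hp : p.Prime := Fact.out
  obtain ⟨g, hg⟩ := hc.exists_generator
  have h1 : orderOf g = Nat.card A := orderOf_eq_card_of_forall_mem_zpowers hg
  have h2 : orderOf g ∣ p := orderOf_dvd_of_pow_eq_one (Subtype.ext (hA.2 g g.2))
  rw [h1, h] at h2
  have h3 := Nat.le_of_dvd hp.pos h2
  have h4 : p < p ^ 2 := by
    calc p = p ^ 1 := (pow_one p).symm
      _ < p ^ 2 := Nat.pow_lt_pow_right hp.one_lt (by norm_num)
  omega

/-- a prime of `β(M*)` cannot lie in `σ(M)` when `M*` is not conjugate to `M` -/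
theorem beta_sigma_disjoint (hG : IsMinSimpleOddOrder G) {M Ms : Subgroup G} (hM : IsCoatom M)
    (hMs : IsCoatom Ms) (ha : ∀ g : G, Ms ≠ cj g M) {r : ℕ} (hr : r.Prime) (hrβ : r ∈ beta Ms)
    (hrσ : r ∈ sigma M) : False := by
  haveI : Fact r.Prime := ⟨hr⟩
  have hrα : r ∈ alpha Ms := hrβ.1
  have hrσs : r ∈ sigma Ms := alpha_sub_sigma hG (ut_of hG) hMs hrα
  obtain ⟨Rs, hRs⟩ := sylSet_nonempty r Ms
  obtain ⟨R, hR⟩ := sylSet_nonempty r M
  have hRstop := (sigma_sylSet hrσs hRs).2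
  have hRtop := (sigma_sylSet hrσ hR).2
  have hrk : ¬ PRankLE r 2 ↥Rs := fun h => hrα.2 (prankLE_of_sylSet hRs 2 h)
  have hu : UniqIn Ms Rs := Cfsg.Agent.Lib.Helper3.BG10.uniqIn_of_rank3 hG hMs hRs.1 hrk
  obtain ⟨n, -, hn⟩ := sylSet_conj hRstop hRtop
  have h1 : Rs ≤ cj n⁻¹ M := by
    have h2 : cj n⁻¹ (cj n Rs) ≤ cj n⁻¹ M := cj_mono n⁻¹ (hn ▸ hR.1)
    rwa [cj_inv_cj] at h2
  exact ha n⁻¹ (hu _ (isCoatom_cj n⁻¹ hM) h1).symm

/-- a prime of `σ(M*)`, `M*_σ` nilpotent, cannot lie in `σ(M)` when `M*` is not conjugate to `M` -/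
theorem sigma_sigma_disjoint (hG : IsMinSimpleOddOrder G) {M Ms : Subgroup G} (hM : IsCoatom M)
    (hMs : IsCoatom Ms) (ha : ∀ g : G, Ms ≠ cj g M) (hnil : Group.IsNilpotent (sigmaCore Ms))
    {r : ℕ} (hr : r.Prime) (hrσs : r ∈ sigma Ms) (hrσ : r ∈ sigma M) : False := by
  haveI : Fact r.Prime := ⟨hr⟩
  obtain ⟨Rs, hRs⟩ := sylSet_nonempty r Ms
  obtain ⟨R, hR⟩ := sylSet_nonempty r M
  have hRstop := (sigma_sylSet hrσs hRs).2
  obtain ⟨hNR, hRtop⟩ := sigma_sylSet hrσ hR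
  have hRsσ : Rs ∈ sylSet r (sigmaCore Ms) := (sylSet_sigmaCore_iff hG hMs hrσs).mpr hRs
  have h1 : Ms ≤ Subgroup.normalizer (Rs : Set G) :=
    (sigmaCore_normalizer Ms).trans (normalizer_le_of_nilpotent hnil hRsσ)
  obtain ⟨n, -, hn⟩ := sylSet_conj hRstop hRtop
  have h2 : cj n Ms ≤ M := by
    intro y hy
    apply hNR
    rw [← hn, mem_normalizer_cj]
    exact h1 (mem_cj.mp hy)
  have h3 : cj n Ms = M := by
    rcases (isCoatom_cj n hMs).le_iff.mp h2 with h | h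
    · exact absurd h hM.1
    · exact h.symm
  have h4 : Ms = cj n⁻¹ M := by rw [← h3, cj_inv_cj]
  exact ha n⁻¹ h4

/-- B&G Corollary 12.16, after conjugating a normal `q`-subgroup of `Y` into `M_σ` -/
theorem bg12_16_core (hG : IsMinSimpleOddOrder G) (hnc : NormNC G) (h14 : H14 G) (h17 : H17 G)
    (h18 : H18 G) (M : Subgroup G) (hM : IsCoatom M) (Y : Subgroup G)
    (hY : ∀ p : ℕ, p.Prime → p ∣ Nat.card Y → p ∈ Cfsg.sigma M)
    (q : ℕ) [Fact q.Prime] (hqσ : q ∈ sigma M) (X : Subgroup G) (hXq : IsPGroup q X)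
    (hX1 : X ≠ ⊥) (hXM : X ≤ M) (hYN : Y ≤ Subgroup.normalizer (X : Set G)) :
    ∃ k : G, cj k Y ≤ sigmaCore M := by
  have hqP : q.Prime := Fact.out
  have hXtop : X ≠ ⊤ := minSimple_pgroup_ne_top hG hXq
  obtain ⟨Ms, hMs, hNMs⟩ := exists_coatom_ge (minSimple_normalizer_ne_top hG hX1 hXtop)
  have hYMs : Y ≤ Ms := hYN.trans hNMs
  by_cases hMsM : Ms = M
  · exact ⟨1, by rw [cj_one]; exact le_sigmaCore_of_sigma hG hM (hMsM ▸ hYMs) hY⟩
  suffices hK : ∃ x : G, cj x Y ≤ M by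
    obtain ⟨x, hx⟩ := hK
    exact ⟨x, le_sigmaCore_of_sigma hG hM hx (fun p hp hpd => hY p hp (by rwa [card_cj] at hpd))⟩
  have hXMs : X ≤ Ms := Subgroup.le_normalizer.trans hNMs
  obtain ⟨S, hS, hXS⟩ := exists_sylSet_ge hXq (le_inf hXM hXMs)
  obtain ⟨ha, hb, hc⟩ := bg12_15 (h1_of hG) hnc M hM q hqσ X hXq hX1 hXM Ms hMsM hNMs S hS hXS
  haveI : Group.IsSolvable ↥Ms := minSimple_solvable hG hMs.1
  by_cases hqs : q ∈ sigma Ms
  · -- `q ∈ σ(M*)`
    have hfac := le_betaCore_sup_normalizer hG h14 hMs hqs hc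
    have hBMs : piCoreOf (beta Ms) Ms ≤ Ms := by
      rintro x ⟨y, -, rfl⟩; exact y.2
    have hBn : Ms ≤ Subgroup.normalizer ((piCoreOf (beta Ms) Ms : Subgroup G) : Set G) :=
      le_normalizer_map_subtype Ms (piCore (beta Ms) ↥Ms)
    have hcop : (Nat.card Y).Coprime (Nat.card (piCoreOf (beta Ms) Ms)) := by
      by_contra hnc'
      obtain ⟨r, hr, hrY, hrB⟩ := Nat.Prime.not_coprime_iff_dvd.mp hnc'
      have hrβ : r ∈ beta Ms := by
        apply Cfsg.Agent.Lib.Helper66.isPi_piCore (G := ↥Ms) (beta Ms) r hr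
        have : Nat.card (piCoreOf (beta Ms) Ms) = Nat.card (piCore (beta Ms) ↥Ms) :=
          Cfsg.Agent.Lib.Helper30.card_map_subtype _
        rwa [this] at hrB
      exact beta_sigma_disjoint hG hM hMs ha hr hrβ (hY r hr hrY)
    obtain ⟨x, -, hx⟩ := exists_cj_le_of_coprime hBMs hBn inf_le_left hfac hYMs hcop
    exact ⟨x, hx.trans (inf_le_right.trans hb)⟩
  · -- `q ∉ σ(M*)`
    have hτ : q ∈ tau2 Ms := mem_tau2_of_normalizer_le hG hMs hqs hXq hX1 hNMs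
    obtain ⟨A, hAS, hAe, hAc⟩ := exists_elemAb2_le_sylSet hτ.2.2.2 hc
    have hAMs : A ≤ Ms := hAS.trans hc.1
    have hAM : A ≤ M := hAS.trans (hS.1.trans inf_le_left)
    have hAq : IsPGroup q A := IsPGroup.of_card (n := 2) hAc
    have hnil : Group.IsNilpotent (sigmaCore Ms) := (h17 Ms hMs q hτ A ⟨hAMs, hAe, hAc⟩).1
    have hNA : Subgroup.normalizer (A : Set G) ≤ M :=
      hnc M hM q A hqσ hAq hAM (elemAb2_not_cyclic hAe hAc)
    obtain ⟨E₀, hE₀⟩ := exCompl_of hG Ms hMs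
    have hσMs : sigmaCore Ms ≤ Ms := sigmaCore_le Ms
    have hσn := sigmaCore_normalizer Ms
    have hfacOf : ∀ E' : Subgroup G, IsComplIn E' (sigmaCore Ms) Ms → Ms ≤ sigmaCore Ms ⊔ E' := by
      intro E' hE' m hm
      obtain ⟨a, ha', b, hb', rfl⟩ := hE'.2.2.2 m hm
      exact Subgroup.mul_mem _ (Subgroup.mem_sup_right ha') (Subgroup.mem_sup_left hb')
    have hqnd : ¬ q ∣ Nat.card (sigmaCore Ms) := fun h => hqs (mem_sigma_of_dvd_sigmaCore hqP h)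
    have hcopA : (Nat.card A).Coprime (Nat.card (sigmaCore Ms)) := by
      rw [hAc]
      exact Nat.Coprime.pow_left 2 ((Nat.Prime.coprime_iff_not_dvd hqP).mpr hqnd)
    obtain ⟨x, hx, hxA⟩ := exists_cj_le_of_coprime hσMs hσn hE₀.1 (hfacOf E₀ hE₀) hAMs hcopA
    have hE : IsComplIn (cj x⁻¹ E₀) (sigmaCore Ms) Ms := isComplIn_cj hE₀ hσn (Ms.inv_mem hx)
    have hAE : A ≤ cj x⁻¹ E₀ := by
      have h2 := cj_mono x⁻¹ hxA
      rwa [cj_inv_cj] at h2
    have hEN : cj x⁻¹ E₀ ≤ Subgroup.normalizer (A : Set G) :=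
      (h18 Ms hMs _ hE q hτ A ⟨hAE, hAe, hAc⟩).1.1
    have hEM : cj x⁻¹ E₀ ≤ M := hEN.trans hNA
    have hcop : (Nat.card Y).Coprime (Nat.card (sigmaCore Ms)) := by
      by_contra hnc'
      obtain ⟨r, hr, hrY, hrB⟩ := Nat.Prime.not_coprime_iff_dvd.mp hnc'
      exact sigma_sigma_disjoint hG hM hMs ha hnil hr (mem_sigma_of_dvd_sigmaCore hr hrB)
        (hY r hr hrY)
    obtain ⟨x', -, hx'⟩ := exists_cj_le_of_coprime hσMs hσn hE.1 (hfacOf _ hE) hYMs hcop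
    exact ⟨x', hx'.trans hEM⟩

/-- B&G Corollary 12.16 -/
theorem bg12_16 (hG : IsMinSimpleOddOrder G) (hnc : NormNC G) (h14 : H14 G) (h17 : H17 G)
    (h18 : H18 G) (M : Subgroup G) (hM : IsCoatom M) (Y : Subgroup G) (hY1 : Y ≠ ⊥)
    (hY : ∀ p : ℕ, p.Prime → p ∣ Nat.card Y → p ∈ Cfsg.sigma M) :
    ∃ g : G, Y.map (MulAut.conj g).toMonoidHom ≤ Cfsg.sigmaCore M := by
  have hhall := (sigma_hall hG (ut_of hG) (h2_of hG) (sigDer_of hG) hM).2.1
  have hYtop : Y ≠ ⊤ := by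
    rintro rfl
    have hidx : (sigmaCore M).index = 1 := by
      by_contra h1
      obtain ⟨r, hr, hrd⟩ := Nat.exists_prime_and_dvd h1
      have hrG : r ∣ Nat.card (⊤ : Subgroup G) := by
        rw [Subgroup.card_top]; exact hrd.trans (Subgroup.index_dvd_card _)
      exact hhall.2 r hr (hY r hr hrG) hrd
    have h2 : sigmaCore M = ⊤ := Subgroup.index_eq_one.mp hidx
    exact hM.1 (top_le_iff.mp (h2 ▸ sigmaCore_le M))
  haveI : Group.IsSolvable ↥Y := minSimple_solvable hG hYtop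
  obtain ⟨q, hqP, X, hXY, hX1, hXq, hYN⟩ := exists_normal_pgroup_of_solvable hY1
  haveI : Fact q.Prime := ⟨hqP⟩
  have hqσ : q ∈ sigma M := by
    apply hY q hqP
    obtain ⟨k, hk⟩ := IsPGroup.iff_card.mp hXq
    have hk0 : k ≠ 0 := by
      rintro rfl
      rw [pow_zero] at hk
      exact hX1 (Subgroup.card_eq_one.mp hk)
    have h2 : q ∣ Nat.card X := by rw [hk]; exact dvd_pow_self q hk0
    exact h2.trans (Subgroup.card_dvd_of_le hXY)
  obtain ⟨g, hg⟩ := exists_cj_le_sigmaCore hG hM hqσ hXq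
  have hYN' : cj g Y ≤ Subgroup.normalizer ((cj g X : Subgroup G) : Set G) := by
    intro y hy
    rw [mem_normalizer_cj]
    exact hYN (mem_cj.mp hy)
  have hX1' : cj g X ≠ ⊥ := by
    intro h0
    have h2 := card_cj g X
    rw [h0, Subgroup.card_bot] at h2
    exact hX1 (Subgroup.card_eq_one.mp h2.symm)
  obtain ⟨k, hk⟩ := bg12_16_core hG hnc h14 h17 h18 M hM (cj g Y)
    (fun p hp hpd => hY p hp (by rwa [card_cj] at hpd)) q hqσ (cj g X) (isPGroup_cj hXq) hX1'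
    (hg.trans (sigmaCore_le M)) hYN'
  rw [← cj_mul] at hk
  exact ⟨k * g, hk⟩

end Cfsg.Agent.Lib.Helper3.BG12
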