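import Mathlib
import Cfsg.Agent.Lib.Helper3.WC3
import Cfsg.Agent.Lib.Helper14.ClassTwo
import Cfsg.Agent.Lib.Helper14.S4Free

set_option autoImplicit false

/-!
# Class-two Sylow `2`-subgroups in `S₄`-free constrained groups: generation and the
four-group lemma (helper3)
-/

namespace Cfsg.Agent.Lib.Helper3.CT

open Cfsg Cfsg.Agent.Lib.Helper42

section gen

variable {G : Type*} [Group G] [Finite G] {p : ℕ} [Fact p.Prime]

/-- if `M` contains `N_G(S)` and a conjugate `h S h⁻¹` of the Sylow subgroup `S`, then `h ∈ M`. -/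
theorem mem_of_cj_sylow_le (S : Sylow p G) (M : Subgroup G)
    (hNS : Subgroup.normalizer ((S : Subgroup G) : Set G) ≤ M) (h : G)
    (hh : cj h (S : Subgroup G) ≤ M) : h ∈ M := by
  have hSM : (S : Subgroup G) ≤ M := Subgroup.le_normalizer.trans hNS
  have hSyl : IsSylIn p (S : Subgroup G) M := (sylow_isSylIn S).of_le hSM le_top
  obtain ⟨m, hm, hle⟩ := hSyl.exists_conj_le hh (isPGroup_cj S.isPGroup')
  rw [cj_cj] at hle
  have heq : cj (m * h) (S : Subgroup G) = S :=
    Subgroup.eq_of_le_of_card_ge hle (by rw [card_cj])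
  have h1 : m * h ∈ M := hNS (cj_eq_self_iff.mp heq)
  have e : h = m⁻¹ * (m * h) := by group
  rw [e]
  exact M.mul_mem (M.inv_mem hm) h1

/-- **generation**: if `M` is the unique maximal subgroup containing the Sylow subgroup `S`
(and `N_G(S) ≤ M`), `Q = O_p(G)` contains `[S, S]`, and `g ∉ M`, then `G = ⟨s, g S g⁻¹⟩` for
every `s ∈ S \ Q`. -/
theorem gen_of_unique_max (S : Sylow p G) (M Q : Subgroup G) [hQn : Q.Normal]
    (hNS : Subgroup.normalizer ((S : Subgroup G) : Set G) ≤ M)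
    (h1 : ∀ H : Subgroup G, (S : Subgroup G) ≤ H → H ≠ ⊤ → H ≤ M)
    (hQS : Q ≤ (S : Subgroup G))
    (hSSQ : ∀ a ∈ (S : Subgroup G), ∀ b ∈ (S : Subgroup G), a * b * a⁻¹ * b⁻¹ ∈ Q)
    (hQmax : ∀ R : Subgroup G, R.Normal → IsPGroup p R → R ≤ Q)
    (g : G) (hg : g ∉ M) (s : G) (hs : s ∈ (S : Subgroup G)) (hsQ : s ∉ Q)
    (H : Subgroup G) (hsH : s ∈ H) (hH : ∀ t ∈ (S : Subgroup G), g * t * g⁻¹ ∈ H) : H = ⊤ := by
  by_contra hHtop
  have hSM : (S : Subgroup G) ≤ M := Subgroup.le_normalizer.trans hNS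
  have hHM : H ≤ cj g M := by
    have h2 : (S : Subgroup G) ≤ cj g⁻¹ H := by
      intro t ht
      rw [mem_cj, inv_inv]
      exact hH t ht
    have h3 : cj g⁻¹ H ≠ ⊤ := by
      intro h4
      apply hHtop
      apply Subgroup.eq_top_of_card_eq
      rw [← card_cj g⁻¹ H, h4, Subgroup.card_top]
    have h5 := h1 _ h2 h3
    have h6 := cj_le_iff.mp h5
    rwa [inv_inv] at h6
  obtain ⟨R, hR⟩ : ∃ R : Subgroup G, R = Q ⊔ Subgroup.zpowers s := ⟨_, rfl⟩
  have hQR : Q ≤ R := by rw [hR]; exact le_sup_left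
  have hsR : s ∈ R := by rw [hR]; exact Subgroup.mem_sup_right (Subgroup.mem_zpowers s)
  have hRS : R ≤ (S : Subgroup G) := by
    rw [hR]; exact sup_le hQS (by rw [Subgroup.zpowers_le]; exact hs)
  have hRM : R ≤ cj g M := by
    rw [hR]
    refine sup_le ?_ ?_
    · intro q hq
      rw [mem_cj]
      apply hSM
      apply hQS
      have := hQn.conj_mem q hq g⁻¹
      rwa [inv_inv] at this
    · rw [Subgroup.zpowers_le]; exact hHM hsH
  have hSyl' : IsSylIn p (cj g (S : Subgroup G)) (cj g M) :=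
    ((sylow_isSylIn S).of_le hSM le_top).conj g
  obtain ⟨m, hm, hle⟩ := hSyl'.exists_conj_le hRM (S.isPGroup'.to_le hRS)
  have hRk : R ≤ cj (m⁻¹ * g) (S : Subgroup G) := by
    have := cj_le_iff.mp hle
    rwa [cj_cj] at this
  have hnorm : ∀ T : Subgroup G, R ≤ T → (∀ a ∈ T, ∀ b ∈ T, a * b * a⁻¹ * b⁻¹ ∈ Q) →
      T ≤ Subgroup.normalizer (R : Set G) := by
    intro T hRT hTT t ht
    apply Cfsg.Agent.Lib.Helper14.mem_normalizer_of_conj_mem
    intro r hr
    have e : t * r * t⁻¹ = (t * r * t⁻¹ * r⁻¹) * r := by group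
    rw [e]
    exact R.mul_mem (hQR (hTT t ht r (hRT hr))) hr
  have hSN : (S : Subgroup G) ≤ Subgroup.normalizer (R : Set G) := hnorm _ hRS hSSQ
  have hkN : cj (m⁻¹ * g) (S : Subgroup G) ≤ Subgroup.normalizer (R : Set G) := by
    apply hnorm _ hRk
    intro a ha b hb
    rw [mem_cj] at ha hb
    have h2 := hQn.conj_mem _ (hSSQ _ ha _ hb) (m⁻¹ * g)
    have e : a * b * a⁻¹ * b⁻¹ = (m⁻¹ * g) * ((m⁻¹ * g)⁻¹ * a * (m⁻¹ * g) *
        ((m⁻¹ * g)⁻¹ * b * (m⁻¹ * g)) * ((m⁻¹ * g)⁻¹ * a * (m⁻¹ * g))⁻¹ *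
        ((m⁻¹ * g)⁻¹ * b * (m⁻¹ * g))⁻¹) * (m⁻¹ * g)⁻¹ := by group
    rw [e]
    exact h2
  have hNtop : Subgroup.normalizer (R : Set G) ≠ ⊤ := by
    intro h
    have hRn : R.Normal := Subgroup.normalizer_eq_top_iff.mp h
    exact hsQ (hQmax R hRn (S.isPGroup'.to_le hRS) hsR)
  have hNM := h1 _ hSN hNtop
  have hk : m⁻¹ * g ∈ M := mem_of_cj_sylow_le S M hNS _ (hkN.trans hNM)
  rw [mem_cj] at hm
  apply hg
  have e : g = (m⁻¹ * g) * (g⁻¹ * m * g) := by group
  rw [e]
  exact M.mul_mem hk hm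

/-- the symmetric form: `G = ⟨g s g⁻¹, S⟩`. -/
theorem gen_of_unique_max' (S : Sylow p G) (M Q : Subgroup G) [hQn : Q.Normal]
    (hNS : Subgroup.normalizer ((S : Subgroup G) : Set G) ≤ M)
    (h1 : ∀ H : Subgroup G, (S : Subgroup G) ≤ H → H ≠ ⊤ → H ≤ M)
    (hQS : Q ≤ (S : Subgroup G))
    (hSSQ : ∀ a ∈ (S : Subgroup G), ∀ b ∈ (S : Subgroup G), a * b * a⁻¹ * b⁻¹ ∈ Q)
    (hQmax : ∀ R : Subgroup G, R.Normal → IsPGroup p R → R ≤ Q)
    (g : G) (hg : g ∉ M) (s : G) (hs : s ∈ (S : Subgroup G)) (hsQ : s ∉ Q)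
    (H : Subgroup G) (hsH : g * s * g⁻¹ ∈ H) (hH : (S : Subgroup G) ≤ H) : H = ⊤ := by
  have hg' : g⁻¹ ∉ M := fun h => hg (by simpa using M.inv_mem h)
  have key := gen_of_unique_max S M Q hNS h1 hQS hSSQ hQmax g⁻¹ hg' s hs hsQ (cj g⁻¹ H)
    (by rw [mem_cj, inv_inv]; exact hsH)
    (by
      intro t ht
      rw [mem_cj]
      have e : g⁻¹⁻¹ * (g⁻¹ * t * g⁻¹⁻¹) * g⁻¹ = t := by group
      rw [e]
      exact hH ht)
  apply Subgroup.eq_top_of_card_eq
  rw [← card_cj g⁻¹ H, key, Subgroup.card_top]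

end gen

section four

variable {Γ : Type*} [Group Γ] [Finite Γ]

theorem two_pow_mod_three (k : ℕ) : 2 ^ k % 3 = 1 ∨ 2 ^ k % 3 = 2 := by
  induction k with
  | zero => left; rfl
  | succ k ih => rw [pow_succ]; omega

/-- two transvections on a four-group give a section `S₄`. -/
theorem s4_of_two_transv (a b x y : Γ) (hx2 : x ^ 2 = 1) (hy2 : y ^ 2 = 1)
    (hxy : x * y = y * x) (hx1 : x ≠ 1) (hax : a * x * a⁻¹ = x) (hay : a * y * a⁻¹ = x * y)
    (hbx : b * x * b⁻¹ = x * y) (hby : b * y * b⁻¹ = y) :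
    Involves (Equiv.Perm (Fin 4)) Γ := by
  haveI : Fact (Nat.Prime 2) := ⟨Nat.prime_two⟩
  have hy1 : y ≠ 1 := by
    rintro rfl
    apply hx1
    have := hay
    rw [mul_one, mul_inv_cancel, mul_one] at this
    exact this.symm
  have hxney : x ≠ y := by
    rintro rfl
    apply hx1
    rw [← hax, hay, ← pow_two, hx2]
  have hxx : x * x = 1 := by rw [← pow_two]; exact hx2
  have hyy : y * y = 1 := by rw [← pow_two]; exact hy2
  obtain ⟨W, hW⟩ : ∃ W : Subgroup Γ, W = Subgroup.zpowers x ⊔ Subgroup.zpowers y := ⟨_, rfl⟩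
  have hxW : x ∈ W := by rw [hW]; exact Subgroup.mem_sup_left (Subgroup.mem_zpowers x)
  have hyW : y ∈ W := by rw [hW]; exact Subgroup.mem_sup_right (Subgroup.mem_zpowers y)
  have hWle : ∀ K : Subgroup Γ, x ∈ K → y ∈ K → W ≤ K := by
    intro K hxK hyK
    rw [hW]
    exact sup_le (by rw [Subgroup.zpowers_le]; exact hxK) (by rw [Subgroup.zpowers_le]; exact hyK)
  -- `W` is abelian
  have hWc1 : W ≤ Subgroup.centralizer ({x, y} : Set Γ) := by
    apply hWle
    · rw [Subgroup.mem_centralizer_iff]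
      intro h hh
      rcases hh with rfl | rfl
      · rfl
      · exact hxy.symm
    · rw [Subgroup.mem_centralizer_iff]
      intro h hh
      rcases hh with rfl | rfl
      · exact hxy
      · rfl
  have hWab : ∀ u ∈ W, ∀ v ∈ W, u * v = v * u := by
    intro u hu
    have h1 : W ≤ Subgroup.centralizer ({u} : Set Γ) := by
      apply hWle
      · rw [Subgroup.mem_centralizer_iff]
        intro h hh
        rw [Set.mem_singleton_iff] at hh
        subst hh
        exact (Subgroup.mem_centralizer_iff.mp (hWc1 hu) x (by simp)).symm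
      · rw [Subgroup.mem_centralizer_iff]
        intro h hh
        rw [Set.mem_singleton_iff] at hh
        subst hh
        exact (Subgroup.mem_centralizer_iff.mp (hWc1 hu) y (by simp)).symm
    intro v hv
    exact Subgroup.mem_centralizer_iff.mp (h1 hv) u rfl
  -- cardinalities
  have hcx : Nat.card (Subgroup.zpowers x) = 2 := by
    rw [Nat.card_zpowers]; exact orderOf_eq_prime hx2 hx1
  have hcy : Nat.card (Subgroup.zpowers y) = 2 := by
    rw [Nat.card_zpowers]; exact orderOf_eq_prime hy2 hy1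
  have hcard : Nat.card W ≤ 4 := by
    have hle : Subgroup.zpowers x ≤ Subgroup.normalizer (Subgroup.zpowers y : Set Γ) := by
      rw [Subgroup.zpowers_le]
      apply Subgroup.centralizer_le_normalizer
      rw [Subgroup.mem_centralizer_iff]
      intro h hh
      obtain ⟨k, rfl⟩ := Subgroup.mem_zpowers_iff.mp hh
      exact ((Commute.zpow_left (show Commute y x from hxy.symm) k)).eq
    have h1 := Cfsg.Agent.Lib.Helper14.card_sup_mul_card_inf hle
    rw [hcx, hcy, ← hW] at h1
    have hpos : 0 < Nat.card (Subgroup.zpowers x ⊓ Subgroup.zpowers y : Subgroup Γ) := Nat.card_pos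
    calc Nat.card W ≤ Nat.card W * Nat.card (Subgroup.zpowers x ⊓ Subgroup.zpowers y : Subgroup Γ) :=
          Nat.le_mul_of_pos_right _ hpos
      _ = 4 := h1
  -- normalizing elements
  have hnorm : ∀ c : Γ, c * x * c⁻¹ ∈ W → c * y * c⁻¹ ∈ W →
      c ∈ Subgroup.normalizer (W : Set Γ) := by
    intro c h1 h2
    apply Cfsg.Agent.Lib.Helper14.mem_normalizer_of_conj_mem
    have h3 : W ≤ W.comap (MulAut.conj c).toMonoidHom := by
      apply hWle
      · rw [Subgroup.mem_comap]; exact h1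
      · rw [Subgroup.mem_comap]; exact h2
    intro w hw
    exact h3 hw
  have haN : a ∈ Subgroup.normalizer (W : Set Γ) :=
    hnorm a (by rw [hax]; exact hxW) (by rw [hay]; exact W.mul_mem hxW hyW)
  have hbN : b ∈ Subgroup.normalizer (W : Set Γ) :=
    hnorm b (by rw [hbx]; exact W.mul_mem hxW hyW) (by rw [hby]; exact hyW)
  have hWN : W ≤ Subgroup.normalizer (W : Set Γ) := Subgroup.le_normalizer
  apply Cfsg.Agent.Lib.Helper2.involves_of_subgroup (Subgroup.normalizer (W : Set Γ))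
  have hcV : Nat.card (W.subgroupOf (Subgroup.normalizer (W : Set Γ))) = Nat.card W :=
    Nat.card_congr (Subgroup.subgroupOfEquivOfLe hWN).toEquiv
  have hcV₁ : Nat.card ((Subgroup.zpowers x).subgroupOf (Subgroup.normalizer (W : Set Γ))) = 2 := by
    rw [← hcx]
    exact Nat.card_congr (Subgroup.subgroupOfEquivOfLe
      ((by rw [Subgroup.zpowers_le]; exact hWN hxW :
        Subgroup.zpowers x ≤ Subgroup.normalizer (W : Set Γ)))).toEquiv
  have hcV₂ : Nat.card ((Subgroup.zpowers y).subgroupOf (Subgroup.normalizer (W : Set Γ))) = 2 := by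
    rw [← hcy]
    exact Nat.card_congr (Subgroup.subgroupOfEquivOfLe
      ((by rw [Subgroup.zpowers_le]; exact hWN hyW :
        Subgroup.zpowers y ≤ Subgroup.normalizer (W : Set Γ)))).toEquiv
  -- squares centralize `W`
  have ha2 : ∀ w ∈ W, w * a ^ 2 = a ^ 2 * w := by
    have h1 : W ≤ Subgroup.centralizer ({a ^ 2} : Set Γ) := by
      apply hWle
      · rw [Subgroup.mem_centralizer_iff]
        intro h hh
        rw [Set.mem_singleton_iff] at hh
        subst hh
        have h2 : Commute a x := by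
          have : a * x = x * a := by
            calc a * x = a * x * a⁻¹ * a := by group
              _ = x * a := by rw [hax]
          exact this
        exact (h2.pow_left 2).eq
      · rw [Subgroup.mem_centralizer_iff]
        intro h hh
        rw [Set.mem_singleton_iff] at hh
        subst hh
        have h3 : a ^ 2 * y * (a ^ 2)⁻¹ = y := by
          calc a ^ 2 * y * (a ^ 2)⁻¹ = a * (a * y * a⁻¹) * a⁻¹ := by rw [pow_two]; group
            _ = a * (x * y) * a⁻¹ := by rw [hay]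
            _ = a * x * a⁻¹ * (a * y * a⁻¹) := by group
            _ = x * (x * y) := by rw [hax, hay]
            _ = y := by rw [← mul_assoc, hxx, one_mul]
        calc a ^ 2 * y = a ^ 2 * y * (a ^ 2)⁻¹ * a ^ 2 := by
              rw [inv_mul_cancel_right]
          _ = y * a ^ 2 := by rw [h3]
    intro w hw
    exact (Subgroup.mem_centralizer_iff.mp (h1 hw) _ rfl).symm
  have hb2 : ∀ w ∈ W, w * b ^ 2 = b ^ 2 * w := by
    have h1 : W ≤ Subgroup.centralizer ({b ^ 2} : Set Γ) := by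
      apply hWle
      · rw [Subgroup.mem_centralizer_iff]
        intro h hh
        rw [Set.mem_singleton_iff] at hh
        subst hh
        have h3 : b ^ 2 * x * (b ^ 2)⁻¹ = x := by
          calc b ^ 2 * x * (b ^ 2)⁻¹ = b * (b * x * b⁻¹) * b⁻¹ := by rw [pow_two]; group
            _ = b * (x * y) * b⁻¹ := by rw [hbx]
            _ = b * x * b⁻¹ * (b * y * b⁻¹) := by group
            _ = x * y * y := by rw [hbx, hby]
            _ = x := by rw [mul_assoc, hyy, mul_one]
        calc b ^ 2 * x = b ^ 2 * x * (b ^ 2)⁻¹ * b ^ 2 := by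
              rw [inv_mul_cancel_right]
          _ = x * b ^ 2 := by rw [h3]
      · rw [Subgroup.mem_centralizer_iff]
        intro h hh
        rw [Set.mem_singleton_iff] at hh
        subst hh
        have h2 : Commute b y := by
          have : b * y = y * b := by
            calc b * y = b * y * b⁻¹ * b := by group
              _ = y * b := by rw [hby]
          exact this
        exact (h2.pow_left 2).eq
    intro w hw
    exact (Subgroup.mem_centralizer_iff.mp (h1 hw) _ rfl).symm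
  refine Cfsg.Agent.Lib.Helper3.WC.s4_of_pair (W.subgroupOf (Subgroup.normalizer (W : Set Γ)))
    ?_ ?_ ⟨a, haN⟩ ⟨b, hbN⟩ ((Subgroup.zpowers x).subgroupOf (Subgroup.normalizer (W : Set Γ)))
    ((Subgroup.zpowers y).subgroupOf (Subgroup.normalizer (W : Set Γ))) ?_ ?_ ?_ ?_ ?_ ?_ ?_ ?_ ?_
  · intro u hu v hv
    apply Subtype.ext
    exact hWab _ (Subgroup.mem_subgroupOf.mp hu) _ (Subgroup.mem_subgroupOf.mp hv)
  · -- `W` is a `2`-group
    intro w
    refine ⟨1, ?_⟩
    apply Subtype.ext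
    apply Subtype.ext
    have hw : (w : Subgroup.normalizer (W : Set Γ)).1 ∈ W := Subgroup.mem_subgroupOf.mp w.2
    have h1 : W ≤ Subgroup.centralizer ({x, y} : Set Γ) ⊓ W := le_inf hWc1 le_rfl
    -- squares are trivial on an abelian group generated by involutions
    let T : Subgroup Γ :=
      { carrier := {w | w ∈ W ∧ w ^ 2 = 1}
        one_mem' := ⟨W.one_mem, one_pow 2⟩
        mul_mem' := by
          rintro u v ⟨hu, hu2⟩ ⟨hv, hv2⟩
          refine ⟨W.mul_mem hu hv, ?_⟩
          have : Commute u v := hWab u hu v hv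
          rw [this.mul_pow, hu2, hv2, one_mul]
        inv_mem' := by
          rintro u ⟨hu, hu2⟩
          exact ⟨W.inv_mem hu, by rw [inv_pow, hu2, inv_one]⟩ }
    have hT : W ≤ T := hWle T ⟨hxW, hx2⟩ ⟨hyW, hy2⟩
    have := (hT hw).2
    simpa using this
  · intro v hv
    rw [Subgroup.mem_subgroupOf] at hv ⊢
    exact (by rw [Subgroup.zpowers_le]; exact hxW : Subgroup.zpowers x ≤ W) hv
  · intro v hv
    rw [Subgroup.mem_subgroupOf] at hv ⊢
    exact (by rw [Subgroup.zpowers_le]; exact hyW : Subgroup.zpowers y ≤ W) hv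
  · rw [hcV, hcV₁]; exact hcard
  · rw [hcV, hcV₂]; exact hcard
  · intro v hv
    rw [Subgroup.mem_subgroupOf] at hv
    obtain ⟨k, hk⟩ := Subgroup.mem_zpowers_iff.mp hv
    apply Subtype.ext
    show a * (v : Γ) = (v : Γ) * a
    rw [← hk]
    have h2 : a * x = x * a := by
      calc a * x = a * x * a⁻¹ * a := by group
        _ = x * a := by rw [hax]
    exact (Commute.zpow_right (show Commute a x from h2) k).eq
  · intro v hv
    rw [Subgroup.mem_subgroupOf] at hv
    obtain ⟨k, hk⟩ := Subgroup.mem_zpowers_iff.mp hv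
    apply Subtype.ext
    show b * (v : Γ) = (v : Γ) * b
    rw [← hk]
    have h2 : b * y = y * b := by
      calc b * y = b * y * b⁻¹ * b := by group
        _ = y * b := by rw [hby]
    exact (Commute.zpow_right (show Commute b y from h2) k).eq
  · rw [Subgroup.mem_centralizer_iff]
    intro v hv
    apply Subtype.ext
    exact ha2 _ (Subgroup.mem_subgroupOf.mp hv)
  · rw [Subgroup.mem_centralizer_iff]
    intro v hv
    apply Subtype.ext
    exact hb2 _ (Subgroup.mem_subgroupOf.mp hv)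
  · -- the product acts with order three
    intro hP
    set C := Subgroup.centralizer ((W.subgroupOf (Subgroup.normalizer (W : Set Γ)) :
      Subgroup (Subgroup.normalizer (W : Set Γ))) : Set (Subgroup.normalizer (W : Set Γ))) with hC
    have hmem : QuotientGroup.mk' C ⟨a, haN⟩ * QuotientGroup.mk' C ⟨b, hbN⟩ ∈
        Subgroup.closure ({QuotientGroup.mk' C ⟨a, haN⟩, QuotientGroup.mk' C ⟨b, hbN⟩} :
          Set (_ ⧸ C)) :=
      Subgroup.mul_mem _ (Subgroup.subset_closure (by simp)) (Subgroup.subset_closure (by simp))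
    obtain ⟨k, hk⟩ := hP ⟨_, hmem⟩
    have hk' : (QuotientGroup.mk' C ⟨a, haN⟩ * QuotientGroup.mk' C ⟨b, hbN⟩) ^ 2 ^ k = 1 :=
      congrArg Subtype.val hk
    rw [← map_mul, ← map_pow] at hk'
    have hk2 : ((⟨a, haN⟩ : Subgroup.normalizer (W : Set Γ)) * ⟨b, hbN⟩) ^ 2 ^ k ∈ C :=
      (QuotientGroup.eq_one_iff _).mp hk'
    have hk3 := Subgroup.mem_centralizer_iff.mp hk2 ⟨x, hWN hxW⟩
      (Subgroup.mem_subgroupOf.mpr hxW)
    have hk4 : x * (a * b) ^ 2 ^ k = (a * b) ^ 2 ^ k * x := by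
      have := congrArg Subtype.val hk3
      simpa using this
    -- the action of `c = a b`
    have hc1 : (a * b) * x * (a * b)⁻¹ = y := by
      calc (a * b) * x * (a * b)⁻¹ = a * (b * x * b⁻¹) * a⁻¹ := by group
        _ = a * (x * y) * a⁻¹ := by rw [hbx]
        _ = a * x * a⁻¹ * (a * y * a⁻¹) := by group
        _ = x * (x * y) := by rw [hax, hay]
        _ = y := by rw [← mul_assoc, hxx, one_mul]
    have hc2 : (a * b) * y * (a * b)⁻¹ = x * y := by
      calc (a * b) * y * (a * b)⁻¹ = a * (b * y * b⁻¹) * a⁻¹ := by group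
        _ = x * y := by rw [hby, hay]
    have hc3 : Commute ((a * b) ^ 3) x := by
      have h1 : (a * b) ^ 3 * x * ((a * b) ^ 3)⁻¹ = x := by
        calc (a * b) ^ 3 * x * ((a * b) ^ 3)⁻¹
            = (a * b) * ((a * b) * ((a * b) * x * (a * b)⁻¹) * (a * b)⁻¹) * (a * b)⁻¹ := by
              rw [pow_succ, pow_two]; group
          _ = (a * b) * (x * y) * (a * b)⁻¹ := by rw [hc1, hc2]
          _ = (a * b) * x * (a * b)⁻¹ * ((a * b) * y * (a * b)⁻¹) := by group
          _ = y * (x * y) := by rw [hc1, hc2]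
          _ = x := by rw [← mul_assoc, ← hxy, mul_assoc, hyy, mul_one]
      show (a * b) ^ 3 * x = x * (a * b) ^ 3
      calc (a * b) ^ 3 * x = (a * b) ^ 3 * x * ((a * b) ^ 3)⁻¹ * (a * b) ^ 3 := by
            rw [inv_mul_cancel_right]
        _ = x * (a * b) ^ 3 := by rw [h1]
    have hdecomp : (a * b) ^ 2 ^ k = (a * b) ^ (2 ^ k % 3) * ((a * b) ^ 3) ^ (2 ^ k / 3) := by
      rw [← pow_mul, ← pow_add, Nat.mod_add_div]
    have hc3' : Commute (((a * b) ^ 3) ^ (2 ^ k / 3)) x := hc3.pow_left _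
    have hr : (a * b) ^ (2 ^ k % 3) * x = x * (a * b) ^ (2 ^ k % 3) := by
      have h1 : (a * b) ^ (2 ^ k % 3) * x * ((a * b) ^ 3) ^ (2 ^ k / 3) =
          x * (a * b) ^ (2 ^ k % 3) * ((a * b) ^ 3) ^ (2 ^ k / 3) := by
        calc (a * b) ^ (2 ^ k % 3) * x * ((a * b) ^ 3) ^ (2 ^ k / 3)
            = (a * b) ^ (2 ^ k % 3) * (((a * b) ^ 3) ^ (2 ^ k / 3) * x) := by
              rw [hc3'.eq, mul_assoc]
          _ = (a * b) ^ 2 ^ k * x := by rw [hdecomp, mul_assoc]
          _ = x * (a * b) ^ 2 ^ k := hk4.symm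
          _ = x * (a * b) ^ (2 ^ k % 3) * ((a * b) ^ 3) ^ (2 ^ k / 3) := by
              rw [hdecomp, mul_assoc]
      exact mul_right_cancel h1
    rcases two_pow_mod_three k with h | h
    · rw [h, pow_one] at hr
      apply hxney
      rw [← hc1, hr, mul_inv_cancel_right]
    · rw [h] at hr
      apply hy1
      have h2 : (a * b) ^ 2 * x * ((a * b) ^ 2)⁻¹ = x * y := by
        calc (a * b) ^ 2 * x * ((a * b) ^ 2)⁻¹
            = (a * b) * ((a * b) * x * (a * b)⁻¹) * (a * b)⁻¹ := by rw [pow_two]; group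
          _ = x * y := by rw [hc1, hc2]
      rw [hr, mul_inv_cancel_right] at h2
      exact (mul_eq_left.mp h2.symm)

end four

end Cfsg.Agent.Lib.Helper3.CT
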