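import Mathlib
import Cfsg.Agent.Lib.Helper3.CT1
import Cfsg.Agent.Lib.Helper2.NPC

set_option autoImplicit false

/-!
# Class-two Sylow `2`-subgroups in `S₄`-free constrained groups: the counting argument (helper3)
-/

namespace Cfsg.Agent.Lib.Helper3.CT

open Cfsg Cfsg.Agent.Lib.Helper42 Cfsg.Agent.Lib.Helper14

section fix

variable {G : Type*} [Group G]

/-- the elements centralizing `c` modulo the normal subgroup `Vi`. -/
def fixSub (Vi : Subgroup G) [Vi.Normal] (c : G) : Subgroup G :=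
  (Subgroup.centralizer ({(QuotientGroup.mk' Vi) c} : Set (G ⧸ Vi))).comap (QuotientGroup.mk' Vi)

theorem mem_fixSub {Vi : Subgroup G} [Vi.Normal] {c h : G} :
    h ∈ fixSub Vi c ↔ h * c * h⁻¹ * c⁻¹ ∈ Vi := by
  unfold fixSub
  rw [Subgroup.mem_comap, Subgroup.mem_centralizer_singleton_iff, ← QuotientGroup.eq_one_iff,
    ← QuotientGroup.mk'_apply, map_mul, map_mul, map_mul, map_inv, map_inv, mul_inv_eq_one,
    mul_inv_eq_iff_eq_mul]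

/-- the elements of `V` centralized by all elements of odd order. -/
def oddFix (V : Subgroup G) : Subgroup G where
  carrier := {v | v ∈ V ∧ ∀ x : G, Odd (orderOf x) → x * v = v * x}
  one_mem' := ⟨V.one_mem, fun x _ => by rw [mul_one, one_mul]⟩
  mul_mem' := by
    rintro a b ⟨ha, ha'⟩ ⟨hb, hb'⟩
    refine ⟨V.mul_mem ha hb, fun x hx => ?_⟩
    rw [← mul_assoc, ha' x hx, mul_assoc, hb' x hx, mul_assoc]
  inv_mem' := by
    rintro a ⟨ha, ha'⟩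
    refine ⟨V.inv_mem ha, fun x hx => ?_⟩
    have h := ha' x hx
    calc x * a⁻¹ = a⁻¹ * (a * x) * a⁻¹ := by group
      _ = a⁻¹ * (x * a) * a⁻¹ := by rw [h]
      _ = a⁻¹ * x := by group

theorem mem_oddFix {V : Subgroup G} {v : G} :
    v ∈ oddFix V ↔ v ∈ V ∧ ∀ x : G, Odd (orderOf x) → x * v = v * x := Iff.rfl

theorem oddFix_normal (V : Subgroup G) [hV : V.Normal] : (oddFix V).Normal := by
  refine ⟨fun v hv g => ?_⟩
  rw [mem_oddFix] at hv ⊢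
  refine ⟨hV.conj_mem v hv.1 g, fun x hx => ?_⟩
  have hx' : Odd (orderOf (g⁻¹ * x * g)) := by
    have h1 : orderOf ((MulAut.conj g⁻¹).toMonoidHom x) = orderOf x :=
      orderOf_injective (MulAut.conj g⁻¹).toMonoidHom (MulAut.conj g⁻¹).injective x
    have h2 : (MulAut.conj g⁻¹).toMonoidHom x = g⁻¹ * x * g := by
      simp
    rw [h2] at h1
    rw [h1]
    exact hx
  have h := hv.2 _ hx'
  calc x * (g * v * g⁻¹) = g * ((g⁻¹ * x * g) * v) * g⁻¹ := by group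
    _ = g * (v * (g⁻¹ * x * g)) * g⁻¹ := by rw [h]
    _ = g * v * g⁻¹ * x := by group

end fix

theorem arith_count (a b d V' q S' z w : ℕ) (ha : 0 < a) (hb : 0 < b) (hd : 0 < d) (hV : 0 < V')
    (i1 : b * V' ≤ a * d) (i2 : a * q ≤ S' * b) (i3 : z * d ≤ V' * w) : z * q ≤ w * S' := by
  have hpos : 0 < a * b * d * V' := by positivity
  apply Nat.le_of_mul_le_mul_left _ hpos
  calc a * b * d * V' * (z * q) = (b * V') * (a * q) * (z * d) := by ring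
    _ ≤ (a * d) * (S' * b) * (V' * w) := Nat.mul_le_mul (Nat.mul_le_mul i1 i2) i3
    _ = a * b * d * V' * (w * S') := by ring

theorem arith_count2 (w m q r z S' : ℕ) (hw : 0 < w) (hq : 0 < q) (h1 : w * m = z)
    (h2 : r * q = S') (h3 : z * q ≤ w * S') : m ≤ r := by
  subst h1 h2
  have hpos : 0 < w * q := Nat.mul_pos hw hq
  apply Nat.le_of_mul_le_mul_left _ hpos
  calc w * q * m = w * m * q := by ring
    _ ≤ w * (r * q) := h3
    _ = w * q * r := by ring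

set_option maxHeartbeats 1000000 in
/-- **the counting argument**: in the situation of a minimal counterexample, if `Ω₁(Z(S))` is
not centralized (modulo `Vi`) by the elements of odd order, then `S₄` is involved. -/
theorem caseB {G : Type*} [Group G] [Finite G] (S : Sylow 2 G) (Q V Z₁ Vi : Subgroup G)
    [hQn : Q.Normal] [hVn : V.Normal] [hVin : Vi.Normal]
    (hQS : Q ≤ (S : Subgroup G))
    (hVQ : V ≤ Q) (hVc : ∀ v ∈ V, ∀ q ∈ Q, q * v = v * q)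
    (hV2 : ∀ v ∈ V, v ^ 2 = 1)
    (hZ₁V : Z₁ ≤ V) (hZ₁c : ∀ z ∈ Z₁, ∀ t ∈ (S : Subgroup G), t * z = z * t)
    (hVS : ∀ t ∈ (S : Subgroup G), ∀ v ∈ V, t * v * t⁻¹ * v⁻¹ ∈ Z₁)
    (hP : ∀ c ∈ V, (∀ h : G, h * c * h⁻¹ * c⁻¹ ∈ Vi) → c ∈ Vi)
    (g : G)
    (hgen : ∀ s ∈ (S : Subgroup G), s ∉ Q → ∀ H : Subgroup G, s ∈ H →
      (∀ t ∈ (S : Subgroup G), g * t * g⁻¹ ∈ H) → H = ⊤)
    (hgen' : ∀ s ∈ (S : Subgroup G), s ∉ Q → ∀ H : Subgroup G, g * s * g⁻¹ ∈ H →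
      (S : Subgroup G) ≤ H → H = ⊤)
    (A : Subgroup G) (hA : A ∈ maxElementaryAbelianSubgroups 2 G) (hAS : A ≤ (S : Subgroup G))
    (hAQ : ¬ A ≤ Q) (v : G) (hv : v ∈ Z₁) (hvi : v ∉ Vi) :
    Involves (Equiv.Perm (Fin 4)) G := by
  obtain ⟨s, hsA, hsQ⟩ := SetLike.not_le_iff_exists.mp hAQ
  have hsS : s ∈ (S : Subgroup G) := hAS hsA
  have hVcomm : ∀ x ∈ V, ∀ y ∈ V, x * y = y * x := fun x hx y hy => hVc y hy x (hVQ hx)
  have kill : ∀ c ∈ V, fixSub Vi c = ⊤ → c ∈ Vi := by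
    intro c hc h
    apply hP c hc
    intro x
    exact mem_fixSub.mp (by rw [h]; exact Subgroup.mem_top x)
  have K1 : ∀ c ∈ V, s * c * s⁻¹ * c⁻¹ ∈ Vi →
      (∀ t ∈ (S : Subgroup G), (g * t * g⁻¹) * c = c * (g * t * g⁻¹)) → c ∈ Vi := by
    intro c hc h1 h2
    apply kill c hc
    apply hgen s hsS hsQ
    · exact mem_fixSub.mpr h1
    · intro t ht
      rw [mem_fixSub, h2 t ht, mul_inv_cancel_right, mul_inv_cancel]
      exact Vi.one_mem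
  have K2 : ∀ c ∈ V, (∀ t ∈ (S : Subgroup G), t * c = c * t) → ∀ t₀ ∈ (S : Subgroup G),
      t₀ ∉ Q → (g * t₀ * g⁻¹) * c * (g * t₀ * g⁻¹)⁻¹ * c⁻¹ ∈ Vi → c ∈ Vi := by
    intro c hc h1 t₀ ht₀ ht₀Q h2
    apply kill c hc
    apply hgen' t₀ ht₀ ht₀Q
    · exact mem_fixSub.mpr h2
    · intro t ht
      rw [mem_fixSub, h1 t ht, mul_inv_cancel_right, mul_inv_cancel]
      exact Vi.one_mem
  -- the maps
  obtain ⟨v', hv'⟩ : ∃ v' : G, v' = g⁻¹ * v * g := ⟨_, rfl⟩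
  have hv'V : v' ∈ V := by
    rw [hv']
    have := hVn.conj_mem v (hZ₁V hv) g⁻¹
    rwa [inv_inv] at this
  obtain ⟨z, hz⟩ : ∃ z : G → G, ∀ t, z t = t * v' * t⁻¹ * v'⁻¹ := ⟨fun t => _, fun t => rfl⟩
  have hzZ : ∀ t ∈ (S : Subgroup G), z t ∈ Z₁ := by
    intro t ht; rw [hz]; exact hVS t ht v' hv'V
  have hzmul : ∀ t₁ ∈ (S : Subgroup G), ∀ t₂ ∈ (S : Subgroup G), z (t₁ * t₂) = z t₁ * z t₂ := by
    intro t₁ ht₁ t₂ ht₂
    have h1 : t₁ * z t₂ = z t₂ * t₁ := hZ₁c _ (hzZ t₂ ht₂) t₁ ht₁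
    have h2 : z (t₁ * t₂) = t₁ * z t₂ * t₁⁻¹ * z t₁ := by rw [hz, hz, hz]; group
    rw [h2, h1, mul_inv_cancel_right]
    exact hVcomm _ (hZ₁V (hzZ t₂ ht₂)) _ (hZ₁V (hzZ t₁ ht₁))
  have hzQ : ∀ t ∈ Q, z t = 1 := by
    intro t ht
    rw [hz, hVc v' hv'V t ht, mul_inv_cancel_right, mul_inv_cancel]
  obtain ⟨c, hc⟩ : ∃ c : G → G, ∀ t, c t = g * z t * g⁻¹ := ⟨fun t => _, fun t => rfl⟩
  have hcV : ∀ t ∈ (S : Subgroup G), c t ∈ V := by
    intro t ht; rw [hc]; exact hVn.conj_mem _ (hZ₁V (hzZ t ht)) g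
  have hc_eq : ∀ t : G, c t = (g * t * g⁻¹) * v * (g * t * g⁻¹)⁻¹ * v⁻¹ := by
    intro t; rw [hc, hz, hv']; group
  have hc_comm : ∀ t ∈ (S : Subgroup G), ∀ t₁ ∈ (S : Subgroup G),
      (g * t₁ * g⁻¹) * c t = c t * (g * t₁ * g⁻¹) := by
    intro t ht t₁ ht₁
    have h1 : t₁ * z t = z t * t₁ := hZ₁c _ (hzZ t ht) t₁ ht₁
    rw [hc]
    calc g * t₁ * g⁻¹ * (g * z t * g⁻¹) = g * (t₁ * z t) * g⁻¹ := by group
      _ = g * (z t * t₁) * g⁻¹ := by rw [h1]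
      _ = g * z t * g⁻¹ * (g * t₁ * g⁻¹) := by group
  have hcmul : ∀ t₁ ∈ (S : Subgroup G), ∀ t₂ ∈ (S : Subgroup G), c (t₁ * t₂) = c t₁ * c t₂ := by
    intro t₁ ht₁ t₂ ht₂
    rw [hc, hc, hc, hzmul t₁ ht₁ t₂ ht₂]; group
  obtain ⟨Φ, hΦ⟩ : ∃ Φ : G → G, ∀ t, Φ t = s * c t * s⁻¹ * (c t)⁻¹ := ⟨fun t => _, fun t => rfl⟩
  have hΦZ : ∀ t ∈ (S : Subgroup G), Φ t ∈ Z₁ := by
    intro t ht; rw [hΦ]; exact hVS s hsS _ (hcV t ht)
  have hΦmul : ∀ t₁ ∈ (S : Subgroup G), ∀ t₂ ∈ (S : Subgroup G), Φ (t₁ * t₂) = Φ t₁ * Φ t₂ := by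
    intro t₁ ht₁ t₂ ht₂
    have h1 : Φ t₂ * (c t₁)⁻¹ = (c t₁)⁻¹ * Φ t₂ :=
      hVcomm _ (hZ₁V (hΦZ t₂ ht₂)) _ (V.inv_mem (hcV t₁ ht₁))
    rw [hΦ] at h1
    rw [hΦ, hΦ, hΦ, hcmul t₁ ht₁ t₂ ht₂]
    calc s * (c t₁ * c t₂) * s⁻¹ * (c t₁ * c t₂)⁻¹
        = s * c t₁ * s⁻¹ * ((s * c t₂ * s⁻¹ * (c t₂)⁻¹) * (c t₁)⁻¹) := by group
      _ = s * c t₁ * s⁻¹ * ((c t₁)⁻¹ * (s * c t₂ * s⁻¹ * (c t₂)⁻¹)) := by rw [h1]
      _ = s * c t₁ * s⁻¹ * (c t₁)⁻¹ * (s * c t₂ * s⁻¹ * (c t₂)⁻¹) := by group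
  obtain ⟨Ψ, hΨ⟩ : ∃ Ψ : ↥(S : Subgroup G) →* G ⧸ Vi,
      ∀ t : ↥(S : Subgroup G), Ψ t = QuotientGroup.mk' Vi (Φ (t : G)) :=
    ⟨MonoidHom.mk' (fun t => QuotientGroup.mk' Vi (Φ (t : G))) (by
      intro t₁ t₂
      rw [Subgroup.coe_mul, hΦmul _ t₁.2 _ t₂.2, map_mul]), fun t => rfl⟩
  have hπ1 : ∀ x : G, QuotientGroup.mk' Vi x = 1 ↔ x ∈ Vi := fun x => QuotientGroup.eq_one_iff x
  have hker : Ψ.ker = Q.subgroupOf (S : Subgroup G) := by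
    ext t
    rw [MonoidHom.mem_ker, Subgroup.mem_subgroupOf, hΨ]
    constructor
    · intro h
      have h1 : Φ t ∈ Vi := (hπ1 _).mp h
      by_contra htQ
      have h2 : c t ∈ Vi := K1 (c t) (hcV t t.2) (by rw [← hΦ]; exact h1)
        (fun t₁ ht₁ => hc_comm t t.2 t₁ ht₁)
      apply hvi
      apply K2 v (hZ₁V hv) (fun t₁ ht₁ => hZ₁c v hv t₁ ht₁) t t.2 htQ
      rw [← hc_eq]; exact h2
    · intro htQ
      have h1 : Φ t = 1 := by
        rw [hΦ, hc, hzQ t htQ]; group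
      rw [h1, map_one]
  have hrange : Ψ.range ≤ Z₁.map (QuotientGroup.mk' Vi) := by
    rintro _ ⟨t, rfl⟩
    rw [hΨ]
    exact Subgroup.mem_map_of_mem _ (hΦZ t t.2)
  have hcardker : Nat.card Ψ.range * Nat.card Q = Nat.card (S : Subgroup G) := by
    have h1 := Subgroup.card_mul_index Ψ.ker
    rw [Subgroup.index_ker, hker] at h1
    have h2 : Nat.card (Q.subgroupOf (S : Subgroup G)) = Nat.card Q :=
      Nat.card_congr (Subgroup.subgroupOfEquivOfLe hQS).toEquiv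
    rw [h2] at h1
    rw [mul_comm]; exact h1
  have hZmap : Nat.card (Z₁ ⊓ Vi : Subgroup G) * Nat.card (Z₁.map (QuotientGroup.mk' Vi)) =
      Nat.card Z₁ := by
    have h1 := Cfsg.Agent.Lib.Helper14.card_mul_relIndex (inf_le_left : Z₁ ⊓ Vi ≤ Z₁)
    rw [Subgroup.inf_relIndex_left] at h1
    have h2 := Subgroup.relIndex_ker (K := Z₁) (QuotientGroup.mk' Vi)
    rw [QuotientGroup.ker_mk'] at h2
    rw [← h2]; exact h1
  -- the offender count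
  obtain ⟨A', hA'⟩ : ∃ A' : Subgroup G, A' = cj g A := ⟨_, rfl⟩
  have hA'max : A' ∈ maxElementaryAbelianSubgroups 2 G := by rw [hA']; exact maxEA_conj g hA
  have hA'comm : ∀ x ∈ A', ∀ y ∈ A', x * y = y * x := ea_comm hA'max.1
  have hsA' : g * s * g⁻¹ ∈ A' := by rw [hA']; exact conj_mem_cj hsA
  have hQS' : Q ≤ cj g (S : Subgroup G) := by
    intro q hq
    rw [mem_cj]
    apply hQS
    have := hQn.conj_mem q hq g⁻¹
    rwa [inv_inv] at this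
  have hA'S : A' ≤ cj g (S : Subgroup G) := by rw [hA']; exact cj_mono hAS
  have hi : Z₁ ⊓ A' ≤ Vi := by
    intro x hx
    apply K2 x (hZ₁V hx.1) (fun t ht => hZ₁c x hx.1 t ht) s hsS hsQ
    rw [hA'comm _ hsA' _ hx.2, mul_inv_cancel_right, mul_inv_cancel]
    exact Vi.one_mem
  have hVea : IsElementaryAbelian 2 V := ea_of_forall hVcomm hV2
  have hea : IsElementaryAbelian 2 ((A' ⊓ Q) ⊔ V) :=
    ea_sup (ea_of_le hA'max.1 inf_le_left) hVea (fun a ha b hb => hVc b hb a ha.2)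
  have e1 := card_sup_mul_card_inf (H := A' ⊓ Q) (K := V)
    (by rw [Subgroup.normalizer_eq_top_iff.mpr hVn]; exact le_top)
  have e2 := card_sup_mul_card_inf (H := A') (K := Q)
    (by rw [Subgroup.normalizer_eq_top_iff.mpr hQn]; exact le_top)
  have e3 := card_sup_mul_card_inf (H := Z₁) (K := V ⊓ A') (by
    intro x hx
    apply Subgroup.centralizer_le_normalizer
    rw [Subgroup.mem_centralizer_iff]
    intro y hy
    exact hVcomm y hy.1 x (hZ₁V hx))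
  have b1 : Nat.card ((A' ⊓ Q) ⊔ V : Subgroup G) ≤ Nat.card A' := hA'max.2 _ hea
  have b2 : Nat.card ((A' ⊓ Q) ⊓ V : Subgroup G) ≤ Nat.card (V ⊓ A' : Subgroup G) :=
    Subgroup.card_le_of_le (by intro x hx; exact ⟨hx.2, hx.1.1⟩)
  have b3 : Nat.card (A' ⊔ Q : Subgroup G) ≤ Nat.card (S : Subgroup G) := by
    rw [← card_cj g (S : Subgroup G)]; exact Subgroup.card_le_of_le (sup_le hA'S hQS')
  have b4 : Nat.card (Z₁ ⊔ (V ⊓ A') : Subgroup G) ≤ Nat.card V :=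
    Subgroup.card_le_of_le (sup_le hZ₁V inf_le_left)
  have b5 : Nat.card (Z₁ ⊓ (V ⊓ A') : Subgroup G) ≤ Nat.card (Z₁ ⊓ Vi : Subgroup G) :=
    Subgroup.card_le_of_le (by intro x hx; exact ⟨hx.1, hi ⟨hx.1, hx.2.2⟩⟩)
  have i1 : Nat.card (A' ⊓ Q : Subgroup G) * Nat.card V ≤
      Nat.card A' * Nat.card (V ⊓ A' : Subgroup G) := by
    rw [← e1]; exact Nat.mul_le_mul b1 b2
  have i2 : Nat.card A' * Nat.card Q ≤
      Nat.card (S : Subgroup G) * Nat.card (A' ⊓ Q : Subgroup G) := by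
    rw [← e2]; exact Nat.mul_le_mul b3 le_rfl
  have i3 : Nat.card Z₁ * Nat.card (V ⊓ A' : Subgroup G) ≤
      Nat.card V * Nat.card (Z₁ ⊓ Vi : Subgroup G) := by
    rw [← e3]; exact Nat.mul_le_mul b4 b5
  have hcount : Nat.card Z₁ * Nat.card Q ≤
      Nat.card (Z₁ ⊓ Vi : Subgroup G) * Nat.card (S : Subgroup G) :=
    arith_count _ _ _ _ _ _ _ _ Nat.card_pos Nat.card_pos Nat.card_pos Nat.card_pos i1 i2 i3
  have hle : Nat.card (Z₁.map (QuotientGroup.mk' Vi)) ≤ Nat.card Ψ.range :=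
    arith_count2 _ _ _ _ _ _ Nat.card_pos Nat.card_pos hZmap hcardker hcount
  have hrange_eq : Ψ.range = Z₁.map (QuotientGroup.mk' Vi) :=
    Subgroup.eq_of_le_of_card_ge hrange hle
  have hvmem : QuotientGroup.mk' Vi v ∈ Ψ.range := by
    rw [hrange_eq]; exact Subgroup.mem_map_of_mem _ hv
  obtain ⟨t, ht⟩ := hvmem
  rw [hΨ] at ht
  apply Cfsg.Agent.Lib.Helper2.involves_of_quotient Vi
  obtain ⟨u, hu⟩ : ∃ u : G, u = g * t * g⁻¹ := ⟨_, rfl⟩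
  obtain ⟨w, hw⟩ : ∃ w : G, w = c t := ⟨_, rfl⟩
  have hwV : w ∈ V := by rw [hw]; exact hcV t t.2
  have hvV : v ∈ V := hZ₁V hv
  refine s4_of_two_transv (QuotientGroup.mk' Vi s) (QuotientGroup.mk' Vi u)
    (QuotientGroup.mk' Vi v) (QuotientGroup.mk' Vi w) ?_ ?_ ?_ ?_ ?_ ?_ ?_ ?_
  · rw [← map_pow, hV2 v hvV, map_one]
  · rw [← map_pow, hV2 w hwV, map_one]
  · rw [← map_mul, ← map_mul, hVcomm v hvV w hwV]
  · intro h; exact hvi ((hπ1 v).mp h)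
  · rw [← map_inv, ← map_mul, ← map_mul]
    congr 1
    rw [hZ₁c v hv s hsS, mul_inv_cancel_right]
  · have h1 : QuotientGroup.mk' Vi (s * w * s⁻¹ * w⁻¹) = QuotientGroup.mk' Vi v := by
      rw [hw, ← hΦ]; exact ht
    rw [map_mul, map_mul, map_mul, map_inv, map_inv] at h1
    rw [← h1]; group
  · rw [← map_inv, ← map_mul, ← map_mul, ← map_mul]
    congr 1
    have h1 : u * v * u⁻¹ = w * v := by rw [hw, hc_eq, hu]; group
    rw [h1]; exact hVcomm w hwV v hvV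
  · rw [← map_inv, ← map_mul, ← map_mul]
    congr 1
    have h1 := hc_comm t t.2 t t.2
    rw [hu, hw, h1, mul_inv_cancel_right]

end Cfsg.Agent.Lib.Helper3.CT
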