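import Mathlib
import Cfsg.Agent.Lib.Helper3.CT2

set_option autoImplicit false

/-!
# Class-two Sylow `2`-subgroups in `S₄`-free constrained groups: the core case (helper3)
-/

namespace Cfsg.Agent.Lib.Helper3.CT

open Cfsg Cfsg.Agent.Lib.Helper14

universe u

set_option maxHeartbeats 1000000 in
/-- the core case: `C_G(O_2(G)) ≤ O_2(G)`. -/
theorem core_aux' : ∀ (n : ℕ) (G : Type u) [Group G] [Finite G], Nat.card G = n →
    Subgroup.centralizer (pCore 2 G : Set G) ≤ pCore 2 G →
    ¬ Involves (Equiv.Perm (Fin 4)) G →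
    ∀ S : Sylow 2 G, Subgroup.lowerCentralSeries (S : Subgroup G) 2 = ⊥ →
    Subgroup.normalizer (thompsonSubgroupOf 2 (S : Subgroup G) : Set G) = ⊤ := by
  intro n
  induction n using Nat.strong_induction_on with
  | _ n ih =>
  intro G _ _ hn hCQ₀ hS4 S hcl
  haveI : Fact (Nat.Prime 2) := ⟨Nat.prime_two⟩
  by_contra hM
  obtain ⟨J, hJ⟩ : ∃ J : Subgroup G, J = thompsonSubgroupOf 2 (S : Subgroup G) := ⟨_, rfl⟩
  rw [← hJ] at hM
  obtain ⟨Q, hQ⟩ : ∃ Q : Subgroup G, Q = pCore 2 G := ⟨_, rfl⟩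
  have hCQ : Subgroup.centralizer (Q : Set G) ≤ Q := by rw [hQ]; exact hCQ₀
  haveI hQn : Q.Normal := by rw [hQ]; exact Cfsg.Agent.Lib.Helper40.pCore_normal' 2
  have hQS : Q ≤ (S : Subgroup G) := by rw [hQ]; exact pCore_le_sylow S
  have hQ2 : IsPGroup 2 Q := by rw [hQ]; exact pCore_isPGroup
  have hNS : Subgroup.normalizer ((S : Subgroup G) : Set G) ≤ Subgroup.normalizer (J : Set G) := by
    rw [hJ]; exact normalizer_le_normalizer_thompsonOf _
  have hSM : (S : Subgroup G) ≤ Subgroup.normalizer (J : Set G) :=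
    Subgroup.le_normalizer.trans hNS
  -- Step 1: proper subgroups containing `S` normalize `J`
  have step1 : ∀ H : Subgroup G, (S : Subgroup G) ≤ H → H ≠ ⊤ →
      H ≤ Subgroup.normalizer (J : Set G) := by
    intro H hSH hHtop
    have hlt : Nat.card ↥H < n := by
      rw [← hn]
      by_contra hge
      exact hHtop (Subgroup.eq_top_of_le_card H (not_lt.mp hge))
    have hCH : Subgroup.centralizer (pCore 2 ↥H : Set ↥H) ≤ pCore 2 ↥H := by
      have hQH : Q.subgroupOf H ≤ pCore 2 ↥H :=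
        le_pCore inferInstance (hQ2.comap_subtype)
      intro x hx
      apply hQH
      rw [Subgroup.mem_subgroupOf]
      apply hCQ
      rw [Subgroup.mem_centralizer_iff]
      intro q hq
      have h1 := Subgroup.mem_centralizer_iff.mp hx ⟨q, hSH (hQS hq)⟩
        (hQH (Subgroup.mem_subgroupOf.mpr hq))
      exact congrArg Subtype.val h1
    have hS4H : ¬ Involves (Equiv.Perm (Fin 4)) ↥H :=
      fun h => hS4 (Cfsg.Agent.Lib.Helper2.involves_of_subgroup H h)
    have hclH : Subgroup.lowerCentralSeries ((S.subtype hSH : Sylow 2 ↥H) : Subgroup ↥H) 2 = ⊥ := by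
      rw [Sylow.coe_subtype]
      show ⁅⁅(S : Subgroup G).subgroupOf H, (S : Subgroup G).subgroupOf H⁆,
        (S : Subgroup G).subgroupOf H⁆ = ⊥
      apply (Subgroup.map_eq_bot_iff_of_injective _ H.subtype_injective).mp
      rw [Subgroup.map_commutator, Subgroup.map_commutator, Subgroup.map_subgroupOf_eq_of_le hSH]
      exact hcl
    have key := ih (Nat.card ↥H) hlt ↥H rfl hCH hS4H (S.subtype hSH) hclH
    rw [Sylow.coe_subtype] at key
    rw [hJ]
    exact le_normalizer_thompsonOf_of_subgroup _ H hSH key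
  -- Step 3: the normal closure of `S` is `G`
  have step3 : Subgroup.normalClosure ((S : Subgroup G) : Set G) = ⊤ := by
    by_contra hL
    have hSL : (S : Subgroup G) ≤ Subgroup.normalClosure ((S : Subgroup G) : Set G) :=
      Subgroup.le_normalClosure
    have hLM := step1 _ hSL hL
    have hfr := normalizer_inf_sup_eq_top (Subgroup.normalClosure ((S : Subgroup G) : Set G)) S
    rw [inf_eq_left.mpr hSL] at hfr
    apply hM
    rw [eq_top_iff, ← hfr]
    exact sup_le hNS hLM
  -- Step 4: `G` acts trivially on `Q / N`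
  obtain ⟨Z, hZ⟩ : ∃ Z : Subgroup G, Z = (S : Subgroup G) ⊓
    Subgroup.centralizer ((S : Subgroup G) : Set G) := ⟨_, rfl⟩
  have hZS : Z ≤ (S : Subgroup G) := by rw [hZ]; exact inf_le_left
  have hZc : Z ≤ Subgroup.centralizer ((S : Subgroup G) : Set G) := by rw [hZ]; exact inf_le_right
  have hZQ : Z ≤ Q := fun z hz => hCQ (Subgroup.centralizer_le hQS (hZc hz))
  have hZcomm : ∀ x ∈ Z, ∀ y ∈ Z, x * y = y * x := by
    intro x hx y hy
    exact (Subgroup.mem_centralizer_iff.mp (hZc hx) y (hZS hy)).symm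
  obtain ⟨N, hN⟩ : ∃ N : Subgroup G, N = Subgroup.normalClosure (Z : Set G) := ⟨_, rfl⟩
  haveI hNn : N.Normal := by rw [hN]; exact Subgroup.normalClosure_normal
  have hZN : Z ≤ N := by rw [hN]; exact Subgroup.le_normalClosure
  haveI hCn : (Subgroup.centralizer (Q : Set G)).Normal := Subgroup.normal_centralizer
  have hNZQ : N ≤ Q ⊓ Subgroup.centralizer (Q : Set G) := by
    rw [hN]
    apply Subgroup.normalClosure_le_normal
    intro z hz
    exact Subgroup.mem_inf.mpr ⟨hZQ hz, Subgroup.centralizer_le hQS (hZc hz)⟩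
  have hNQ : N ≤ Q := hNZQ.trans inf_le_left
  have hNcomm : ∀ x ∈ N, ∀ y ∈ N, x * y = y * x := by
    intro x hx y hy
    exact (Subgroup.mem_centralizer_iff.mp (hNZQ hx).2 y (hNQ hy)).symm
  have hSS : ⁅(S : Subgroup G), (S : Subgroup G)⁆ ≤ Z := by
    rw [hZ]
    refine le_inf ?_ ?_
    · rw [Subgroup.commutator_le]
      intro a ha b hb
      rw [commutatorElement_def]
      exact Subgroup.mul_mem _ (Subgroup.mul_mem _ (Subgroup.mul_mem _ ha hb)
        (Subgroup.inv_mem _ ha)) (Subgroup.inv_mem _ hb)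
    · exact Subgroup.commutator_eq_bot_iff_le_centralizer.mp hcl
  have hstab : stabSub Q N = ⊤ := by
    rw [eq_top_iff, ← step3]
    apply Subgroup.normalClosure_le_normal
    intro s hs
    rw [SetLike.mem_coe, mem_stabSub]
    intro q hq
    apply hZN
    apply hSS
    rw [← commutatorElement_def]
    exact Subgroup.commutator_mem_commutator hs (hQS hq)
  have hQN : ∀ g : G, ∀ q ∈ Q, g * q * g⁻¹ * q⁻¹ ∈ N := by
    intro g
    have : g ∈ stabSub Q N := by rw [hstab]; exact Subgroup.mem_top g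
    exact mem_stabSub.mp this
  -- the module `V = Ω₁(N)` and `Ω₁(Z(S))`
  obtain ⟨Z₁, hZ₁⟩ : ∃ Z₁ : Subgroup G, Z₁ = omegaOne 2 ((S : Subgroup G) ⊓
    Subgroup.centralizer ((S : Subgroup G) : Set G)) := ⟨_, rfl⟩
  have hZ₁Z : Z₁ ≤ Z := by rw [hZ₁, hZ]; exact omegaOne_le _
  have hZ₁2 : ∀ z ∈ Z₁, z ^ 2 = 1 := by
    rw [hZ₁]
    have := ea_omegaOne_of_comm (p := 2) (H := (S : Subgroup G) ⊓
      Subgroup.centralizer ((S : Subgroup G) : Set G)) (by rw [← hZ]; exact hZcomm)
    exact this.2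
  haveI hV₁n : (omegaTwo N hNcomm).Normal := omegaTwo_normal N hNcomm
  obtain ⟨V, hV⟩ : ∃ V : Subgroup G, V = omegaTwo N hNcomm := ⟨_, rfl⟩
  haveI hVn : V.Normal := by rw [hV]; exact hV₁n
  have hVmem : ∀ x, x ∈ V ↔ x ∈ N ∧ x ^ 2 = 1 := by
    intro x; rw [hV]; exact mem_omegaTwo
  have hV2 : ∀ v ∈ V, v ^ 2 = 1 := fun v hv => ((hVmem v).mp hv).2
  have hVQ : V ≤ Q := fun x hx => hNQ ((hVmem x).mp hx).1
  have hVc : ∀ v ∈ V, ∀ q ∈ Q, q * v = v * q := by
    intro v hv q hq
    exact Subgroup.mem_centralizer_iff.mp (hNZQ ((hVmem v).mp hv).1).2 q hq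
  have hZ₁V : Z₁ ≤ V := fun z hz => (hVmem z).mpr ⟨hZN (hZ₁Z hz), hZ₁2 z hz⟩
  have hZ₁c : ∀ z ∈ Z₁, ∀ t ∈ (S : Subgroup G), t * z = z * t := by
    intro z hz t ht
    exact Subgroup.mem_centralizer_iff.mp (hZc (hZ₁Z hz)) t ht
  have hVS : ∀ t ∈ (S : Subgroup G), ∀ v ∈ V, t * v * t⁻¹ * v⁻¹ ∈ Z₁ := by
    intro s hs v hv
    rw [hVmem] at hv
    rw [hZ₁, ← hZ]
    apply mem_omegaOne_of_mem
    · apply hSS
      rw [← commutatorElement_def]
      exact Subgroup.commutator_mem_commutator hs (hQS (hNQ hv.1))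
    · have h1 : s * v * s⁻¹ ∈ N := hNn.conj_mem v hv.1 s
      have h2 : Commute (s * v * s⁻¹) v⁻¹ := hNcomm _ h1 _ (N.inv_mem hv.1)
      rw [h2.mul_pow, conj_pow, hv.2, inv_pow, hv.2]
      group
  obtain ⟨Vi, hVi⟩ : ∃ Vi : Subgroup G, Vi = oddFix V := ⟨_, rfl⟩
  haveI hVin : Vi.Normal := by rw [hVi]; exact oddFix_normal V
  have hVimem : ∀ x, x ∈ Vi ↔ x ∈ V ∧ ∀ y : G, Odd (orderOf y) → y * x = x * y := by
    intro x; rw [hVi]; exact mem_oddFix
  have hP : ∀ c ∈ V, (∀ h : G, h * c * h⁻¹ * c⁻¹ ∈ Vi) → c ∈ Vi := by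
    intro c hc hall
    rw [hVimem]
    refine ⟨hc, fun x hx => ?_⟩
    have h1 := (hVimem _).mp (hall x)
    exact comm_of_stab_coprime (h1.2 x hx) (hV2 _ h1.1) (Nat.coprime_two_right.mpr hx)
  by_cases hcase : Z₁ ≤ Vi
  · -- Case A: the elements of odd order centralize `Ω₁(Z(S))`
    haveI hVin' : Vi.Normal := hVin
    have hstab2 : stabSub V Vi = ⊤ := by
      rw [eq_top_iff, ← step3]
      apply Subgroup.normalClosure_le_normal
      intro s hs
      rw [SetLike.mem_coe, mem_stabSub]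
      intro v hv
      exact hcase (hVS s hs v hv)
    have hodd : ∀ x : G, Odd (orderOf x) → x = 1 := by
      intro x hx
      have hcop2 : ∀ k : ℕ, (orderOf x).Coprime (2 ^ k) := fun k =>
        Nat.Coprime.pow_right k (Nat.coprime_two_right.mpr hx)
      have h6a : ∀ v ∈ N, v ^ 2 = 1 → x * v = v * x := by
        intro v hvN hv2
        have hcZ : x * v * x⁻¹ * v⁻¹ ∈ Vi := by
          have : x ∈ stabSub V Vi := by rw [hstab2]; exact Subgroup.mem_top x
          exact mem_stabSub.mp this v ((hVmem v).mpr ⟨hvN, hv2⟩)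
        have h1 := (hVimem _).mp hcZ
        have h := hcop2 1
        rw [pow_one] at h
        exact comm_of_stab_coprime (h1.2 x hx) (hV2 _ h1.1) h
      have h6b : ∀ k : ℕ, ∀ v ∈ N, v ^ 2 ^ k = 1 → x * v = v * x := by
        intro k
        induction k with
        | zero =>
          intro v _ hv
          rw [pow_zero, pow_one] at hv
          rw [hv, mul_one, one_mul]
        | succ k ihk =>
          intro v hvN hv
          have hv2 : x * v ^ 2 = v ^ 2 * x :=
            ihk (v ^ 2) (N.pow_mem hvN 2) (by rw [← pow_mul, ← pow_succ']; exact hv)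
          have hcN : x * v * x⁻¹ * v⁻¹ ∈ N := N.mul_mem (hNn.conj_mem v hvN x) (N.inv_mem hvN)
          have hc2 : (x * v * x⁻¹ * v⁻¹) ^ 2 = 1 := by
            have h2 : Commute (x * v * x⁻¹) v⁻¹ :=
              hNcomm _ (hNn.conj_mem v hvN x) _ (N.inv_mem hvN)
            rw [h2.mul_pow, conj_pow, hv2, mul_inv_cancel_right, inv_pow, mul_inv_cancel]
          have h := hcop2 1
          rw [pow_one] at h
          exact comm_of_stab_coprime (h6a _ hcN hc2) hc2 h
      have h6b' : ∀ v ∈ N, x * v = v * x := by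
        intro v hv
        obtain ⟨k, hk⟩ := hQ2 ⟨v, hNQ hv⟩
        exact h6b k v hv (congrArg Subtype.val hk)
      have h6c : ∀ q ∈ Q, x * q = q * x := by
        intro q hq
        have hcN := hQN x q hq
        obtain ⟨k, hk⟩ := hQ2 ⟨_, hNQ hcN⟩
        exact comm_of_stab_coprime (h6b' _ hcN) (congrArg Subtype.val hk) (hcop2 k)
      have hxQ : x ∈ Q := by
        apply hCQ
        rw [Subgroup.mem_centralizer_iff]
        intro q hq
        exact (h6c q hq).symm
      obtain ⟨k, hk⟩ := hQ2 ⟨x, hxQ⟩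
      have hk' : x ^ 2 ^ k = 1 := congrArg Subtype.val hk
      have h1 : orderOf x ∣ 2 ^ k := orderOf_dvd_of_pow_eq_one hk'
      have h2 : orderOf x = 1 := by
        have h3 := Nat.dvd_gcd (dvd_refl (orderOf x)) h1
        rw [hcop2 k] at h3
        exact Nat.dvd_one.mp h3
      exact orderOf_eq_one_iff.mp h2
    -- `G` is a `2`-group
    have hG2 : IsPGroup 2 G := by
      intro g
      obtain ⟨k, m', hm', hm⟩ :=
        Nat.exists_eq_pow_mul_and_not_dvd (orderOf_pos g).ne' 2 (by norm_num)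
      refine ⟨k, ?_⟩
      apply hodd
      have h1 : orderOf (g ^ 2 ^ k) = m' := by
        rw [orderOf_pow_of_dvd (by positivity) ⟨m', hm⟩, hm,
          Nat.mul_div_cancel_left _ (by positivity)]
      rw [h1]
      exact Nat.odd_iff.mpr (by omega)
    have hStop : (S : Subgroup G) = ⊤ := by
      obtain ⟨j, hj⟩ := hG2.index (S : Subgroup G)
      have h1 := S.not_dvd_index
      rw [hj] at h1
      have hj0 : j = 0 := by
        by_contra h0
        exact h1 (dvd_pow_self 2 h0)
      rw [hj0, pow_zero] at hj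
      exact Subgroup.index_eq_one.mp hj
    apply hM
    rw [eq_top_iff, ← hStop]
    exact hSM
  · -- Case B: the counting argument
    obtain ⟨v, hv, hvi⟩ := SetLike.not_le_iff_exists.mp hcase
    obtain ⟨g, hg⟩ : ∃ g : G, g ∉ Subgroup.normalizer (J : Set G) := by
      by_contra h
      push Not at h
      exact hM (eq_top_iff.mpr (fun x _ => h x))
    have hSSQ : ∀ a ∈ (S : Subgroup G), ∀ b ∈ (S : Subgroup G), a * b * a⁻¹ * b⁻¹ ∈ Q := by
      intro a ha b hb
      apply hZQ
      apply hSS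
      rw [← commutatorElement_def]
      exact Subgroup.commutator_mem_commutator ha hb
    have hQmax : ∀ R : Subgroup G, R.Normal → IsPGroup 2 R → R ≤ Q := by
      intro R hRn hR2
      rw [hQ]
      exact le_pCore hRn hR2
    obtain ⟨A, hA, hAS, hAQ⟩ : ∃ A : Subgroup G, A ∈ maxElementaryAbelianSubgroups 2 G ∧
        A ≤ (S : Subgroup G) ∧ ¬ A ≤ Q := by
      by_contra hall
      push Not at hall
      apply hM
      rw [eq_top_iff]
      intro x _
      apply mem_normalizer_of_conj_mem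
      have hJeq : J = sSup {A | A ∈ maxElementaryAbelianSubgroups 2 G ∧ A ≤ (S : Subgroup G)} := by
        rw [hJ]; exact thompsonOf_sylow_eq_sSup S
      have h3 : J ≤ J.comap (MulAut.conj x).toMonoidHom := by
        conv_lhs => rw [hJeq]
        apply sSup_le
        rintro A ⟨hA, hAS⟩
        rw [← Subgroup.map_le_iff_le_comap, hJeq]
        apply le_sSup
        refine ⟨maxEA_conj x hA, ?_⟩
        rintro _ ⟨a, ha, rfl⟩
        apply hQS
        exact hQn.conj_mem a (hall A hA hAS ha) x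
      intro y hy
      exact h3 hy
    apply hS4
    exact caseB S Q V Z₁ Vi hQS hVQ hVc hV2 hZ₁V hZ₁c hVS hP g
      (gen_of_unique_max S _ Q hNS step1 hQS hSSQ hQmax g hg)
      (gen_of_unique_max' S _ Q hNS step1 hQS hSSQ hQmax g hg) A hA hAS hAQ v hv hvi

end Cfsg.Agent.Lib.Helper3.CT
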