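import Mathlib
import Cfsg.Agent.Lib.Helper42.Sec4

/-!
# Control of strong fusion by the normalizer of a strongly closed subgroup with a strongly closed
central series

`sc_chain_ctl`: if `W ≤ P` has a series `1 = W₀ ≤ W₁ ≤ ⋯ ≤ Wₙ = W` of subgroups strongly closed in
the Sylow subgroup `P` with `[W, W_{i+1}] ≤ W_i`, then `N_G(W)` controls strong fusion in `P`.
The proof is an Alperin induction (helper42's `alperin_fac`) using the stabilizer of the chain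
`A ≥ A ∩ Wₙ ≥ ⋯ ≥ A ∩ W₀ = 1`.
-/

set_option autoImplicit false

namespace Cfsg.Agent.Lib.Helper3.FC

open Cfsg
open Cfsg.Agent.Lib.Helper42

variable {G : Type*} [Group G]

section cstab

theorem chain_inv1 (B : ℕ → Subgroup G) (h0 : B 0 = ⊥) (hmono : ∀ i, B i ≤ B (i + 1)) {y : G}
    (hy : ∀ i, ∀ a ∈ B (i + 1), y * a * y⁻¹ * a⁻¹ ∈ B i) :
    ∀ i, ∀ b ∈ B i, y * b * y⁻¹ ∈ B i
  | 0, b, hb => by
    rw [h0, Subgroup.mem_bot] at hb
    rw [hb]; simp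
  | i + 1, b, hb => by
    have h1 := hy i b hb
    have e : y * b * y⁻¹ = (y * b * y⁻¹ * b⁻¹) * b := by group
    rw [e]
    exact (B (i + 1)).mul_mem (hmono i h1) hb

theorem chain_inv2 (B : ℕ → Subgroup G) (h0 : B 0 = ⊥) (hmono : ∀ i, B i ≤ B (i + 1)) {y : G}
    (hy : ∀ i, ∀ a ∈ B (i + 1), y * a * y⁻¹ * a⁻¹ ∈ B i) :
    ∀ i, ∀ b ∈ B i, y⁻¹ * b * y ∈ B i
  | 0, b, hb => by
    rw [h0, Subgroup.mem_bot] at hb
    rw [hb]; simp
  | i + 1, b, hb => by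
    have h1 := hy i b hb
    have h2 := chain_inv2 B h0 hmono hy i _ ((B i).inv_mem h1)
    have e : y⁻¹ * b * y = (y⁻¹ * (y * b * y⁻¹ * b⁻¹)⁻¹ * y) * b := by group
    rw [e]
    exact (B (i + 1)).mul_mem (hmono i h2) hb

/-- the stabilizer of a chain of subgroups -/
def cstab (B : ℕ → Subgroup G) (h0 : B 0 = ⊥) (hmono : ∀ i, B i ≤ B (i + 1)) : Subgroup G where
  carrier := {y | ∀ i, ∀ a ∈ B (i + 1), y * a * y⁻¹ * a⁻¹ ∈ B i}
  one_mem' := by
    intro i a _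
    simp
  mul_mem' := by
    intro x y hx hy i a ha
    have h1 := chain_inv1 B h0 hmono hx i _ (hy i a ha)
    have e : x * y * a * (x * y)⁻¹ * a⁻¹ = x * (y * a * y⁻¹ * a⁻¹) * x⁻¹ * (x * a * x⁻¹ * a⁻¹) := by
      group
    rw [e]
    exact (B i).mul_mem h1 (hx i a ha)
  inv_mem' := by
    intro x hx i a ha
    have h1 := chain_inv2 B h0 hmono hx i _ ((B i).inv_mem (hx i a ha))
    have e : x⁻¹ * a * x⁻¹⁻¹ * a⁻¹ = x⁻¹ * (x * a * x⁻¹ * a⁻¹)⁻¹ * x := by group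
    rw [e]
    exact h1

theorem mem_cstab {B : ℕ → Subgroup G} {h0 : B 0 = ⊥} {hmono : ∀ i, B i ≤ B (i + 1)} {y : G} :
    y ∈ cstab B h0 hmono ↔ ∀ i, ∀ a ∈ B (i + 1), y * a * y⁻¹ * a⁻¹ ∈ B i := Iff.rfl

theorem cstab_conj {B : ℕ → Subgroup G} {h0 : B 0 = ⊥} {hmono : ∀ i, B i ≤ B (i + 1)} {t : G}
    (ht : ∀ i, ∀ b ∈ B i, t * b * t⁻¹ ∈ B i ∧ t⁻¹ * b * t ∈ B i) {y : G}
    (hy : y ∈ cstab B h0 hmono) : t * y * t⁻¹ ∈ cstab B h0 hmono := by
  intro i a ha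
  have h1 := hy i _ (ht (i + 1) a ha).2
  have h2 := (ht i _ h1).1
  have e : t * y * t⁻¹ * a * (t * y * t⁻¹)⁻¹ * a⁻¹ =
      t * (y * (t⁻¹ * a * t) * y⁻¹ * (t⁻¹ * a * t)⁻¹) * t⁻¹ := by group
  rw [e]
  exact h2

theorem cstab_normalizer {B : ℕ → Subgroup G} {h0 : B 0 = ⊥} {hmono : ∀ i, B i ≤ B (i + 1)} {t : G}
    (ht : ∀ i, ∀ b ∈ B i, t * b * t⁻¹ ∈ B i ∧ t⁻¹ * b * t ∈ B i) :
    t ∈ Subgroup.normalizer ((cstab B h0 hmono : Subgroup G) : Set G) := by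
  rw [Subgroup.mem_normalizer_iff]
  intro y
  constructor
  · exact cstab_conj ht
  · intro h
    have ht' : ∀ i, ∀ b ∈ B i, t⁻¹ * b * t⁻¹⁻¹ ∈ B i ∧ t⁻¹⁻¹ * b * t⁻¹ ∈ B i := by
      intro i b hb
      rw [inv_inv]
      exact ⟨(ht i b hb).2, (ht i b hb).1⟩
    have := cstab_conj ht' h
    have e : t⁻¹ * (t * y * t⁻¹) * t⁻¹⁻¹ = y := by group
    rwa [e] at this

theorem cstab_pow [Finite G] {p : ℕ} [Fact p.Prime] {B : ℕ → Subgroup G} {h0 : B 0 = ⊥}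
    {hmono : ∀ i, B i ≤ B (i + 1)} (hB : ∀ i, IsPGroup p (B i)) {y : G}
    (hy : y ∈ cstab B h0 hmono) :
    ∀ m : ℕ, ∃ k : ℕ, ∀ a ∈ B m, y ^ p ^ k * a = a * y ^ p ^ k
  | 0 => ⟨0, fun a ha => by
      rw [h0, Subgroup.mem_bot] at ha
      rw [ha]; simp⟩
  | m + 1 => by
    obtain ⟨k, hk⟩ := cstab_pow hB hy m
    obtain ⟨j, hj⟩ := IsPGroup.iff_card.mp (hB m)
    refine ⟨k + j, fun a ha => ?_⟩
    have hz : y ^ p ^ k ∈ cstab B h0 hmono := Subgroup.pow_mem _ hy _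
    have hd := hz m a ha
    have hzd := hk _ hd
    have h2 := pow_conj_eq_pow_mul (z := y ^ p ^ k) (a := a) rfl hzd (p ^ j)
    have h3 : (y ^ p ^ k * a * (y ^ p ^ k)⁻¹ * a⁻¹) ^ p ^ j = 1 := by
      have := pow_card_eq_one' (G := ↥(B m)) (x := ⟨_, hd⟩)
      rw [hj] at this
      have := congrArg Subtype.val this
      simpa using this
    rw [h3, one_mul] at h2
    have e : y ^ p ^ (k + j) = (y ^ p ^ k) ^ p ^ j := by rw [pow_add, pow_mul]
    rw [e]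
    calc (y ^ p ^ k) ^ p ^ j * a
        = ((y ^ p ^ k) ^ p ^ j * a * ((y ^ p ^ k) ^ p ^ j)⁻¹) * (y ^ p ^ k) ^ p ^ j := by group
      _ = a * (y ^ p ^ k) ^ p ^ j := by rw [h2]

end cstab

section sylow

/-- a normal subgroup `Y` of `N'` which is a `p`-group modulo `D` is the product of its Sylow
subgroup `R ∩ Y` and `D`. -/
theorem mem_sylow_mul_of_pow [Finite G] {p : ℕ} [Fact p.Prime] {Y D R N' : Subgroup G}
    (hR : IsSylIn p R N') (hYN : Y ≤ N') (hNY : N' ≤ Subgroup.normalizer (Y : Set G))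
    (hDY : D ≤ Y) (hND : N' ≤ Subgroup.normalizer (D : Set G))
    (hpow : ∀ y ∈ Y, ∃ k : ℕ, y ^ p ^ k ∈ D) :
    ∀ y ∈ Y, ∃ u ∈ R ⊓ Y, ∃ c ∈ D, y = u * c := by
  have hp : p.Prime := Fact.out
  have hSylY : IsSylIn p (R ⊓ Y) Y := hR.inf_normal hYN hNY
  have hDn : (D.subgroupOf Y).Normal :=
    (Subgroup.normal_subgroupOf_iff_le_normalizer hDY).mpr (hYN.trans hND)
  have hquot : IsPGroup p (↥Y ⧸ D.subgroupOf Y) := by
    intro q
    induction q using QuotientGroup.induction_on with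
    | H y' =>
      obtain ⟨k, hk⟩ := hpow y' y'.2
      refine ⟨k, ?_⟩
      rw [← QuotientGroup.mk_pow, QuotientGroup.eq_one_iff, Subgroup.mem_subgroupOf]
      simpa using hk
  obtain ⟨n, hn⟩ := IsPGroup.iff_card.mp hquot
  have hDrel : D.relIndex Y = p ^ n := hn
  have hE1 : ((R ⊓ Y) ⊔ D).relIndex Y ∣ (R ⊓ Y).relIndex Y :=
    Subgroup.relIndex_dvd_of_le_left Y le_sup_left
  have hE2 : ((R ⊓ Y) ⊔ D).relIndex Y ∣ D.relIndex Y :=
    Subgroup.relIndex_dvd_of_le_left Y le_sup_right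
  rw [hDrel] at hE2
  obtain ⟨j, _, hj⟩ := (Nat.dvd_prime_pow hp).mp hE2
  have hj0 : j = 0 := by
    by_contra hne
    apply hSylY.2.2
    exact dvd_trans (hj ▸ dvd_pow_self p hne) hE1
  rw [hj0, pow_zero] at hj
  have hYE : Y ≤ (R ⊓ Y) ⊔ D := Subgroup.relIndex_eq_one.mp hj
  intro y hy
  exact mem_sup_of_le_normalizer (inf_le_left.trans (hR.1.trans hND)) (hYE hy)

theorem sc_le_normalizer' {D S : Subgroup G} (hD : IsStronglyClosed D S) :
    S ≤ Subgroup.normalizer (D : Set G) := by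
  intro s hs
  rw [Subgroup.mem_normalizer_iff]
  intro h
  constructor
  · intro hh
    exact hD.2 h hh s (S.mul_mem (S.mul_mem hs (hD.1 hh)) (S.inv_mem hs))
  · intro hh
    have h1 : s⁻¹ * (s * h * s⁻¹) * s⁻¹⁻¹ ∈ S := by
      rw [inv_inv]
      exact S.mul_mem (S.mul_mem (S.inv_mem hs) (hD.1 hh)) hs
    have h2 := hD.2 _ hh s⁻¹ h1
    have e : s⁻¹ * (s * h * s⁻¹) * s⁻¹⁻¹ = h := by group
    rwa [e] at h2

end sylow

section main

/-- **Strongly closed subgroups with a strongly closed central series control strong fusion.** -/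
theorem sc_chain_ctl [Finite G] {p : ℕ} [Fact p.Prime] (P : Sylow p G) (W : Subgroup G)
    (Wf : ℕ → Subgroup G) (n : ℕ) (h0 : Wf 0 = ⊥) (hn : Wf n = W)
    (hmono : ∀ i, Wf i ≤ Wf (i + 1))
    (hsc : ∀ i, IsStronglyClosed (Wf i) (P : Subgroup G))
    (hcen : ∀ i, ∀ w ∈ W, ∀ x ∈ Wf (i + 1), w * x * w⁻¹ * x⁻¹ ∈ Wf i) :
    ∀ (T : Subgroup G) (g : G), T ≤ (P : Subgroup G) → cj g T ≤ (P : Subgroup G) →
      Fac (Subgroup.normalizer (W : Set G)) T g := by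
  have hWsc : IsStronglyClosed W (P : Subgroup G) := hn ▸ hsc n
  have hPp : IsPGroup p (P : Subgroup G) := P.isPGroup'
  apply alperin_fac P
  intro A hA IH
  obtain ⟨m, hm, hsyl⟩ := exists_fn_conj P hA
  refine ⟨m, hm, hsyl.2.2, fun t ht => ?_⟩
  have hcardA : Nat.card A = Nat.card (cj m A) := (card_cj m A).symm
  obtain ⟨A', hA'def⟩ : ∃ A' : Subgroup G, A' = cj m A := ⟨_, rfl⟩
  rw [← hA'def] at hm hsyl ht hcardA ⊢
  -- the chain
  obtain ⟨B, hBdef⟩ : ∃ B : ℕ → Subgroup G, B = fun i => if i ≤ n then A' ⊓ Wf i else A' :=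
    ⟨_, rfl⟩
  have hBle_n : ∀ i, i ≤ n → B i = A' ⊓ Wf i := by
    intro i hi; rw [hBdef]; simp only [if_pos hi]
  have hBgt_n : ∀ i, ¬ i ≤ n → B i = A' := by
    intro i hi; rw [hBdef]; simp only [if_neg hi]
  have hB0 : B 0 = ⊥ := by rw [hBle_n 0 (Nat.zero_le n), h0, inf_bot_eq]
  have hBle : ∀ i, B i ≤ A' := by
    intro i
    by_cases h : i ≤ n
    · rw [hBle_n i h]; exact inf_le_left
    · rw [hBgt_n i h]
  have hBmono : ∀ i, B i ≤ B (i + 1) := by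
    intro i
    by_cases h1 : i + 1 ≤ n
    · rw [hBle_n i (by omega), hBle_n (i + 1) h1]
      exact inf_le_inf_left _ (hmono i)
    · rw [hBgt_n (i + 1) h1]; exact hBle i
  have hBp : ∀ i, IsPGroup p (B i) := fun i => hPp.to_le ((hBle i).trans hm)
  have hBtop : B (n + 1) = A' := hBgt_n (n + 1) (by omega)
  obtain ⟨Θ, hΘdef⟩ : ∃ Θ : Subgroup G, Θ = cstab B hB0 hBmono := ⟨_, rfl⟩
  have hmemΘ : ∀ y, y ∈ Θ ↔ ∀ i, ∀ a ∈ B (i + 1), y * a * y⁻¹ * a⁻¹ ∈ B i := by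
    intro y; rw [hΘdef]; exact Iff.rfl
  have hΘN : Θ ≤ Subgroup.normalizer (A' : Set G) := by
    have key : ∀ y ∈ Θ, ∀ a ∈ A', y * a * y⁻¹ ∈ A' := by
      intro y hy a ha
      have h1 := (hmemΘ y).mp hy (n + 1) a (by rw [hBgt_n (n + 1 + 1) (by omega)]; exact ha)
      rw [hBtop] at h1
      have e : y * a * y⁻¹ = (y * a * y⁻¹ * a⁻¹) * a := by group
      rw [e]; exact A'.mul_mem h1 ha
    intro y hy
    rw [Subgroup.mem_normalizer_iff]
    intro a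
    constructor
    · exact key y hy a
    · intro h
      have := key y⁻¹ (Θ.inv_mem hy) _ h
      have e : y⁻¹ * (y * a * y⁻¹) * y⁻¹⁻¹ = a := by group
      rwa [e] at this
  have hNΘ : Subgroup.normalizer (A' : Set G) ≤ Subgroup.normalizer (Θ : Set G) := by
    intro t ht
    rw [hΘdef]
    apply cstab_normalizer
    intro i b hb
    have hbA : b ∈ A' := hBle i hb
    have h1 : t * b * t⁻¹ ∈ A' := (Subgroup.mem_normalizer_iff.mp ht b).mp hbA
    have h2 : t⁻¹ * b * t ∈ A' := by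
      have := (Subgroup.mem_normalizer_iff.mp (Subgroup.inv_mem _ ht) b).mp hbA
      rwa [inv_inv] at this
    by_cases hi : i ≤ n
    · rw [hBle_n i hi] at hb ⊢
      refine ⟨⟨h1, (hsc i).2 b hb.2 t (hm h1)⟩, ⟨h2, ?_⟩⟩
      have := (hsc i).2 b hb.2 t⁻¹ (by rw [inv_inv]; exact hm h2)
      rwa [inv_inv] at this
    · rw [hBgt_n i hi]
      exact ⟨h1, h2⟩
  have hCΘ : Subgroup.centralizer (A' : Set G) ≤ Θ := by
    intro y hy
    rw [hmemΘ]
    intro i a ha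
    have h1 := Subgroup.mem_centralizer_iff.mp hy a (hBle _ ha)
    have e : y * a * y⁻¹ * a⁻¹ = 1 := by rw [← h1]; group
    rw [e]; exact Subgroup.one_mem _
  have hWΘ : W ⊓ Subgroup.normalizer (A' : Set G) ≤ Θ := by
    rintro y ⟨hyW, hyN⟩
    rw [hmemΘ]
    intro i a ha
    have haA : a ∈ A' := hBle _ ha
    have h1 : y * a * y⁻¹ * a⁻¹ ∈ A' :=
      A'.mul_mem ((Subgroup.mem_normalizer_iff.mp hyN a).mp haA) (A'.inv_mem haA)
    by_cases hi1 : i + 1 ≤ n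
    · rw [hBle_n (i + 1) hi1] at ha
      rw [hBle_n i (by omega)]
      exact ⟨h1, hcen i y hyW a ha.2⟩
    · by_cases hi : i ≤ n
      · have hin : i = n := by omega
        rw [hBle_n i hi, hin, hn]
        refine ⟨h1, ?_⟩
        have h2 : a * y⁻¹ * a⁻¹ ∈ W :=
          hWsc.2 y⁻¹ (W.inv_mem hyW) a
            ((P : Subgroup G).mul_mem ((P : Subgroup G).mul_mem (hm haA)
              ((P : Subgroup G).inv_mem (hWsc.1 hyW))) ((P : Subgroup G).inv_mem (hm haA)))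
        have e : y * a * y⁻¹ * a⁻¹ = y * (a * y⁻¹ * a⁻¹) := by group
        rw [e]; exact W.mul_mem hyW h2
      · rw [hBgt_n i hi]; exact h1
  have hpow : ∀ y ∈ Θ, ∃ k : ℕ, y ^ p ^ k ∈ Subgroup.centralizer (A' : Set G) := by
    intro y hy
    rw [hΘdef] at hy
    obtain ⟨k, hk⟩ := cstab_pow hBp hy (n + 1)
    refine ⟨k, ?_⟩
    rw [Subgroup.mem_centralizer_iff]
    intro a ha
    exact (hk a (by rw [hBtop]; exact ha)).symm
  have hSylΘ : IsSylIn p (((P : Subgroup G) ⊓ Subgroup.normalizer (A' : Set G)) ⊓ Θ) Θ :=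
    hsyl.inf_normal hΘN hNΘ
  by_cases hYA : ((P : Subgroup G) ⊓ Subgroup.normalizer (A' : Set G)) ⊓ Θ ≤ A'
  · have hWA : W ≤ A' := by
      by_contra hWA
      have hlt := card_lt_card_inf_normalizer (S := A' ⊔ W) (A := A')
        (hPp.to_le (sup_le hm hWsc.1)) le_sup_left (fun h => hWA (le_sup_right.trans h.ge))
      have hnle : ¬ ((A' ⊔ W) ⊓ Subgroup.normalizer (A' : Set G) ≤ A') :=
        fun hle => absurd (Subgroup.card_le_of_le hle) (not_le.mpr hlt)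
      obtain ⟨x, hx, hxA⟩ := SetLike.not_le_iff_exists.mp hnle
      have hAW : A' ≤ Subgroup.normalizer (W : Set G) := hm.trans (sc_le_normalizer' hWsc)
      obtain ⟨a, ha, w, hw, rfl⟩ := mem_sup_of_le_normalizer hAW hx.1
      have hwN : w ∈ Subgroup.normalizer (A' : Set G) := by
        have := Subgroup.mul_mem _ (Subgroup.inv_mem _ (Subgroup.le_normalizer ha)) hx.2
        rwa [inv_mul_cancel_left] at this
      exact hxA (A'.mul_mem ha (hYA ⟨⟨hWsc.1 hw, hwN⟩, hWΘ ⟨hw, hwN⟩⟩))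
    have htW : t ∈ Subgroup.normalizer (W : Set G) := by
      rw [← cj_eq_self_iff]
      apply Subgroup.eq_of_le_of_card_ge
      · rintro _ ⟨w, hw, rfl⟩
        have h1 : t * w * t⁻¹ ∈ A' := (Subgroup.mem_normalizer_iff.mp ht w).mp (hWA hw)
        exact hWsc.2 w hw t (hm h1)
      · rw [card_cj]
    exact Fac.of_mem htW
  · obtain ⟨θ, hθ, hθt⟩ := frattini_isSylIn hSylΘ (g := t) (hNΘ ht)
    obtain ⟨u, hu, c, hc, huc⟩ := mem_sylow_mul_of_pow hsyl hΘN hNΘ hCΘ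
      (normalizer_le_normalizer_centralizer A') hpow θ⁻¹ (Θ.inv_mem hθ)
    have hn₁A : θ * t ∈ Subgroup.normalizer (A' : Set G) := Subgroup.mul_mem _ (hΘN hθ) ht
    have hc' : (θ * t)⁻¹ * c * (θ * t) ∈ Subgroup.centralizer (A' : Set G) := by
      have h1 : (θ * t)⁻¹ * c * (θ * t)⁻¹⁻¹ ∈
          cj (θ * t)⁻¹ (Subgroup.centralizer (A' : Set G)) := conj_mem_cj hc
      rw [← centralizer_cj, cj_eq_of_mem_normalizer (Subgroup.inv_mem _ hn₁A), inv_inv] at h1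
      exact h1
    have e : t = (u * (θ * t)) * ((θ * t)⁻¹ * c * (θ * t)) := by
      have h1 : u * c * θ = 1 := by rw [← huc]; group
      calc t = (u * c * θ) * t := by rw [h1, one_mul]
        _ = (u * (θ * t)) * ((θ * t)⁻¹ * c * (θ * t)) := by group
    have hB₁ : A' ⊔ (((P : Subgroup G) ⊓ Subgroup.normalizer (A' : Set G)) ⊓ Θ) ≤
        (P : Subgroup G) := sup_le hm (inf_le_left.trans inf_le_left)
    have hlt : Nat.card A <
        Nat.card (A' ⊔ (((P : Subgroup G) ⊓ Subgroup.normalizer (A' : Set G)) ⊓ Θ) : Subgroup G) := by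
      rw [hcardA]
      exact card_lt_of_lt (lt_of_le_of_ne le_sup_left (fun h => hYA (le_sup_right.trans h.ge)))
    have huN : u ∈ Subgroup.normalizer (A' : Set G) := hu.1.2
    have hcjB : cj (u * (θ * t)) (A' ⊔ (((P : Subgroup G) ⊓ Subgroup.normalizer (A' : Set G)) ⊓ Θ)) =
        A' ⊔ (((P : Subgroup G) ⊓ Subgroup.normalizer (A' : Set G)) ⊓ Θ) := by
      show (A' ⊔ (((P : Subgroup G) ⊓ Subgroup.normalizer (A' : Set G)) ⊓ Θ)).map _ = _
      rw [Subgroup.map_sup]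
      have h1 : cj (u * (θ * t)) A' = A' :=
        cj_eq_of_mem_normalizer (Subgroup.mul_mem _ huN hn₁A)
      have h2 : cj (u * (θ * t)) (((P : Subgroup G) ⊓ Subgroup.normalizer (A' : Set G)) ⊓ Θ) =
          ((P : Subgroup G) ⊓ Subgroup.normalizer (A' : Set G)) ⊓ Θ :=
        cj_eq_of_mem_normalizer (Subgroup.mul_mem _ (Subgroup.le_normalizer hu) hθt)
      exact congrArg₂ _ h1 h2
    have h3 := IH _ (u * (θ * t)) hB₁ (by rw [hcjB]; exact hB₁) hlt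
    have h4 := (h3.mono le_sup_left).mul_right hc'
    rw [← e] at h4
    exact h4

end main

end Cfsg.Agent.Lib.Helper3.FC
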