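import Mathlib
import Cfsg.Agent.Lib.Helper3.FC1

/-!
# Local control of fusion lifts from a normal subgroup (`S1954`)

`lift_ctl`: `N ⊴ G' ≤ G` with `G'` controlling strong fusion in the Sylow subgroup `P`; if
`N_N(V)` controls strong `N`-fusion in `P ∩ N`, then for `W = ⟨V^x : x ∈ N_{G'}(P ∩ N)⟩` the
normalizer `N_G(W)` controls strong fusion in `P`.
-/

set_option autoImplicit false

namespace Cfsg.Agent.Lib.Helper3.FC

open Cfsg
open Cfsg.Agent.Lib.Helper42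
open scoped commutatorElement

variable {G : Type*} [Group G]

section ucs

/-- conjugation by an element normalizing `W`, as an automorphism of `W` -/
def conjEquiv (W : Subgroup G) (h : G) (hh : cj h W = W) : ↥W ≃* ↥W where
  toFun w := ⟨h * (w : G) * h⁻¹, by
    have := conj_mem_cj (g := h) w.2
    rwa [hh] at this⟩
  invFun w := ⟨h⁻¹ * (w : G) * h, by
    have h1 : (w : G) ∈ cj h W := by rw [hh]; exact w.2
    exact mem_cj.mp h1⟩
  left_inv w := Subtype.ext (by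
    show h⁻¹ * (h * (w : G) * h⁻¹) * h = (w : G)
    group)
  right_inv w := Subtype.ext (by
    show h * (h⁻¹ * (w : G) * h) * h⁻¹ = (w : G)
    group)
  map_mul' a b := Subtype.ext (by
    show h * ((a : G) * (b : G)) * h⁻¹ = (h * (a : G) * h⁻¹) * (h * (b : G) * h⁻¹)
    group)

theorem ucs_conj (W : Subgroup G) (h : G) (hh : cj h W = W) (i : ℕ) {x : G}
    (hx : x ∈ (Subgroup.upperCentralSeries ↥W i).map W.subtype) :
    h * x * h⁻¹ ∈ (Subgroup.upperCentralSeries ↥W i).map W.subtype := by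
  obtain ⟨x', hx', rfl⟩ := hx
  refine ⟨conjEquiv W h hh x', ?_, rfl⟩
  have hchar : (Subgroup.upperCentralSeries ↥W i).Characteristic := inferInstance
  have h1 := Subgroup.characteristic_iff_map_eq.mp hchar (conjEquiv W h hh)
  rw [← h1]
  exact Subgroup.mem_map_of_mem _ hx'

end ucs

section product

/-- simultaneous control by the normalizers of finitely many subgroups -/
theorem finset_ctl {R N : Subgroup G} (s : Finset (Subgroup G))
    (hs : ∀ V' ∈ s, V' ≤ R ∧ ∀ A : Subgroup G, A ≤ R → ∀ n ∈ N, cj n A ≤ R →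
      ∃ h ∈ N ⊓ Subgroup.normalizer (V' : Set G),
        ∃ c ∈ N ⊓ Subgroup.centralizer (A : Set G), n = h * c) :
    ∀ A : Subgroup G, A ≤ R → ∀ n ∈ N, cj n A ≤ R →
      ∃ h ∈ N, (∀ V' ∈ s, cj h V' = V') ∧
        ∃ c ∈ N ⊓ Subgroup.centralizer (A : Set G), n = h * c := by
  classical
  induction s using Finset.induction_on with
  | empty =>
    intro A hA n hn hnA
    exact ⟨n, hn, by simp, 1, Subgroup.one_mem _, by simp⟩
  | insert V' s' hV' ih =>
    intro A hA n hn hnA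
    obtain ⟨h, hh, hnorm, c, hc, rfl⟩ :=
      ih (fun V'' hV'' => hs V'' (Finset.mem_insert_of_mem hV'')) A hA n hn hnA
    obtain ⟨hV'R, hV'ctl⟩ := hs V' (Finset.mem_insert_self V' s')
    obtain ⟨U, hU⟩ : ∃ U : Subgroup G, U = sSup (↑s' : Set (Subgroup G)) := ⟨_, rfl⟩
    have hUR : U ≤ R := by
      rw [hU]
      exact sSup_le (fun V'' hV'' => (hs V'' (Finset.mem_insert_of_mem hV'')).1)
    have hleU : ∀ V'' ∈ s', V'' ≤ U := by
      intro V'' hV''
      rw [hU]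
      exact le_sSup hV''
    have hcjU : cj h U ≤ U := by
      rw [cj_le_iff, hU]
      apply sSup_le
      intro V'' hV''
      rw [← cj_le_iff, hnorm V'' hV'', ← hU]
      exact hleU V'' hV''
    have hcA : cj h A ≤ R := by
      rw [← cj_cj, cj_eq_of_mem_centralizer hc.2] at hnA
      exact hnA
    have hcjB : cj h (A ⊔ U) ≤ R := by
      show (A ⊔ U).map _ ≤ _
      rw [Subgroup.map_sup]
      exact sup_le hcA (hcjU.trans hUR)
    obtain ⟨h', hh', c', hc', rfl⟩ := hV'ctl (A ⊔ U) (sup_le hA hUR) h hh hcjB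
    refine ⟨h', hh'.1, ?_, c' * c, ⟨N.mul_mem hc'.1 hc.1,
      Subgroup.mul_mem _ (Subgroup.centralizer_le (show A ≤ A ⊔ U from le_sup_left) hc'.2) hc.2⟩,
      by group⟩
    intro V'' hV''
    rcases Finset.mem_insert.mp hV'' with rfl | hV''
    · exact cj_eq_self_iff.mpr hh'.2
    · have h1 := hnorm V'' hV''
      rw [← cj_cj, cj_eq_of_mem_centralizer
        (Subgroup.centralizer_le ((hleU V'' hV'').trans le_sup_right) hc'.2)] at h1
      exact h1

end product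

section lift

theorem cj_zpowers_le {g w : G} {R : Subgroup G} (h : g * w * g⁻¹ ∈ R) :
    cj g (Subgroup.zpowers w) ≤ R := by
  rintro _ ⟨y, hy, rfl⟩
  obtain ⟨k, rfl⟩ := Subgroup.mem_zpowers_iff.mp hy
  show g * w ^ k * g⁻¹ ∈ R
  rw [← conj_zpow]
  exact Subgroup.zpow_mem _ h k

theorem conj_eq_of_mem_centralizer_zpowers {c w : G}
    (hc : c ∈ Subgroup.centralizer ((Subgroup.zpowers w : Subgroup G) : Set G)) :
    c * w * c⁻¹ = w := by
  have := Subgroup.mem_centralizer_iff.mp hc w (Subgroup.mem_zpowers w)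
  rw [← this]; group

/-- **Local control of fusion lifts from a normal subgroup.** -/
theorem lift_ctl [Finite G] {p : ℕ} [Fact p.Prime] (P : Sylow p G) (G' N : Subgroup G)
    (hPG' : (P : Subgroup G) ≤ G') (hNG' : N ≤ G')
    (hnorm : G' ≤ Subgroup.normalizer (N : Set G))
    (hG' : ∀ (T : Subgroup G) (g : G), T ≤ (P : Subgroup G) → cj g T ≤ (P : Subgroup G) →
      Fac G' T g)
    (V : Subgroup G) (hV : V ≤ (P : Subgroup G) ⊓ N)
    (hctrl : ∀ A : Subgroup G, A ≤ (P : Subgroup G) ⊓ N → ∀ n ∈ N,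
      cj n A ≤ (P : Subgroup G) ⊓ N →
      ∃ h ∈ N ⊓ Subgroup.normalizer (V : Set G),
        ∃ c ∈ N ⊓ Subgroup.centralizer (A : Set G), n = h * c)
    (W : Subgroup G)
    (hW : W = Subgroup.closure (⋃ x ∈ G' ⊓ Subgroup.normalizer
      (((P : Subgroup G) ⊓ N : Subgroup G) : Set G), ((cj x V : Subgroup G) : Set G))) :
    W ≤ (P : Subgroup G) ⊓ N ∧ V ≤ W ∧
    ∀ (T : Subgroup G) (g : G), T ≤ (P : Subgroup G) → cj g T ≤ (P : Subgroup G) →
      Fac (Subgroup.normalizer (W : Set G)) T g := by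
  classical
  obtain ⟨R, hRdef⟩ : ∃ R : Subgroup G, R = (P : Subgroup G) ⊓ N := ⟨_, rfl⟩
  obtain ⟨M₀, hM₀def⟩ : ∃ M₀ : Subgroup G, M₀ = G' ⊓ Subgroup.normalizer (R : Set G) := ⟨_, rfl⟩
  rw [← hRdef] at hV hctrl hW ⊢
  rw [← hM₀def] at hW
  have hRsyl : IsSylIn p R N := by
    rw [hRdef]
    exact ((sylow_isSylIn P).of_le hPG' le_top).inf_normal hNG' hnorm
  have hM₀R : ∀ x ∈ M₀, cj x R = R := by
    intro x hx
    rw [hM₀def] at hx
    exact cj_eq_of_mem_normalizer hx.2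
  have hM₀N : ∀ x ∈ M₀, ∀ y ∈ N, x * y * x⁻¹ ∈ N ∧ x⁻¹ * y * x ∈ N := by
    intro x hx y hy
    rw [hM₀def] at hx
    have hxN := hnorm hx.1
    refine ⟨(Subgroup.mem_normalizer_iff.mp hxN y).mp hy, ?_⟩
    have := (Subgroup.mem_normalizer_iff.mp (Subgroup.inv_mem _ hxN) y).mp hy
    rwa [inv_inv] at this
  have hcjx : ∀ x ∈ M₀, cj x V ≤ R := by
    intro x hx
    have := cj_mono (g := x) hV
    rwa [hM₀R x hx] at this
  have hgen : ∀ x ∈ M₀, cj x V ≤ W := by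
    intro x hx y hy
    rw [hW]
    apply Subgroup.subset_closure
    simp only [Set.mem_iUnion]
    exact ⟨x, hx, hy⟩
  have hWR : W ≤ R := by
    rw [hW, Subgroup.closure_le]
    intro y hy
    simp only [Set.mem_iUnion] at hy
    obtain ⟨x, hx, hy⟩ := hy
    exact hcjx x hx hy
  have hVW : V ≤ W := by
    have := hgen 1 (Subgroup.one_mem _)
    rwa [cj_one] at this
  -- W is invariant as soon as the generators are permuted
  have hinv : ∀ h : G, (∀ x ∈ M₀, cj h (cj x V) ≤ W) → cj h W = W := by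
    intro h hh
    apply Subgroup.eq_of_le_of_card_ge
    · rw [cj_le_iff, hW, Subgroup.closure_le]
      intro y hy
      simp only [Set.mem_iUnion] at hy
      obtain ⟨x, hx, hy⟩ := hy
      have h1 : h * y * h⁻¹ ∈ W := hh x hx (conj_mem_cj hy)
      show y ∈ cj h⁻¹ _
      rw [mem_cj, inv_inv, ← hW]
      exact h1
    · rw [card_cj]
  have hcjM : ∀ m ∈ M₀, cj m W = W := by
    intro m hm
    apply hinv
    intro x hx
    rw [cj_cj]
    exact hgen (m * x) (M₀.mul_mem hm hx)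
  -- conjugates of `V` also control fusion in `N`
  have hconj : ∀ x ∈ M₀, ∀ A : Subgroup G, A ≤ R → ∀ n ∈ N, cj n A ≤ R →
      ∃ h ∈ N ⊓ Subgroup.normalizer ((cj x V : Subgroup G) : Set G),
        ∃ c ∈ N ⊓ Subgroup.centralizer (A : Set G), n = h * c := by
    intro x hx A hA n hn hnA
    have hxi : x⁻¹ ∈ M₀ := M₀.inv_mem hx
    have hA₁ : cj x⁻¹ A ≤ R := by
      have := cj_mono (g := x⁻¹) hA
      rwa [hM₀R _ hxi] at this
    have hn₁ : x⁻¹ * n * x ∈ N := (hM₀N x hx n hn).2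
    have hnA₁ : cj (x⁻¹ * n * x) (cj x⁻¹ A) ≤ R := by
      rw [cj_cj]
      have e : x⁻¹ * n * x * x⁻¹ = x⁻¹ * n := by group
      rw [e, ← cj_cj]
      have := cj_mono (g := x⁻¹) hnA
      rwa [hM₀R _ hxi] at this
    obtain ⟨h₁, hh₁, c₁, hc₁, e⟩ := hctrl _ hA₁ _ hn₁ hnA₁
    refine ⟨x * h₁ * x⁻¹, ⟨(hM₀N x hx _ hh₁.1).1, ?_⟩, x * c₁ * x⁻¹,
      ⟨(hM₀N x hx _ hc₁.1).1, ?_⟩, ?_⟩
    · rw [normalizer_cj]
      exact conj_mem_cj hh₁.2
    · have h1 : x * c₁ * x⁻¹ ∈ cj x (Subgroup.centralizer ((cj x⁻¹ A : Subgroup G) : Set G)) :=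
        conj_mem_cj hc₁.2
      rw [← centralizer_cj, cj_cj_inv] at h1
      exact h1
    · calc n = x * (x⁻¹ * n * x) * x⁻¹ := by group
        _ = x * (h₁ * c₁) * x⁻¹ := by rw [e]
        _ = x * h₁ * x⁻¹ * (x * c₁ * x⁻¹) := by group
  -- simultaneous control
  have hfin : Set.Finite {V' : Subgroup G | ∃ x ∈ M₀, V' = cj x V} := Set.toFinite _
  have hN : ∀ A : Subgroup G, A ≤ R → ∀ n ∈ N, cj n A ≤ R →
      ∃ h ∈ N, cj h W = W ∧ ∃ c ∈ N ⊓ Subgroup.centralizer (A : Set G), n = h * c := by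
    intro A hA n hn hnA
    obtain ⟨h, hh, hall, c, hc, e⟩ := finset_ctl (R := R) (N := N) hfin.toFinset (by
      intro V' hV'
      rw [Set.Finite.mem_toFinset] at hV'
      obtain ⟨x, hx, rfl⟩ := hV'
      exact ⟨hcjx x hx, hconj x hx⟩) A hA n hn hnA
    refine ⟨h, hh, ?_, c, hc, e⟩
    apply hinv
    intro x hx
    rw [hall (cj x V) (by rw [Set.Finite.mem_toFinset]; exact ⟨x, hx, rfl⟩)]
    exact hgen x hx
  refine ⟨hWR, hVW, ?_⟩
  -- the chain
  have hWP : W ≤ (P : Subgroup G) := hWR.trans (hRdef ▸ inf_le_left)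
  have hWN : W ≤ N := hWR.trans (hRdef ▸ inf_le_right)
  have hWp : IsPGroup p W := P.isPGroup'.to_le hWP
  have hnil : Group.IsNilpotent ↥W := hWp.isNilpotent
  obtain ⟨n, hn⟩ := Group.IsNilpotent.nilpotent ↥W
  apply sc_chain_ctl P W (fun i => (Subgroup.upperCentralSeries ↥W i).map W.subtype) n
  · show (Subgroup.upperCentralSeries ↥W 0).map W.subtype = ⊥
    rw [Subgroup.upperCentralSeries_zero, Subgroup.map_bot]
  · show (Subgroup.upperCentralSeries ↥W n).map W.subtype = W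
    rw [hn, ← MonoidHom.range_eq_map, Subgroup.range_subtype]
  · intro i
    exact Subgroup.map_mono (Subgroup.upperCentralSeries_mono _ (Nat.le_succ i))
  · intro i
    refine ⟨(Subgroup.map_subtype_le _).trans hWP, fun w hw g hg => ?_⟩
    have hwW : w ∈ W := Subgroup.map_subtype_le _ hw
    obtain ⟨g', hg', c, hc, rfl⟩ := hG' (Subgroup.zpowers w) g
      (by rw [Subgroup.zpowers_le]; exact hWP hwW) (cj_zpowers_le hg)
    have hcw := conj_eq_of_mem_centralizer_zpowers hc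
    have e1 : g' * c * w * (g' * c)⁻¹ = g' * w * g'⁻¹ := by
      calc g' * c * w * (g' * c)⁻¹ = g' * (c * w * c⁻¹) * g'⁻¹ := by group
        _ = g' * w * g'⁻¹ := by rw [hcw]
    rw [e1] at hg ⊢
    obtain ⟨n₀, hn₀, hm⟩ := frattini_isSylIn hRsyl (g := g') (hnorm hg')
    have hmM : n₀ * g' ∈ M₀ := by
      rw [hM₀def]
      exact ⟨G'.mul_mem (hNG' hn₀) hg', hm⟩
    obtain ⟨w₁, hw₁⟩ : ∃ w₁ : G, w₁ = (n₀ * g') * w * (n₀ * g')⁻¹ := ⟨_, rfl⟩
    have hw₁f : w₁ ∈ (Subgroup.upperCentralSeries ↥W i).map W.subtype := by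
      rw [hw₁]
      exact ucs_conj W (n₀ * g') (hcjM _ hmM) i hw
    have e2 : g' * w * g'⁻¹ = n₀⁻¹ * w₁ * n₀⁻¹⁻¹ := by rw [hw₁]; group
    rw [e2] at hg ⊢
    have hw₁W : w₁ ∈ W := Subgroup.map_subtype_le _ hw₁f
    have hR' : n₀⁻¹ * w₁ * n₀⁻¹⁻¹ ∈ R := by
      rw [hRdef]
      refine ⟨hg, N.mul_mem (N.mul_mem (N.inv_mem hn₀) (hWN hw₁W)) ?_⟩
      rw [inv_inv]; exact hn₀
    obtain ⟨h, hh, hhW, c', hc', e3⟩ := hN (Subgroup.zpowers w₁)
      (by rw [Subgroup.zpowers_le]; exact hWR hw₁W) n₀⁻¹ (N.inv_mem hn₀) (cj_zpowers_le hR')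
    have hcw' := conj_eq_of_mem_centralizer_zpowers hc'.2
    have e4 : n₀⁻¹ * w₁ * n₀⁻¹⁻¹ = h * w₁ * h⁻¹ := by
      rw [e3]
      calc h * c' * w₁ * (h * c')⁻¹ = h * (c' * w₁ * c'⁻¹) * h⁻¹ := by group
        _ = h * w₁ * h⁻¹ := by rw [hcw']
    rw [e4]
    exact ucs_conj W h hhW i hw₁f
  · intro i w hw x hx
    obtain ⟨x', hx', rfl⟩ := hx
    have h1 := Subgroup.mem_upperCentralSeries_succ_iff.mp hx' ⟨w, hw⟩
    refine ⟨(⁅x', (⟨w, hw⟩ : ↥W)⁆)⁻¹, Subgroup.inv_mem _ h1, ?_⟩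
    show ((x' : G) * w * (x' : G)⁻¹ * w⁻¹)⁻¹ = w * (x' : G) * w⁻¹ * (x' : G)⁻¹
    group

end lift

end Cfsg.Agent.Lib.Helper3.FC
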