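import Cfsg.Agent.Lib.Helper70.HeODefs

/-! S2075 (helper70; `|Out(He)| = 2`), second round, piece SYLH (helper3): the hypotheses of SYLC
for the 16 elements of `W`. -/

set_option autoImplicit false
set_option maxRecDepth 100000

namespace Cfsg.Agent.Lib.Helper3.HeOSYLH

open Cfsg.Agent.Lib.Helper39.HeOrd Cfsg.Agent.Lib.Helper70.HeC Cfsg.Agent.Lib.Helper70.HeO
open Cfsg.Agent.Lib.Helper70.HeM (Wd)

/-- PIECE SYLH: the elements of `W`. -/
noncomputable def eW : Fin 16 → G := fun i => ew (Fin.castLE (by decide) i)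

theorem sylh_xor_comm : ∀ i j : Fin 64, i ^^^ j = j ^^^ i := by decide

theorem sylh_tr : ∀ j : Fin 16, j ≠ 0 → j ≠ 1 →
    ∃ L ∈ HLL, tabC L 2 = Fin.castLE (by decide) j := by decide +kernel

theorem sylh_comm (i j : Fin 64) : ew i * ew j = ew j * ew i := by
  rw [hmulw, hmulw, sylh_xor_comm]

theorem sylh_conj (i j : Fin 64) : ew i * ew j * (ew i)⁻¹ = ew j := by
  rw [sylh_comm i j, mul_assoc, mul_inv_cancel, mul_one]

theorem sylh_cast (i : Fin 64) (hi : i.val < 16) : ew i = eW ⟨i.val, hi⟩ := rfl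

theorem sylh_cent {c : G} (hc : c * zE = zE * c) : c ∈ Subgroup.centralizer ({zE} : Set G) := by
  rw [Subgroup.mem_centralizer_iff]
  intro h hh
  rw [Set.mem_singleton_iff.mp hh]
  exact hc.symm

/-- PIECE SYLH.  The hypotheses of SYLC for `eW`. -/
theorem syl_hyps
    (hdec1 : ∀ g ∈ Subgroup.centralizer ({zE} : Set G), ∃ a i, g = wOf a * fH i)
    (hdec2 : ∀ g ∈ Subgroup.centralizer ({zE} : Set G), (∀ a, (wOf a)⁻¹ * g * wOf a ∈ H0) → g = 1) :
    eW 0 = 1 ∧ eW 1 = zE ∧ Function.Injective eW ∧ (∀ i j, ∃ k, eW i * eW j = eW k) ∧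
    (∀ i, eW i * zE = zE * eW i) ∧
    (∀ c : G, c * zE = zE * c → ∀ i, ∃ j, c * eW i * c⁻¹ = eW j) ∧
    (∀ c : G, c * zE = zE * c → (∀ i, c * eW i = eW i * c) → ∃ i, c = eW i) ∧
    (∀ j : Fin 16, j ≠ 0 → j ≠ 1 → ∃ c : G, c * zE = zE * c ∧ c * eW 2 * c⁻¹ = eW j) := by
  refine ⟨?_, ?_, ?_, ?_, ?_, ?_, ?_, ?_⟩
  · exact ew_zero
  · exact ew_one
  · intro i j h
    have h1 := ew_inj _ _ i.isLt j.isLt h
    exact Fin.castLE_injective _ h1
  · intro i j
    refine ⟨⟨(Fin.castLE (by decide) i ^^^ Fin.castLE (by decide) j : Fin 64).val,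
      xor_lt16 _ _ i.isLt j.isLt⟩, ?_⟩
    exact hmulw _ _
  · intro i
    show ew _ * zE = zE * ew _
    rw [← ew_one]
    exact sylh_comm _ _
  · intro c hc i
    obtain ⟨a, k, rfl⟩ := hdec1 c (sylh_cent hc)
    obtain ⟨j, hj, e1⟩ := hnorm' (fH k) (mem_fH k) (Fin.castLE (by decide) i) i.isLt
    refine ⟨⟨j.val, hj⟩, ?_⟩
    show wOf a * fH k * ew (Fin.castLE (by decide) i) * (wOf a * fH k)⁻¹ = ew j
    have h1 : wOf a * fH k * ew (Fin.castLE (by decide) i) * (wOf a * fH k)⁻¹ =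
        wOf a * (fH k * ew (Fin.castLE (by decide) i) * (fH k)⁻¹) * (wOf a)⁻¹ := by group
    rw [h1, e1]
    exact sylh_conj _ _
  · intro c hc hcomm
    obtain ⟨a, k, rfl⟩ := hdec1 c (sylh_cent hc)
    have hk : ∀ i : Fin 64, i.val < 16 → fH k * ew i = ew i * fH k := by
      intro i hi
      have h1 : wOf a * fH k * ew i = ew i * (wOf a * fH k) := hcomm ⟨i.val, hi⟩
      have h2 : ew i * wOf a = wOf a * ew i := sylh_comm _ _
      have h3 : wOf a * (fH k * ew i) = wOf a * (ew i * fH k) := by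
        rw [← mul_assoc, h1, ← mul_assoc, h2, mul_assoc]
      exact mul_left_cancel h3
    have hone : fH k = 1 := by
      apply hdec2 (fH k) (sylh_cent (hcz _ (mem_fH k)))
      intro b
      have h1 : fH k * wOf b = wOf b * fH k := hk (iota b) (iota_lt b)
      have h2 : (wOf b)⁻¹ * fH k * wOf b = fH k := by
        rw [mul_assoc, h1, ← mul_assoc, inv_mul_cancel, one_mul]
      rw [h2]
      exact mem_fH k
    refine ⟨⟨(iota a).val, iota_lt a⟩, ?_⟩
    rw [hone, mul_one]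
    exact sylh_cast (iota a) (iota_lt a)
  · intro j hj0 hj1
    obtain ⟨L, hL, hL2⟩ := sylh_tr j hj0 hj1
    refine ⟨Wd (hWd L), hcz _ (mem_word L), ?_⟩
    have h1 := act_word L 2
    rw [hL2] at h1
    exact h1

end Cfsg.Agent.Lib.Helper3.HeOSYLH
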