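import Mathlib
import Cfsg.Agent.Lib.Helper3.WC5

set_option autoImplicit false

/-!
# Glauberman: elements of `Z(N(J(S)))` are weakly closed (helper3)

`wc_s4free`: the case `p = 2`, `S₄` not involved (trace argument with the family of largest
abelian subgroups normalized by `V = Z(O₂(H))`, not centralizing `V`, with `|A ∩ V|` maximal).
`thompson_center_weakly_closed`: the three cases together.
-/

namespace Cfsg.Agent.Lib.Helper3.WC

open Cfsg Cfsg.Agent.Lib.Helper42 Cfsg.Agent.Lib.Helper59 Cfsg.Agent.Lib.Helper2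
open scoped commutatorElement

section main

variable {G : Type*} [Group G] [Finite G]

set_option maxHeartbeats 1600000 in
theorem wc_s4free (hnS4 : ¬ Involves (Equiv.Perm (Fin 4)) G) :
    ∀ (n : ℕ) (H T : Subgroup G) (x : G), Nat.card H = n → IsSylIn 2 T H →
      Adm (fun P => Cfsg.thompsonSubgroupAOf P) 1 H T {x} → WCl H T {x} := by
  have hW : Cfsg.IsConjugacyFunctor (G := G) 2 (fun P => Cfsg.thompsonSubgroupAOf P) :=
    isConjugacyFunctor_thompsonA 2
  have hWZ : ∀ P : Subgroup G, IsPGroup 2 ↥P → P ⊓ Subgroup.centralizer (P : Set G) ≤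
      (fun P => Cfsg.thompsonSubgroupAOf P) P := fun P _ => center_le_thompsonA P
  intro n
  induction n using Nat.strong_induction_on with
  | _ n ih =>
  intro H T x hn hT hAdm
  by_contra hnwc
  have IH : ∀ K T' : Subgroup G, K ≤ H → K ≠ H → IsSylIn 2 T' K →
      Adm (fun P => Cfsg.thompsonSubgroupAOf P) 1 K T' {x} → WCl K T' {x} := by
    intro K T' hKH hKne hT' hAdm'
    exact ih (Nat.card K) (hn ▸ card_lt_of_lt (lt_of_le_of_ne hKH hKne)) K T' x rfl hT' hAdm'
  obtain ⟨hBP, hii, hiv, hiii⟩ := wc_min_structure hW hWZ IH hT hAdm hnwc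
  by_cases hnorm : H ≤ Subgroup.normalizer ((Cfsg.thompsonSubgroupAOf T : Subgroup G) : Set G)
  · apply hnwc
    intro h hh _
    exact hAdm.2 ⟨hh, hnorm hh⟩
  · set R := Cfsg.pCoreOf 2 H with hR
    set V := R ⊓ Subgroup.centralizer (R : Set G) with hV
    have hPn := le_normalizer_pCoreOf 2 H
    have hRT : R ≤ T := hT.normal_le (pCoreOf_le 2 H) (isPGroup_pCoreOf 2 H) hPn
    have hVab : ∀ u ∈ V, ∀ v ∈ V, u * v = v * u := by
      intro u hu v hv
      exact (Subgroup.mem_centralizer_iff.mp hv.2) u hu.1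
    have hVn : ∀ x ∈ H, cj x V = V := by
      intro x hx
      rw [hV, cj_inf, ← centralizer_cj, cj_eq_of_mem_normalizer (hPn hx)]
    have hVH : V ≤ H := inf_le_left.trans (pCoreOf_le 2 H)
    have hVn' : H ≤ Subgroup.normalizer (V : Set G) := fun k hk => cj_eq_self_iff.mp (hVn k hk)
    have hVp : IsPGroup 2 V := (isPGroup_pCoreOf 2 H).to_le inf_le_left
    have hVT : V ≤ T := inf_le_left.trans hRT
    have hxV : x ∈ V := hiii (hAdm.subset_center (Set.mem_singleton x))
    have hTcs : T ≤ cstab {x} := hAdm.le_cstab hW hT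
    have hxT : ∀ t ∈ T, t * x * t⁻¹ = x := fun t ht => mem_cstab_singleton.mp (hTcs ht)
    have hRC : R ≤ Subgroup.centralizer (V : Set G) := by
      intro r hr
      rw [Subgroup.mem_centralizer_iff]
      intro v hv
      exact ((Subgroup.mem_centralizer_iff.mp hv.2) r hr).symm
    have hCx : H ⊓ Subgroup.centralizer (V : Set G) ≤ cstab {x} := by
      rintro c ⟨-, hc⟩
      rw [mem_cstab_singleton]
      have := (Subgroup.mem_centralizer_iff.mp hc) x hxV
      rw [← this]; group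
    have hCn : H ≤ Subgroup.normalizer
        ((H ⊓ Subgroup.centralizer (V : Set G) : Subgroup G) : Set G) := by
      apply le_normalizer_of_conj_mem
      rintro k hk n ⟨hnH, hnC⟩
      refine ⟨H.mul_mem (H.mul_mem hk hnH) (H.inv_mem hk), ?_⟩
      have := conj_mem_cj (g := k) hnC
      rwa [← centralizer_cj, hVn k hk] at this
    have hTC : T ⊓ Subgroup.centralizer (V : Set G) ≤ R := by
      intro t ht
      exact hiv _ inf_le_left hCn hCx ⟨ht.1, hT.1 ht.1, ht.2⟩
    have hO : ∀ N : Subgroup G, N ≤ H → H ≤ Subgroup.normalizer (N : Set G) →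
        N ≤ T ⊔ (H ⊓ Subgroup.centralizer (V : Set G)) →
        T ⊓ N ≤ Subgroup.centralizer (V : Set G) := by
      intro N hNH hNn hNle
      have hNx : N ≤ cstab {x} := hNle.trans (sup_le hTcs hCx)
      exact (hiv N hNH hNn hNx).trans hRC
    have hexA : ∃ A, MaxAb T A ∧ ¬ A ≤ Subgroup.centralizer (V : Set G) := by
      by_contra hcon
      push Not at hcon
      apply hnorm
      rw [thompsonSubgroupAOf_eq_JJ]
      exact normalizer_JJ_of_all_le hRT hPn
        (fun A hA => (le_inf hA.1 (hcon A hA)).trans hTC)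
    obtain ⟨A₀, hA₀, hne₀⟩ := hexA
    obtain ⟨A₁, hA₁, hA₁c, hVA₁⟩ := exists_maxAb_normalized T V hT.2.1 hVT
      (isMulCommutative_of_mul_comm hVab) (hT.1.trans hVn') A₀ hA₀ hne₀
    obtain ⟨Am, hAm, hAmax⟩ := Set.exists_max_image
      {A : Subgroup G | MaxAb T A ∧ ¬ A ≤ Subgroup.centralizer (V : Set G) ∧
        V ≤ Subgroup.normalizer (A : Set G)}
      (fun A : Subgroup G => Nat.card (A ⊓ V : Subgroup G)) (Set.toFinite _)
      ⟨A₁, hA₁, hA₁c, hVA₁⟩
    set 𝓕 : Set (Subgroup G) := {A | (MaxAb T A ∧ ¬ A ≤ Subgroup.centralizer (V : Set G) ∧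
      V ≤ Subgroup.normalizer (A : Set G)) ∧
      Nat.card (A ⊓ V : Subgroup G) = Nat.card (Am ⊓ V : Subgroup G)} with h𝓕
    have hFT : ∀ E ∈ 𝓕, E ≤ T := fun E hE => hE.1.1.1
    have hF : ∀ E ∈ 𝓕, ∀ w ∈ V, ∀ s ∈ E,
        (∀ l ∈ E, l * w * l⁻¹ = w ∨ (s⁻¹ * l) * w * (s⁻¹ * l)⁻¹ = w) → s * w * s⁻¹ = w := by
      intro E hE w hw s hs hall
      exact no_two_orbit hnS4 hT hVT hVn' hVab hVp hO hE.1.1 hE.1.2.2
        (fun B hB hBc hBn => by rw [hE.2]; exact hAmax B ⟨hB, hBc, hBn⟩) hw hs hall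
    have hFconj : ∀ k ∈ H, ∀ E ∈ 𝓕, cj k E ≤ T → cj k E ∈ 𝓕 := by
      intro k hk E hE hle
      have hkV : cj k V = V := hVn k hk
      refine ⟨⟨⟨hle, comm_map _ hE.1.1.2.1, fun B hB hBc => by
        rw [card_cj]; exact hE.1.1.2.2 B hB hBc⟩, ?_, ?_⟩, ?_⟩
      · intro h
        apply hE.1.2.1
        have h1 := cj_mono (g := k⁻¹) h
        rw [cj_inv_cj, ← centralizer_cj, hVn k⁻¹ (H.inv_mem hk)] at h1
        exact h1
      · have h1 := cj_mono (g := k) hE.1.2.2
        rw [hkV, ← normalizer_cj] at h1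
        exact h1
      · have : cj k E ⊓ V = cj k (E ⊓ V) := by rw [cj_inf, hkV]
        rw [this, card_cj]; exact hE.2
    have hmove : ∀ h ∈ H, h * x * h⁻¹ ≠ x →
        ∃ E ∈ 𝓕, E ≤ T ∧ ∃ e ∈ E, e * (h * x * h⁻¹) * e⁻¹ ≠ h * x * h⁻¹ := by
      intro h hh hne
      by_contra hall
      push Not at hall
      set TE := Subgroup.closure {e : G | ∃ E ∈ 𝓕, e ∈ E} with hTE
      have hTET : TE ≤ T := (Subgroup.closure_le _).mpr (fun e ⟨E, hE, he⟩ => hFT E hE he)
      have hTEp : IsPGroup 2 TE := hT.2.1.to_le hTET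
      have hnorm_of : ∀ k ∈ H, (∀ E ∈ 𝓕, cj k E ≤ T) →
          k ∈ Subgroup.normalizer (TE : Set G) := by
        intro k hk hkT
        rw [← cj_eq_self_iff]
        have hle : cj k TE ≤ TE := by
          show (Subgroup.closure _).map _ ≤ _
          rw [MonoidHom.map_closure, Subgroup.closure_le]
          rintro _ ⟨e, ⟨E, hE, he⟩, rfl⟩
          exact Subgroup.subset_closure ⟨cj k E, hFconj k hk E hE (hkT E hE), conj_mem_cj he⟩
        exact Subgroup.eq_of_le_of_card_ge hle (by rw [card_cj])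
      have hTN : T ≤ H ⊓ Subgroup.normalizer (TE : Set G) := fun t ht =>
        ⟨hT.1 ht, hnorm_of t (hT.1 ht) (fun E hE => by
          have := cj_mono (g := t) (hFT E hE)
          rwa [cj_eq_of_mem ht] at this)⟩
      have hTEy : ∀ u ∈ TE, u * (h * x * h⁻¹) * u⁻¹ = h * x * h⁻¹ := by
        intro u hu
        induction hu using Subgroup.closure_induction with
        | mem e he =>
          obtain ⟨E, hE, heE⟩ := he
          exact hall E hE (hFT E hE) e heE
        | one => group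
        | mul a b _ _ ha hb =>
          calc a * b * (h * x * h⁻¹) * (a * b)⁻¹ = a * (b * (h * x * h⁻¹) * b⁻¹) * a⁻¹ := by group
            _ = h * x * h⁻¹ := by rw [hb, ha]
        | inv a _ ha =>
          have e1 : a⁻¹ * (a * (h * x * h⁻¹) * a⁻¹) * a⁻¹⁻¹ = h * x * h⁻¹ := by group
          rw [ha] at e1
          exact e1
      have hsub : cj h⁻¹ TE ≤ H ⊓ cstab {x} := by
        rintro _ ⟨u, hu, rfl⟩
        refine ⟨?_, ?_⟩
        · show h⁻¹ * u * h⁻¹⁻¹ ∈ H
          exact H.mul_mem (H.mul_mem (H.inv_mem hh) (hT.1 (hTET hu))) (H.inv_mem (H.inv_mem hh))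
        · show h⁻¹ * u * h⁻¹⁻¹ ∈ cstab {x}
          rw [mem_cstab_singleton]
          have := hTEy u hu
          calc h⁻¹ * u * h⁻¹⁻¹ * x * (h⁻¹ * u * h⁻¹⁻¹)⁻¹
              = h⁻¹ * (u * (h * x * h⁻¹) * u⁻¹) * h := by group
            _ = x := by rw [this]; group
      have hTSt : IsSylIn 2 T (H ⊓ cstab {x}) := hT.of_le (le_inf hT.1 hTcs) inf_le_left
      obtain ⟨c, hc, hcle⟩ := hTSt.exists_conj_le hsub (isPGroup_cj hTEp)
      rw [cj_cj] at hcle
      have hkH : c * h⁻¹ ∈ H := H.mul_mem hc.1 (H.inv_mem hh)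
      have hEle : ∀ E ∈ 𝓕, E ≤ TE := fun E hE e he => Subgroup.subset_closure ⟨E, hE, he⟩
      have hkN : c * h⁻¹ ∈ Subgroup.normalizer (TE : Set G) := hnorm_of _ hkH
        (fun E hE => (cj_mono (hEle E hE)).trans hcle)
      by_cases hKE : H ⊓ Subgroup.normalizer (TE : Set G) = H
      · have hTER : TE ≤ R :=
          le_pCoreOf (hTET.trans hT.1) hTEp (by rw [← hKE]; exact inf_le_right)
        have hAmF : Am ∈ 𝓕 := ⟨hAm, rfl⟩
        exact hAm.2.1 (fun a ha => hRC (hTER (Subgroup.subset_closure ⟨Am, hAmF, ha⟩)))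
      · have h1 : c * h⁻¹ ∈ cstab {x} := hii _ hTN inf_le_left hKE ⟨hkH, hkN⟩
        have h2 : h⁻¹ ∈ cstab {x} := by
          have := (cstab {x}).mul_mem ((cstab {x}).inv_mem hc.2) h1
          simpa using this
        have h3 : h ∈ cstab {x} := by simpa using (cstab {x}).inv_mem h2
        exact hne (mem_cstab_singleton.mp h3)
    have hall := trq2_concrete hVH hVn' hVab hVp hT hxV hxT 𝓕
      (fun E hE => (hFT E hE).trans hT.1) hF hmove
    apply hnwc
    intro h hh _
    exact mem_cstab_singleton.mpr (hall h hh)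

/-- **Glauberman**: an element of `S ∩ Z(N_G(J(S)))` is weakly closed in `S`, if `p` is odd, or
the element is a `p`-th power of an element of `Z(S)`, or `S₄` is not involved in `G`. -/
theorem thompson_center_weakly_closed {p : ℕ} [Fact p.Prime] (S : Sylow p G) (x : G)
    (hxS : x ∈ (S : Subgroup G))
    (hxZ : x ∈ (Subgroup.center ↥(Subgroup.normalizer
      ((Cfsg.thompsonSubgroupAOf (S : Subgroup G)) : Set G))).map
        (Subgroup.normalizer ((Cfsg.thompsonSubgroupAOf (S : Subgroup G)) : Set G)).subtype)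
    (h : p ≠ 2 ∨ (∃ z ∈ (S : Subgroup G) ⊓ Subgroup.centralizer ((S : Subgroup G) : Set G),
      z ^ p = x) ∨ ¬ Cfsg.Involves (Equiv.Perm (Fin 4)) G) :
    ∀ g : G, g * x * g⁻¹ ∈ (S : Subgroup G) → g * x * g⁻¹ = x := by
  have hW : Cfsg.IsConjugacyFunctor (G := G) p (fun P => Cfsg.thompsonSubgroupAOf P) :=
    isConjugacyFunctor_thompsonA p
  have hWZ : ∀ P : Subgroup G, IsPGroup p ↥P → P ⊓ Subgroup.centralizer (P : Set G) ≤
      (fun P => Cfsg.thompsonSubgroupAOf P) P := fun P _ => center_le_thompsonA P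
  have hloc : ∀ (H T : Subgroup G), T ≤ H → IsPGroup p ↥T → ¬ p ∣ T.relIndex H →
      ¬ H ≤ Subgroup.normalizer
        (((fun P => Cfsg.thompsonSubgroupAOf P) T : Subgroup G) : Set G) →
      ∃ g : G, g ∈ T ∧ g ∉ Cfsg.pCoreOf p H ∧
        ⁅⁅Cfsg.pCoreOf p H ⊓ Subgroup.centralizer ((Cfsg.pCoreOf p H : Subgroup G) : Set G),
          Subgroup.zpowers g⁆, Subgroup.zpowers g⁆ = ⊥ :=
    fun H T hTH hTp hidx hnn => hloc_thompsonA H T hTH hTp hidx hnn
  have hS := sylow_isSylIn S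
  have hxN : ∀ n ∈ Subgroup.normalizer ((Cfsg.thompsonSubgroupAOf (S : Subgroup G)) : Set G),
      n * x * n⁻¹ = x := by
    obtain ⟨z, hz, rfl⟩ := hxZ
    intro n hn
    have h1 := (Subgroup.mem_center_iff.mp hz) ⟨n, hn⟩
    have h2 : n * (z : G) = (z : G) * n := congrArg Subtype.val h1
    show n * (z : G) * n⁻¹ = (z : G)
    rw [h2]; group
  have hSN : (S : Subgroup G) ≤ Subgroup.normalizer
      ((Cfsg.thompsonSubgroupAOf (S : Subgroup G)) : Set G) :=
    Subgroup.le_normalizer.trans (conjFunctor_normalizer_le hW S.isPGroup')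
  have hxZS : x ∈ (S : Subgroup G) ⊓ Subgroup.centralizer ((S : Subgroup G) : Set G) := by
    refine Subgroup.mem_inf.mpr ⟨hxS, ?_⟩
    rw [Subgroup.mem_centralizer_iff]
    intro s hs
    have := hxN s (hSN hs)
    calc s * x = (s * x * s⁻¹) * s := by group
      _ = x * s := by rw [this]
  have hAdm1 : Adm (fun P => Cfsg.thompsonSubgroupAOf P) 1 ⊤ (S : Subgroup G) {x} := by
    refine ⟨?_, ?_⟩
    · intro b hb
      rw [Set.mem_singleton_iff] at hb
      subst hb
      exact ⟨b, hxZS, pow_one b⟩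
    · rintro n ⟨-, hn⟩
      rw [mem_cstab_singleton]
      exact hxN n hn
  have hfin : ∀ hwc : WCl ⊤ (S : Subgroup G) {x},
      ∀ g : G, g * x * g⁻¹ ∈ (S : Subgroup G) → g * x * g⁻¹ = x := by
    intro hwc g hg
    have h1 := hwc g (Subgroup.mem_top g) (by
      rintro _ ⟨a, ha, rfl⟩
      rw [Set.mem_singleton_iff] at ha; subst ha; exact hg)
    exact mem_cstab_singleton.mp h1
  have hodd : p ≠ 2 → ∀ g : G, g * x * g⁻¹ ∈ (S : Subgroup G) → g * x * g⁻¹ = x := fun hp2 =>
    hfin (wc_quadratic_odd hp2 hW hWZ hloc _ ⊤ (S : Subgroup G) x rfl hS hAdm1)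
  rcases h with hp2 | ⟨z, hz, hzx⟩ | hS4
  · exact hodd hp2
  · have hAdm : Adm (fun P => Cfsg.thompsonSubgroupAOf P) p ⊤ (S : Subgroup G) {x} := by
      refine ⟨?_, hAdm1.2⟩
      intro b hb
      rw [Set.mem_singleton_iff] at hb
      subst hb
      exact ⟨z, hz, hzx⟩
    exact hfin (wc_quadratic hW hWZ hloc _ ⊤ (S : Subgroup G) {x} rfl hS hAdm)
  · by_cases hp2 : p = 2
    · subst hp2
      exact hfin (wc_s4free hS4 _ ⊤ (S : Subgroup G) x rfl hS hAdm1)
    · exact hodd hp2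

end main

end Cfsg.Agent.Lib.Helper3.WC
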