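import Mathlib
import Cfsg.Agent.Lib.Helper18.LSDefs
import Cfsg.Agent.Lib.Helper18.WRDefs

/-!
# Project WR (helper18, S2347), piece SHEARODD (proved by helper3)
-/

set_option autoImplicit false

namespace Cfsg.Agent.Lib.Helper18.WR

open Matrix

universe u

variable {F : Type u} [Field F] {n : ℕ}

private theorem shearodd_mulVec (u₀ ℓ x : Fin n → F) :
    (1 + vecMulVec u₀ ℓ) *ᵥ x = x + (ℓ ⬝ᵥ x) • u₀ := by
  rw [add_mulVec, one_mulVec, vecMulVec_mulVec, op_smul_eq_smul]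

private theorem shearodd_qf (M : Matrix (Fin n) (Fin n) F) (u₀ ℓ x : Fin n → F) :
    LS.qf M ((1 + vecMulVec u₀ ℓ) *ᵥ x) =
      LS.qf M x + (ℓ ⬝ᵥ x) ^ 2 * LS.qf M u₀ + (ℓ ⬝ᵥ x) * LS.bl M x u₀ := by
  rw [shearodd_mulVec, LS.qf_add, LS.qf_smul, LS.bl_smul_right]

theorem shear_inj_odd (h2 : (2 : F) ≠ 0) (M : Matrix (Fin n) (Fin n) F) (u₀ : Fin n → F)
    (hα : LS.qf M u₀ ≠ 0) (ℓ ℓ' : Fin n → F) (hℓ : ℓ ⬝ᵥ u₀ = 0) (hℓ' : ℓ' ⬝ᵥ u₀ = 0)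
    (heq : ∀ x : Fin n → F,
      LS.qf M ((1 + vecMulVec u₀ ℓ) *ᵥ x) = LS.qf M ((1 + vecMulVec u₀ ℓ') *ᵥ x)) :
    ℓ = ℓ' := by
  have key : ∀ x : Fin n → F, (ℓ ⬝ᵥ x - ℓ' ⬝ᵥ x) *
      ((ℓ ⬝ᵥ x + ℓ' ⬝ᵥ x) * LS.qf M u₀ + LS.bl M x u₀) = 0 := by
    intro x
    have h := heq x
    rw [shearodd_qf, shearodd_qf] at h
    linear_combination h
  have hx : ∀ x : Fin n → F, ℓ ⬝ᵥ x = ℓ' ⬝ᵥ x := by
    intro x
    by_contra hne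
    have h1 := key x
    have h2' := key (x + u₀)
    rw [dotProduct_add, dotProduct_add, hℓ, hℓ', add_zero, add_zero, LS.bl_add_left,
      LS.bl_eq M u₀ u₀] at h2'
    have hd : ℓ ⬝ᵥ x - ℓ' ⬝ᵥ x ≠ 0 := sub_ne_zero.mpr hne
    have e1 := (mul_eq_zero.mp h1).resolve_left hd
    have e2 := (mul_eq_zero.mp h2').resolve_left hd
    have h3 : (2 : F) * LS.qf M u₀ = 0 := by
      have h4 : u₀ ⬝ᵥ (M *ᵥ u₀) = LS.qf M u₀ := rfl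
      rw [h4] at e2
      linear_combination e2 - e1
    exact (mul_ne_zero h2 hα) h3
  funext i
  have h := hx (Pi.single i 1)
  simpa using h

end Cfsg.Agent.Lib.Helper18.WR
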